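import Cfsg.Agent.Tri4.Main

/-!
# A strongly closed `3³` with normalizer `3³ : S₄` is normal: the order (helper45)
-/

set_option autoImplicit false
set_option maxRecDepth 100000
set_option maxHeartbeats 1000000

open scoped ComplexConjugate
open Cfsg Cfsg.Agent.CharBase

namespace Cfsg.Agent.Tri4

open Multiplicative Tri3

/-- the three representatives -/
def FF : Fin 3 → A3 := ![(1, 0, 0), (1, 1, 0), (1, 1, 1)]
def XV : Fin 3 → (ℕ → ℤ) → ℤ := ![xv1, xv2, xv3]

theorem FF_ne : ∀ i, FF i ≠ 0 := by decide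
theorem FF_wt : wt (FF 0) = 1 ∧ wt (FF 1) = 2 ∧ wt (FF 2) = 3 := by decide

section

variable {G : Type*} [Group G] [Finite G] {H : Subgroup G} (D : Con H)

theorem Con.orth [Fintype (IrrCharacter G)] (a b : Fin 9) :
    ∑ χ : IrrCharacter G, (χ : G → ℂ) (D.mm (sp a)) * conj ((χ : G → ℂ) (D.mm (sp b))) =
      if a = b then (spc a : ℂ) else 0 := by
  by_cases h : a = b
  · subst h
    rw [if_pos rfl, column_orthogonality_of_isConj (IsConj.refl _), D.sp_card]
  · rw [if_neg h, column_orthogonality_of_not_isConj (D.sp_not_conj h)]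

include D in
theorem Con.gramS [Fintype (IrrCharacter G)] (n : IrrCharacter G → ℕ → ℤ)
    (h7 : ∀ (χ : IrrCharacter G) (i : Fin 9), (i : ℕ) < 7 → (χ : G → ℂ) (D.mm (sp i)) = (VV i (n χ) : ℂ))
    (hA : ∀ χ : IrrCharacter G, (χ : G → ℂ) (D.mm (sp 7)) = (VV 7 (n χ) : ℂ) + (VV 8 (n χ) : ℂ) * qq)
    (hB : ∀ χ : IrrCharacter G, (χ : G → ℂ) (D.mm (sp 8)) = (VV 7 (n χ) : ℂ) - (VV 8 (n χ) : ℂ) * qq) (a b : Fin 9) :
    ∑ χ, VV a (n χ) * VV b (n χ) = if a = b then cc a else 0 := by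
  have hq := qq_sq
  have hq0 := qq_ne
  let S : Fin 9 → Fin 9 → ℤ := fun a b => ∑ χ, VV a (n χ) * VV b (n χ)
  have hsym : ∀ a b, S a b = S b a := fun a b => Finset.sum_congr rfl fun χ _ => mul_comm _ _
  have hcast : ∀ a b, (S a b : ℂ) = ∑ χ : IrrCharacter G, (VV a (n χ) : ℂ) * (VV b (n χ) : ℂ) := by
    intro a b
    simp only [S]
    push_cast
    rfl
  have hcA : ∀ χ : IrrCharacter G, conj ((χ : G → ℂ) (D.mm (sp 7))) = (VV 7 (n χ) : ℂ) + (VV 8 (n χ) : ℂ) * qq := by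
    intro χ
    rw [hA, map_add, map_mul, conj_qq, map_intCast, map_intCast]
  have hcB : ∀ χ : IrrCharacter G, conj ((χ : G → ℂ) (D.mm (sp 8))) = (VV 7 (n χ) : ℂ) - (VV 8 (n χ) : ℂ) * qq := by
    intro χ
    rw [hB, map_sub, map_mul, conj_qq, map_intCast, map_intCast]
  have hc7 : ∀ (χ : IrrCharacter G) (i : Fin 9), (i : ℕ) < 7 →
      conj ((χ : G → ℂ) (D.mm (sp i))) = (VV i (n χ) : ℂ) := by
    intro χ i hi
    rw [h7 χ i hi, map_intCast]
  have hlow : ∀ a b : Fin 9, (a : ℕ) < 7 → (b : ℕ) < 7 → (S a b : ℂ) = if a = b then (spc a : ℂ) else 0 := by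
    intro a b ha hb
    rw [hcast, ← D.orth a b]
    apply Finset.sum_congr rfl
    intro χ _
    rw [h7 χ a ha, hc7 χ b hb]
  have hA7 : ∀ a : Fin 9, (a : ℕ) < 7 → (S a 7 : ℂ) + (S a 8 : ℂ) * qq = 0 := by
    intro a ha
    have h1 := D.orth a 7
    rw [if_neg (by rintro rfl; exact absurd ha (by decide))] at h1
    rw [← h1, hcast, hcast, Finset.sum_mul, ← Finset.sum_add_distrib]
    apply Finset.sum_congr rfl
    intro χ _
    rw [h7 χ a ha, hcA]; ring
  have hB7 : ∀ a : Fin 9, (a : ℕ) < 7 → (S a 7 : ℂ) - (S a 8 : ℂ) * qq = 0 := by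
    intro a ha
    have h1 := D.orth a 8
    rw [if_neg (by rintro rfl; exact absurd ha (by decide))] at h1
    rw [← h1, hcast, hcast, Finset.sum_mul, ← Finset.sum_sub_distrib]
    apply Finset.sum_congr rfl
    intro χ _
    rw [h7 χ a ha, hcB]; ring
  have h77 : (S 7 7 : ℂ) + 2 * (S 7 8 : ℂ) * qq + 3 * (S 8 8 : ℂ) = 12 := by
    have h1 := D.orth 7 7
    rw [if_pos rfl] at h1
    have h2 : ((spc 7 : ℕ) : ℂ) = 12 := by
      have h3 : spc 7 = 12 := rfl
      rw [h3]; norm_num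
    rw [h2] at h1
    rw [← h1, hcast, hcast, hcast, Finset.mul_sum, Finset.sum_mul, Finset.mul_sum, ← Finset.sum_add_distrib,
      ← Finset.sum_add_distrib]
    apply Finset.sum_congr rfl
    intro χ _
    rw [hcA, hA]
    linear_combination (-(VV 8 (n χ) : ℂ) * (VV 8 (n χ) : ℂ)) * hq
  have h88 : (S 7 7 : ℂ) - 2 * (S 7 8 : ℂ) * qq + 3 * (S 8 8 : ℂ) = 12 := by
    have h1 := D.orth 8 8
    rw [if_pos rfl] at h1
    have h2 : ((spc 8 : ℕ) : ℂ) = 12 := by
      have h3 : spc 8 = 12 := rfl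
      rw [h3]; norm_num
    rw [h2] at h1
    rw [← h1, hcast, hcast, hcast, Finset.mul_sum, Finset.sum_mul, Finset.mul_sum, ← Finset.sum_sub_distrib,
      ← Finset.sum_add_distrib]
    apply Finset.sum_congr rfl
    intro χ _
    rw [hcB, hB]
    linear_combination (-(VV 8 (n χ) : ℂ) * (VV 8 (n χ) : ℂ)) * hq
  have h78 : (S 7 7 : ℂ) - 3 * (S 8 8 : ℂ) = 0 := by
    have h1 := D.orth 7 8
    rw [if_neg (by decide)] at h1
    rw [← h1, hcast, hcast, Finset.mul_sum, ← Finset.sum_sub_distrib]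
    apply Finset.sum_congr rfl
    intro χ _
    rw [hcB, hA]
    linear_combination ((VV 8 (n χ) : ℂ) * (VV 8 (n χ) : ℂ)) * hq
  have k77 : S 7 7 = 6 := by
    have : (S 7 7 : ℂ) = 6 := by linear_combination (1 / 4) * h77 + (1 / 4) * h88 + (1 / 2) * h78
    exact_mod_cast this
  have k88 : S 8 8 = 2 := by
    have : (S 8 8 : ℂ) = 2 := by linear_combination (1 / 12) * h77 + (1 / 12) * h88 - (1 / 6) * h78
    exact_mod_cast this
  have k78 : S 7 8 = 0 := by
    have : (S 7 8 : ℂ) * qq = 0 := by linear_combination (1 / 4) * h77 - (1 / 4) * h88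
    rcases mul_eq_zero.1 this with h | h
    · exact_mod_cast h
    · exact absurd h hq0
  have ka7 : ∀ a : Fin 9, (a : ℕ) < 7 → S a 7 = 0 := by
    intro a ha
    have : (S a 7 : ℂ) = 0 := by linear_combination (1 / 2) * hA7 a ha + (1 / 2) * hB7 a ha
    exact_mod_cast this
  have ka8 : ∀ a : Fin 9, (a : ℕ) < 7 → S a 8 = 0 := by
    intro a ha
    have : (S a 8 : ℂ) * qq = 0 := by linear_combination (1 / 2) * hA7 a ha - (1 / 2) * hB7 a ha
    rcases mul_eq_zero.1 this with h | h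
    · exact_mod_cast h
    · exact absurd h hq0
  have hcases : ∀ a : Fin 9, (a : ℕ) < 7 ∨ a = 7 ∨ a = 8 := by decide
  have hcc : ∀ a : Fin 9, (a : ℕ) < 7 → cc a = (spc a : ℤ) := by decide
  change S a b = _
  rcases hcases a with ha | rfl | rfl <;> rcases hcases b with hb | rfl | rfl
  · have h1 := hlow a b ha hb
    by_cases h : a = b
    · rw [if_pos h] at h1 ⊢
      rw [hcc a ha]
      exact_mod_cast h1
    · rw [if_neg h] at h1 ⊢
      exact_mod_cast h1
  · rw [if_neg (by rintro rfl; exact absurd ha (by decide))]; exact ka7 a ha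
  · rw [if_neg (by rintro rfl; exact absurd ha (by decide))]; exact ka8 a ha
  · rw [if_neg (by rintro rfl; exact absurd hb (by decide)), hsym]; exact ka7 b hb
  · rw [if_pos rfl]; exact k77
  · rw [if_neg (by decide)]; exact k78
  · rw [if_neg (by rintro rfl; exact absurd hb (by decide)), hsym]; exact ka8 b hb
  · rw [if_neg (by decide), hsym]; exact k78
  · rw [if_pos rfl]; exact k88

theorem Con.mm_ne_one (i : Fin 9) : D.mm (sp i) ≠ 1 := by
  intro h
  have h1 := D.sp_pow i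
  rw [h, one_pow] at h1
  exact D.f_ne_one (spv_ne i) h1.symm

include D in
theorem Con.card_eq : Nat.card G = 648 := by
  classical
  haveI := Fintype.ofFinite (IrrCharacter G)
  choose d n hd h1 h7 hA hB hcong using D.vals
  let χ0 : IrrCharacter G := ⟨fun _ => 1, isIrrCharacter_one⟩
  have hχ0 : ∀ g : G, (χ0 : G → ℂ) g = 1 := fun _ => rfl
  have hS := D.gramS n h7 hA hB
  have hgr := gram n hS
  have d0 : d χ0 = 1 := by
    have := h1 χ0
    rw [hχ0] at this
    exact_mod_cast this.symm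
  have v0 : ∀ a : Fin 9, VV a (n χ0) = if a = 8 then 0 else 1 := by
    have hcases : ∀ a : Fin 9, (a : ℕ) < 7 ∨ a = 7 ∨ a = 8 := by decide
    have hq0 := qq_ne
    have e1 := hA χ0
    have e2 := hB χ0
    rw [hχ0] at e1 e2
    intro a
    rcases hcases a with ha | rfl | rfl
    · rw [if_neg (by rintro rfl; exact absurd ha (by decide))]
      have := h7 χ0 a ha
      rw [hχ0] at this
      exact_mod_cast this.symm
    · rw [if_neg (by decide)]
      have : (VV 7 (n χ0) : ℂ) = 1 := by linear_combination (-1 / 2) * e1 - (1 / 2) * e2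
      exact_mod_cast this
    · rw [if_pos rfl]
      have : (VV 8 (n χ0) : ℂ) * qq = 0 := by linear_combination (-1 / 2) * e1 + (1 / 2) * e2
      rcases mul_eq_zero.1 this with h | h
      · exact_mod_cast h
      · exact absurd h hq0
  have n0 : ∀ i : Fin 9, n χ0 i = pr i := by
    intro i
    have h2 := WW_eq (n χ0) i
    have h3 := pr_num i
    simp only [v0] at h2
    rw [h3] at h2
    linarith
  let Y := {χ : IrrCharacter G // χ ≠ χ0}
  have hM : ∀ i j, i ≤ j → j < 9 → ∑ x : Y, n x.1 i * n x.1 j = MG i j := by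
    intro i j hij hj
    have h2 := hgr ⟨i, by omega⟩ ⟨j, hj⟩
    have h3 := sum_ne χ0 (fun χ => n χ i * n χ j)
    change ∑ x : Y, n x.1 i * n x.1 j = _ at h3
    rw [h3]
    have h4 := n0 ⟨i, by omega⟩
    have h5 := n0 ⟨j, hj⟩
    change n χ0 i = _ at h4
    change n χ0 j = _ at h5
    change ∑ y, n y i * n y j = MG i j + _ at h2
    rw [h2, h4, h5]; ring
  have hf : ∀ (i : Fin 3) (χ : IrrCharacter G), (χ : G → ℂ) (D.f (FF i)) = (XV i (n χ) : ℂ) := by
    intro i χ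
    fin_cases i
    · exact (congrArg (χ : G → ℂ) (D.mm_f (1, 0, 0)).symm).trans (h7 χ 0 (by decide))
    · exact (congrArg (χ : G → ℂ) (D.mm_f (1, 1, 0)).symm).trans (h7 χ 1 (by decide))
    · exact (congrArg (χ : G → ℂ) (D.mm_f (1, 1, 1)).symm).trans (h7 χ 2 (by decide))
  have x0 : ∀ i : Fin 3, XV i (n χ0) = 1 := by
    intro i
    have := hf i χ0
    rw [hχ0] at this
    exact_mod_cast this.symm
  have conv : ∀ (i j k : Fin 3) (N : ℕ), (Nat.card G : ℂ) * ∑ χ : IrrCharacter G, (χ : G → ℂ) (D.f (FF i)) *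
      (χ : G → ℂ) (D.f (FF j)) * conj ((χ : G → ℂ) (D.f (FF k))) / (χ : G → ℂ) 1 = (N : ℂ) →
      ((Nat.card G : ℤ) : ℚ) * (1 + cub (fun x : Y => n x.1) (fun x : Y => d x.1) (XV i) (XV j) (XV k)) = (N : ℚ) := by
    intro i j k N h
    have h2 := sum_ne χ0 (fun χ => ((XV i (n χ) * XV j (n χ) * XV k (n χ) : ℤ) : ℚ) / (d χ : ℚ))
    change cub (fun x : Y => n x.1) (fun x : Y => d x.1) (XV i) (XV j) (XV k) = _ at h2
    rw [h2]
    simp only [x0, d0]
    norm_num only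
    have h3 : (((Nat.card G : ℤ) : ℚ) * (∑ χ, ((XV i (n χ) * XV j (n χ) * XV k (n χ) : ℤ) : ℚ) / (d χ : ℚ)) : ℚ) =
        (N : ℚ) := by
      have h4 : (((((Nat.card G : ℤ) : ℚ) * (∑ χ, ((XV i (n χ) * XV j (n χ) * XV k (n χ) : ℤ) : ℚ) / (d χ : ℚ)) : ℚ)) : ℂ) =
          ((N : ℚ) : ℂ) := by
        push_cast
        rw [← h]
        congr 1
        apply Finset.sum_congr rfl
        intro χ _
        rw [hf, hf, hf, h1, map_intCast]
      exact_mod_cast h4
    rw [← h3]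
    push_cast
    ring
  obtain ⟨w1, w2, w3⟩ := FF_wt
  obtain ⟨c1, c2, c3, c4, c5, c6, c7, c8, c9, c10⟩ := cnt_vals
  have q112 := conv 0 0 1 _ (D.cubic (FF_ne 0) (FF_ne 0) (FF_ne 1) (by rw [w1, w2]; decide))
  have q113 := conv 0 0 2 _ (D.cubic (FF_ne 0) (FF_ne 0) (FF_ne 2) (by rw [w1, w3]; decide))
  have q122 := conv 0 1 1 _ (D.cubic (FF_ne 0) (FF_ne 1) (FF_ne 1) (by rw [w1, w2]; decide))
  have q123 := conv 0 1 2 _ (D.cubic (FF_ne 0) (FF_ne 1) (FF_ne 2) (by rw [w1, w2, w3]; decide))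
  have q133 := conv 0 2 2 _ (D.cubic (FF_ne 0) (FF_ne 2) (FF_ne 2) (by rw [w1, w3]; decide))
  have q223 := conv 1 1 2 _ (D.cubic (FF_ne 1) (FF_ne 1) (FF_ne 2) (by rw [w2, w3]; decide))
  have q233 := conv 1 2 2 _ (D.cubic (FF_ne 1) (FF_ne 2) (FF_ne 2) (by rw [w2, w3]; decide))
  obtain ⟨K1, hK1, r1⟩ := D.cubic_ge (q := FF 0) (FF_ne 0) (FF_ne 0)
  obtain ⟨K2, hK2, r2⟩ := D.cubic_ge (q := FF 1) (FF_ne 1) (FF_ne 1)
  obtain ⟨K3, hK3, r3⟩ := D.cubic_ge (q := FF 2) (FF_ne 2) (FF_ne 2)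
  have q111 := conv 0 0 0 _ r1
  have q222 := conv 1 1 1 _ r2
  have q333 := conv 2 2 2 _ r3
  rw [w1, w2] at q122
  rw [w1] at q112 q113 hK1 q111
  rw [w1, w2] at q123
  rw [w1, w3] at q133
  rw [w2] at q223 hK2 q222
  rw [w2, w3] at q233
  rw [w3] at hK3 q333
  have m1 : Con.cnt 1 1 (FF 1) = 2 := c1
  have m2 : Con.cnt 1 1 (FF 2) = 0 := c2
  have m3 : Con.cnt 1 2 (FF 1) = 2 := c3
  have m4 : Con.cnt 1 2 (FF 2) = 3 := c4
  have m5 : Con.cnt 1 3 (FF 2) = 3 := c5
  have m6 : Con.cnt 2 2 (FF 2) = 6 := c6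
  have m7 : Con.cnt 2 3 (FF 2) = 3 := c7
  have m8 : Con.cnt 1 1 (FF 0) = 1 := c8
  have m9 : Con.cnt 2 2 (FF 1) = 5 := c9
  have m10 : Con.cnt 3 3 (FF 2) = 1 := c10
  have z1 : cw 1 = 108 := rfl
  have z2 : cw 2 = 54 := rfl
  have z3 : cw 3 = 81 := rfl
  rw [m1, z1] at q112
  rw [m2, z1] at q113
  rw [m3, z1, z2] at q122
  rw [m4, z1, z2] at q123
  rw [m5, z1, z3] at q133
  rw [m6, z2] at q223
  rw [m7, z2, z3] at q233
  rw [m8] at hK1
  rw [m9] at hK2
  rw [m10] at hK3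
  rw [z1] at q111
  rw [z2] at q222
  rw [z3] at q333
  norm_num only at q112 q113 q122 q123 q133 q223 q233
  push_cast at q111 q222 q333
  have hK1' : (1 : ℚ) ≤ K1 := by exact_mod_cast hK1
  have hK2' : (5 : ℚ) ≤ K2 := by exact_mod_cast hK2
  have hK3' : (1 : ℚ) ≤ K3 := by exact_mod_cast hK3
  -- linear relations
  have lin : ∀ a : Fin 9, (a : ℕ) < 7 → 1 + ∑ x : Y, d x.1 * VV a (n x.1) = 0 := by
    intro a ha
    have h2 := sum_degree_mul (G := G) (D.mm (sp a))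
    rw [if_neg (D.mm_ne_one a)] at h2
    have h3 : (∑ χ, d χ * VV a (n χ) : ℤ) = 0 := by
      have h4 : ((∑ χ, d χ * VV a (n χ) : ℤ) : ℂ) = 0 := by
        push_cast
        rw [← h2]
        apply Finset.sum_congr rfl
        intro χ _
        rw [h1, h7 χ a ha]
      exact_mod_cast h4
    have h5 := sum_ne χ0 (fun χ => d χ * VV a (n χ))
    change ∑ x : Y, d x.1 * VV a (n x.1) = _ at h5
    have h6 : VV a (n χ0) = 1 := by
      rw [v0, if_neg (by rintro rfl; exact absurd ha (by decide))]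
    rw [h5, h3, h6, d0]; ring
  have hsq : ∑ x : Y, d x.1 * d x.1 ≤ (Nat.card G : ℤ) := by
    have h2 := sum_sq_degree (G := G)
    have h3 : (∑ χ, d χ * d χ : ℤ) = (Nat.card G : ℤ) := by
      have h4 : ((∑ χ, d χ * d χ : ℤ) : ℂ) = ((Nat.card G : ℤ) : ℂ) := by
        push_cast
        rw [← h2]
        apply Finset.sum_congr rfl
        intro χ _
        rw [h1]; ring
      exact_mod_cast h4
    have h5 := sum_ne χ0 (fun χ => d χ * d χ)
    change ∑ x : Y, d x.1 * d x.1 = _ at h5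
    rw [h5, h3, d0]; linarith
  have h648 : (648 : ℤ) ∣ (Nat.card G : ℤ) := by
    have h2 : Nat.card H ∣ Nat.card G := Subgroup.card_subgroup_dvd_card H
    rw [D.card_H] at h2
    exact_mod_cast h2
  have hfin := final (fun x : Y => n x.1) (fun x : Y => d x.1) (Nat.card G : ℤ) (fun x => hd x.1)
    (by exact_mod_cast Nat.card_pos) h648 hM (fun x => hcong x.1) hsq (lin 0 (by decide)) (lin 1 (by decide))
    (lin 2 (by decide)) (by
      have e3 := lin 3 (by decide)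
      have e4 := lin 4 (by decide)
      have e5 : 3 * ∑ x : Y, d x.1 * n x.1 1 = (1 + ∑ x : Y, d x.1 * VV 3 (n x.1)) - (1 + ∑ x : Y, d x.1 * VV 4 (n x.1)) := by
        have : (1 + ∑ x : Y, d x.1 * VV 3 (n x.1)) - (1 + ∑ x : Y, d x.1 * VV 4 (n x.1)) =
            ∑ x : Y, d x.1 * VV 3 (n x.1) - ∑ x : Y, d x.1 * VV 4 (n x.1) := by ring
        rw [this, ← Finset.sum_sub_distrib, Finset.mul_sum]
        apply Finset.sum_congr rfl
        intro x _
        have f3 : VV 3 (n x.1) = 2 * n x.1 1 + n x.1 3 - n x.1 6 := rfl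
        have f4 : VV 4 (n x.1) = -n x.1 1 + n x.1 3 - n x.1 6 := rfl
        rw [f3, f4]; ring
      rw [e3, e4] at e5
      linarith)
    q112 q113 q122 q123 q133 q223 q233
    (by
      have : ((Nat.card G : ℤ) : ℚ) * (1 + cub (fun x : Y => n x.1) (fun x : Y => d x.1) xv1 xv1 xv1) = K1 * 108 * 108 := q111
      rw [this]; linarith)
    (by
      have : ((Nat.card G : ℤ) : ℚ) * (1 + cub (fun x : Y => n x.1) (fun x : Y => d x.1) xv2 xv2 xv2) = K2 * 54 * 54 := q222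
      rw [this]; linarith)
    (by
      have : ((Nat.card G : ℤ) : ℚ) * (1 + cub (fun x : Y => n x.1) (fun x : Y => d x.1) xv3 xv3 xv3) = K3 * 81 * 81 := q333
      rw [this]; linarith)
  exact_mod_cast hfin

end

end Cfsg.Agent.Tri4
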