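import Mathlib

/-!
# A verified enumeration of integer matrices with given Gram matrix (helper45)
-/

set_option autoImplicit false

namespace Cfsg.Agent.Tri4

/-- the first `k` coordinates of a signed row, in reverse order -/
def rowk {X : Type*} (n : X → ℕ → ℤ) : ℕ → X × ℤ → List ℤ
  | 0, _ => []
  | k + 1, p => (p.2 * n p.1 k) :: rowk n k p

/-- dot product of two columns over a list of signed rows -/
def dotl {X : Type*} (n : X → ℕ → ℤ) (i j : ℕ) : List (X × ℤ) → ℤ
  | [] => 0
  | p :: l => (p.2 * n p.1 i) * (p.2 * n p.1 j) + dotl n i j l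

/-- targets -/
def tv {X : Type*} (n : X → ℕ → ℤ) (c : ℕ) (l : List (X × ℤ)) : ℕ → List ℤ
  | 0 => []
  | k + 1 => dotl n k c l :: tv n c l k

/-- squares -/
def sv {X : Type*} (n : X → ℕ → ℤ) (l : List (X × ℤ)) : ℕ → List ℤ
  | 0 => []
  | k + 1 => dotl n k k l :: sv n l k

/-- sums of squares, computed -/
def ssq (c : ℕ) : List (List ℤ) → List ℤ
  | [] => List.replicate c 0
  | r :: rs => List.zipWith (fun a s => a * a + s) r (ssq c rs)

/-- partitions into squares -/
def parts (x : ℤ) : List (List ℤ) :=
  if x = 0 then [[]] else if x = 1 then [[1]] else if x = 2 then [[1, 1]] else if x = 3 then [[1, 1, 1]]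
  else if x = 4 then [[2], [1, 1, 1, 1]] else []

/-- candidates -/
def cand : List ℤ := [0, 1, -1, 2, -2]

/-- the search -/
def srch (c : ℕ) : List (List ℤ) → List (List ℤ) → List ℤ → ℤ → List (List (List ℤ))
  | [], acc, t, left =>
      if t.all (fun x => decide (x = 0)) then
        (parts left).map (fun q => acc ++ q.map (fun x => x :: List.replicate c 0))
      else []
  | r :: rs, acc, t, left =>
      if (List.zipWith (fun a s => decide (a * a ≤ s * left)) t (ssq c (r :: rs))).all id then
        cand.flatMap (fun v => if v * v ≤ left then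
          srch c rs ((v :: r) :: acc) (List.zipWith (fun a b => a - v * b) t r) (left - v * v) else [])
      else []

theorem parts_nonneg {x : ℤ} {q : List ℤ} (h : q ∈ parts x) : 0 ≤ x := by
  unfold parts at h
  split_ifs at h <;> first | omega | simp at h

theorem parts_complete (q : List ℤ) (hpos : ∀ x ∈ q, 0 < x) (hs : (q.map fun x => x * x).sum ≤ 4) :
    ∃ q' ∈ parts ((q.map fun x => x * x).sum), q'.Perm q := by
  match q, hpos, hs with
  | [], _, _ => exact ⟨[], by simp [parts], List.Perm.refl _⟩
  | [a], hpos, hs =>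
    have ha := hpos a (by simp)
    simp only [List.map_cons, List.map_nil, List.sum_cons, List.sum_nil, add_zero] at hs ⊢
    have h2 : a ≤ 2 := by nlinarith
    interval_cases a
    · exact ⟨[1], by simp [parts], List.Perm.refl _⟩
    · exact ⟨[2], by simp [parts], List.Perm.refl _⟩
  | [a, b], hpos, hs =>
    have ha := hpos a (by simp)
    have hb := hpos b (by simp)
    simp only [List.map_cons, List.map_nil, List.sum_cons, List.sum_nil, add_zero] at hs ⊢
    have h2 : a ≤ 1 := by nlinarith
    have h3 : b ≤ 1 := by nlinarith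
    have e1 : a = 1 := by omega
    have e2 : b = 1 := by omega
    subst e1 e2
    exact ⟨[1, 1], by simp [parts], List.Perm.refl _⟩
  | [a, b, c], hpos, hs =>
    have ha := hpos a (by simp)
    have hb := hpos b (by simp)
    have hc := hpos c (by simp)
    simp only [List.map_cons, List.map_nil, List.sum_cons, List.sum_nil, add_zero] at hs ⊢
    have h2 : a ≤ 1 := by nlinarith
    have h3 : b ≤ 1 := by nlinarith
    have h4 : c ≤ 1 := by nlinarith
    have e1 : a = 1 := by omega
    have e2 : b = 1 := by omega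
    have e3 : c = 1 := by omega
    subst e1 e2 e3
    exact ⟨[1, 1, 1], by simp [parts], List.Perm.refl _⟩
  | [a, b, c, d], hpos, hs =>
    have ha := hpos a (by simp)
    have hb := hpos b (by simp)
    have hc := hpos c (by simp)
    have hd := hpos d (by simp)
    simp only [List.map_cons, List.map_nil, List.sum_cons, List.sum_nil, add_zero] at hs ⊢
    have h2 : a ≤ 1 := by nlinarith
    have h3 : b ≤ 1 := by nlinarith
    have h4 : c ≤ 1 := by nlinarith
    have h5 : d ≤ 1 := by nlinarith
    have e1 : a = 1 := by omega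
    have e2 : b = 1 := by omega
    have e3 : c = 1 := by omega
    have e4 : d = 1 := by omega
    subst e1 e2 e3 e4
    exact ⟨[1, 1, 1, 1], by simp [parts], List.Perm.refl _⟩
  | a :: b :: c :: d :: e :: r, hpos, hs =>
    exfalso
    have ha := hpos a (by simp)
    have hb := hpos b (by simp)
    have hc := hpos c (by simp)
    have hd := hpos d (by simp)
    have he := hpos e (by simp)
    have hr : 0 ≤ (r.map fun x => x * x).sum := by
      apply List.sum_nonneg
      intro y hy
      obtain ⟨x, -, rfl⟩ := List.mem_map.1 hy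
      exact mul_self_nonneg x
    simp only [List.map_cons, List.sum_cons] at hs
    nlinarith

section

variable {X : Type*} (n : X → ℕ → ℤ)

theorem ssq_eq (c : ℕ) (l : List (X × ℤ)) : ssq c (l.map (rowk n c)) = sv n l c := by
  induction l with
  | nil =>
    simp only [List.map_nil, ssq]
    induction c with
    | zero => rfl
    | succ k ih => rw [List.replicate_succ, ih]; rfl
  | cons p l ih =>
    simp only [List.map_cons, ssq, ih]
    clear ih
    induction c with
    | zero => rfl
    | succ k ih => simp only [rowk, sv, List.zipWith_cons_cons, ih, dotl]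

theorem tv_sub (c : ℕ) (p : X × ℤ) (l : List (X × ℤ)) (k : ℕ) :
    List.zipWith (fun a b => a - (p.2 * n p.1 c) * b) (tv n c (p :: l) k) (rowk n k p) = tv n c l k := by
  induction k with
  | zero => rfl
  | succ k ih =>
    simp only [rowk, tv, List.zipWith_cons_cons, ih, dotl]
    congr 1
    ring

theorem dotl_cs (i c : ℕ) (l : List (X × ℤ)) :
    0 ≤ dotl n i i l ∧ 0 ≤ dotl n c c l ∧ dotl n i c l * dotl n i c l ≤ dotl n i i l * dotl n c c l := by
  induction l with
  | nil => simp [dotl]
  | cons p l ih =>
    obtain ⟨hA, hB, hC⟩ := ih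
    simp only [dotl]
    set A := dotl n i i l
    set B := dotl n c c l
    set C := dotl n i c l
    set a := p.2 * n p.1 i
    set b := p.2 * n p.1 c
    refine ⟨add_nonneg (mul_self_nonneg a) hA, add_nonneg (mul_self_nonneg b) hB, ?_⟩
    have h1 : (2 * (a * b) * C) ^ 2 ≤ (a * a * B + b * b * A) ^ 2 := by
      have h2 : (a * a * B + b * b * A) ^ 2 - (2 * (a * b) * C) ^ 2 =
          (a * a * B - b * b * A) ^ 2 + 4 * (a * b) ^ 2 * (A * B - C * C) := by ring
      have h3 : 0 ≤ 4 * (a * b) ^ 2 * (A * B - C * C) := by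
        apply mul_nonneg
        · positivity
        · linarith
      have h4 := sq_nonneg (a * a * B - b * b * A)
      linarith
    have h5 : 0 ≤ a * a * B + b * b * A :=
      add_nonneg (mul_nonneg (mul_self_nonneg a) hB) (mul_nonneg (mul_self_nonneg b) hA)
    have h6 := abs_le_of_sq_le_sq h1 h5
    have h7 := (le_abs_self (2 * (a * b) * C)).trans h6
    nlinarith

theorem chk_true (c : ℕ) (l : List (X × ℤ)) (left : ℤ) (hl : dotl n c c l ≤ left) (k : ℕ) :
    (List.zipWith (fun a s => decide (a * a ≤ s * left)) (tv n c l k) (sv n l k)).all id = true := by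
  induction k with
  | zero => rfl
  | succ k ih =>
    simp only [tv, sv, List.zipWith_cons_cons, List.all_cons, ih, Bool.and_true, id]
    obtain ⟨hA, hB, hC⟩ := dotl_cs n k c l
    apply decide_eq_true
    exact hC.trans (mul_le_mul_of_nonneg_left hl hA)

theorem mem_cand {v : ℤ} (h : v * v ≤ 8) : v ∈ cand := by
  have h1 : -2 ≤ v := by nlinarith
  have h2 : v ≤ 2 := by nlinarith
  interval_cases v <;> simp [cand]

theorem tv_nil (c k : ℕ) : (tv n c [] k).all (fun x => decide (x = 0)) = true := by
  induction k with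
  | zero => rfl
  | succ k ih => simp only [tv, List.all_cons, ih, Bool.and_true, dotl]; rfl

theorem srch_sound (c : ℕ) (l : List (X × ℤ)) (acc : List (List ℤ)) (left : ℤ) (hleft : left ≤ 8) (q : List ℤ)
    (hq : q ∈ parts (left - dotl n c c l)) :
    (l.map (rowk n (c + 1))).reverse ++ acc ++ q.map (fun x => x :: List.replicate c 0) ∈
      srch c (l.map (rowk n c)) acc (tv n c l c) left := by
  induction l generalizing acc left with
  | nil =>
    simp only [List.map_nil, srch, tv_nil, if_true]
    rw [List.mem_map]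
    refine ⟨q, ?_, by simp⟩
    simpa [dotl] using hq
  | cons p l ih =>
    have h0 := parts_nonneg hq
    have h1 : ssq c (rowk n c p :: l.map (rowk n c)) = sv n (p :: l) c := ssq_eq n c (p :: l)
    have h2 := chk_true n c (p :: l) left (by linarith) c
    simp only [List.map_cons, srch, h1, h2, if_true]
    rw [List.mem_flatMap]
    have hd : dotl n c c (p :: l) = (p.2 * n p.1 c) * (p.2 * n p.1 c) + dotl n c c l := rfl
    have hnn := (dotl_cs n c c l).1
    have hv : (p.2 * n p.1 c) * (p.2 * n p.1 c) ≤ left := by linarith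
    refine ⟨p.2 * n p.1 c, mem_cand (hv.trans hleft), ?_⟩
    rw [if_pos hv, tv_sub]
    have h3 := ih ((p.2 * n p.1 c :: rowk n c p) :: acc) (left - (p.2 * n p.1 c) * (p.2 * n p.1 c))
      (by nlinarith [mul_self_nonneg (p.2 * n p.1 c)]) (by
        have : left - (p.2 * n p.1 c) * (p.2 * n p.1 c) - dotl n c c l = left - dotl n c c (p :: l) := by
          rw [hd]; ring
        rw [this]; exact hq)
    convert h3 using 2
    simp [rowk]

theorem exists_perm_map {α β : Type*} (f : α → β) {R R' : List β} (h : R.Perm R') :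
    ∀ l : List α, l.map f = R → ∃ l' : List α, l'.Perm l ∧ l'.map f = R' := by
  induction h with
  | nil => intro l hl; exact ⟨l, List.Perm.refl _, hl⟩
  | cons x h ih =>
    intro l hl
    cases l with
    | nil => simp at hl
    | cons a l =>
      rw [List.map_cons, List.cons.injEq] at hl
      obtain ⟨l', h1, h2⟩ := ih l hl.2
      exact ⟨a :: l', h1.cons a, by rw [List.map_cons, h2, hl.1]⟩
  | swap x y l1 =>
    intro l hl
    match l, hl with
    | [], hl => simp at hl
    | [a], hl => simp at hl
    | a :: b :: l, hl =>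
      simp only [List.map_cons, List.cons.injEq] at hl
      exact ⟨b :: a :: l, List.Perm.swap a b l, by simp [hl]⟩
  | trans h1 h2 ih1 ih2 =>
    intro l hl
    obtain ⟨l', h3, h4⟩ := ih1 l hl
    obtain ⟨l'', h5, h6⟩ := ih2 l' h4
    exact ⟨l'', h5.trans h3, h6⟩

/-- the first `k` coordinates are as in `R` -/
def Good (k : ℕ) (R : List (List ℤ)) : Prop :=
  ∃ l : List (X × ℤ), (l.map Prod.fst).Nodup ∧ (∀ p ∈ l, p.2 = 1 ∨ p.2 = -1) ∧
    (∀ x, x ∉ l.map Prod.fst → ∀ j < k, n x j = 0) ∧ l.map (rowk n k) = R

variable {n} in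
theorem Good.perm {k : ℕ} {R R' : List (List ℤ)} (h : Good n k R) (hp : R.Perm R') : Good n k R' := by
  obtain ⟨l, h1, h2, h3, h4⟩ := h
  obtain ⟨l', h5, h6⟩ := exists_perm_map (rowk n k) hp l h4
  refine ⟨l', ?_, ?_, ?_, h6⟩
  · exact (h5.map Prod.fst).nodup_iff.2 h1
  · intro p hp'; exact h2 p (h5.mem_iff.1 hp')
  · intro x hx; apply h3; intro hx'; exact hx ((h5.map Prod.fst).mem_iff.2 hx')

theorem good_zero : Good n 0 [] := ⟨[], by simp, by simp, by simp, rfl⟩

/-- sums over everything -/
theorem sum_eq_list [Fintype X] {M : Type*} [AddCommMonoid M] (F : X → M) (l : List X) (hl : l.Nodup)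
    (h : ∀ x, x ∉ l → F x = 0) : ∑ x, F x = (l.map F).sum := by
  classical
  rw [← List.sum_toFinset F hl]
  symm
  apply Finset.sum_subset (Finset.subset_univ _)
  intro x _ hx
  apply h
  simpa using hx

theorem dotl_eq (i j : ℕ) (l : List (X × ℤ)) (hl : ∀ p ∈ l, p.2 = 1 ∨ p.2 = -1) :
    dotl n i j l = ((l.map Prod.fst).map (fun x => n x i * n x j)).sum := by
  induction l with
  | nil => rfl
  | cons p l ih =>
    have h1 := ih (fun p hp => hl p (List.mem_cons_of_mem _ hp))
    simp only [dotl, List.map_cons, List.sum_cons, h1]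
    congr 1
    rcases hl p List.mem_cons_self with h | h <;> rw [h] <;> ring

/-- targets from a matrix -/
def tgt (M : ℕ → ℕ → ℤ) (c : ℕ) : ℕ → List ℤ
  | 0 => []
  | k + 1 => M k c :: tgt M c k

theorem tv_eq_tgt (M : ℕ → ℕ → ℤ) (c : ℕ) (l : List (X × ℤ)) (k : ℕ) (h : ∀ j < k, dotl n j c l = M j c) :
    tv n c l k = tgt M c k := by
  induction k with
  | zero => rfl
  | succ k ih =>
    simp only [tv, tgt]
    rw [h k (Nat.lt_succ_self k), ih (fun j hj => h j (Nat.lt_succ_of_lt hj))]

theorem rowk_new (k : ℕ) (p : X × ℤ) (h : ∀ j < k, n p.1 j = 0) : rowk n k p = List.replicate k 0 := by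
  induction k with
  | zero => rfl
  | succ k ih =>
    rw [List.replicate_succ, ← ih (fun j hj => h j (Nat.lt_succ_of_lt hj))]
    simp only [rowk]
    rw [h k (Nat.lt_succ_self k), mul_zero]

variable {n} in
theorem Good.ext [Fintype X] {M : ℕ → ℕ → ℤ} {c : ℕ} {R : List (List ℤ)} (h : Good n c R)
    (hN : M c c ≤ 4) (hM : ∀ j ≤ c, ∑ x, n x j * n x c = M j c) :
    ∃ R' ∈ srch c R [] (tgt M c c) (M c c), Good n (c + 1) R' := by
  classical
  obtain ⟨l, h1, h2, h3, h4⟩ := h
  let Lx : List X := (Finset.univ.filter (fun x => x ∉ l.map Prod.fst ∧ n x c ≠ 0)).toList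
  have hLx : ∀ x, x ∈ Lx ↔ x ∉ l.map Prod.fst ∧ n x c ≠ 0 := by
    intro x; simp only [Lx, Finset.mem_toList, Finset.mem_filter, Finset.mem_univ, true_and]
  have hLn : Lx.Nodup := Finset.nodup_toList _
  let Lp : List (X × ℤ) := Lx.map (fun x => (x, if 0 < n x c then 1 else -1))
  have hLp1 : Lp.map Prod.fst = Lx := by
    simp only [Lp, List.map_map]
    exact List.map_id _
  let q0 : List ℤ := Lx.map (fun x => |n x c|)
  have hnd : (l.map Prod.fst ++ Lx).Nodup := by
    rw [List.nodup_append']
    refine ⟨h1, hLn, ?_⟩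
    intro x hx hx'
    exact ((hLx x).1 hx').1 hx
  have hout : ∀ x, x ∉ l.map Prod.fst ++ Lx → n x c = 0 := by
    intro x hx
    rw [List.mem_append, not_or] at hx
    by_contra hne
    exact hx.2 ((hLx x).2 ⟨hx.1, hne⟩)
  have hnew : ∀ x ∈ Lx, ∀ j < c, n x j = 0 := fun x hx j hj => h3 x ((hLx x).1 hx).1 j hj
  have hdot : ∀ j < c, dotl n j c l = M j c := by
    intro j hj
    rw [← hM j hj.le, dotl_eq n j c l h2, sum_eq_list (fun x => n x j * n x c) _ h1]
    intro x hx
    change n x j * n x c = 0
    rw [h3 x hx j hj, zero_mul]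
  have hq0s : (q0.map fun x => x * x).sum = M c c - dotl n c c l := by
    have e1 : M c c = ((l.map Prod.fst).map (fun x => n x c * n x c)).sum + (Lx.map (fun x => n x c * n x c)).sum := by
      rw [← hM c le_rfl, sum_eq_list (fun x => n x c * n x c) _ hnd, List.map_append, List.sum_append]
      intro x hx
      change n x c * n x c = 0
      rw [hout x hx, zero_mul]
    rw [e1, dotl_eq n c c l h2, add_sub_cancel_left]
    simp only [q0, List.map_map]
    congr 1
    apply List.map_congr_left
    intro x _
    change |n x c| * |n x c| = n x c * n x c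
    exact abs_mul_abs_self _
  have hdnn := (dotl_cs n c c l).1
  obtain ⟨q, hq, hqp⟩ := parts_complete q0 (by
    intro y hy
    obtain ⟨x, hx, rfl⟩ := List.mem_map.1 hy
    exact abs_pos.2 ((hLx x).1 hx).2) (by rw [hq0s]; linarith)
  rw [hq0s] at hq
  have hmem := srch_sound n c l [] (M c c) (by linarith) q hq
  rw [h4, tv_eq_tgt n M c l c hdot] at hmem
  refine ⟨_, hmem, ?_⟩
  have hgood : Good n (c + 1) (l.map (rowk n (c + 1)) ++ Lp.map (rowk n (c + 1))) := by
    refine ⟨l ++ Lp, ?_, ?_, ?_, by rw [List.map_append]⟩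
    · rw [List.map_append, hLp1]; exact hnd
    · intro p hp
      rcases List.mem_append.1 hp with hp | hp
      · exact h2 p hp
      · obtain ⟨x, -, rfl⟩ := List.mem_map.1 hp
        by_cases h : 0 < n x c
        · left; simp [h]
        · right; simp [h]
    · intro x hx j hj
      rw [List.map_append, hLp1] at hx
      rcases Nat.lt_succ_iff_lt_or_eq.1 hj with h | h
      · exact h3 x (fun h' => hx (List.mem_append_left _ h')) j h
      · rw [h]; exact hout x hx
  apply hgood.perm
  have hLpm : Lp.map (rowk n (c + 1)) = q0.map (fun x => x :: List.replicate c 0) := by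
    simp only [Lp, q0, List.map_map]
    apply List.map_congr_left
    intro x hx
    simp only [Function.comp, rowk]
    rw [rowk_new n c _ (hnew x hx)]
    congr 1
    by_cases h : 0 < n x c
    · rw [if_pos h, one_mul, abs_of_pos h]
    · rw [if_neg h, abs_of_nonpos (not_lt.1 h)]; ring
  rw [hLpm, List.append_nil]
  exact ((List.reverse_perm _).symm).append ((hqp.symm).map _)

end

end Cfsg.Agent.Tri4
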