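import Mathlib

/-!
# The final arithmetic for `3³ : S₄` (helper45)
-/

set_option autoImplicit false

namespace Cfsg.Agent.Tri4

/-- the order is 648 -/
theorem order_eq (g a b X D1 D2 : ℤ) (hg : 0 < g) (h648 : (648 : ℤ) ∣ g) (ha : a % 27 = 8) (hb : b % 27 = 8)
    (hX : X = 2 * a + b) (hD : D1 + D2 = X) (hgX : g * X = 108 * (D1 * D2)) (hE : g * (a + 2 * b) = 243 * (a * b))
    (hS : D1 * D1 + D2 * D2 ≤ g) : g = 648 := by
  obtain ⟨k, hk⟩ := h648
  have hk0 : 0 < k := by omega
  have hsq : D1 * D1 + D2 * D2 = X * X - 2 * (D1 * D2) := by rw [← hD]; ring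
  have hXm : X % 27 = 24 := by omega
  have hdisc : 0 ≤ X * X - 4 * (D1 * D2) := by
    have : X * X - 4 * (D1 * D2) = (D1 - D2) * (D1 - D2) := by rw [← hD]; ring
    rw [this]; exact mul_self_nonneg _
  rcases lt_trichotomy X 0 with hneg | h0 | hpos
  · -- negative
    have h1 : -54 < X := by
      by_contra hc
      have h2 : X ≤ -54 := by omega
      have h3 : 108 * (X * X) - 2 * (g * X) ≤ 108 * g := by rw [hgX]; nlinarith
      nlinarith
    have hX2 : X = -3 ∨ X = -30 := by omega
    rcases hX2 with rfl | rfl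
    · exfalso
      have hb' : b = -3 - 2 * a := by omega
      subst hb'
      have h2 : g * (a + 2) = 81 * (a * (2 * a + 3)) := by nlinarith
      have h3 : (a + 2) ∣ 162 := by
        refine ⟨g - 162 * a + 81, ?_⟩
        linear_combination (-1 : ℤ) * h2
      have h4 : a + 2 ≤ 162 := Int.le_of_dvd (by norm_num) h3
      have h5 : -(a + 2) ≤ 162 := Int.le_of_dvd (by norm_num) (by rwa [neg_dvd])
      have h6 : a = -154 ∨ a = -127 ∨ a = -100 ∨ a = -73 ∨ a = -46 ∨ a = -19 ∨ a = 8 ∨ a = 35 ∨ a = 62 ∨ a = 89 ∨
        a = 116 ∨ a = 143 := by omega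
      rcases h6 with rfl | rfl | rfl | rfl | rfl | rfl | rfl | rfl | rfl | rfl | rfl | rfl <;> norm_num at h3
    · exfalso
      have hb' : b = -30 - 2 * a := by omega
      subst hb'
      have h2 : g * (a + 20) = 162 * (a * (a + 15)) := by nlinarith
      have h3 : (a + 20) ∣ 16200 := by
        refine ⟨g - 162 * a + 810, ?_⟩
        linear_combination (-1 : ℤ) * h2
      have h7 : a = -19 := by
        have h8 : IsCoprime (a + 20) 81 := by
          have h9 : (a + 20) % 27 = 1 := by omega
          obtain ⟨q, hq⟩ : ∃ q, a + 20 = 27 * q + 1 := ⟨(a + 20) / 27, by omega⟩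
          rw [hq]
          have : IsCoprime (27 * q + 1) (3 ^ 4 : ℤ) := by
            apply IsCoprime.pow_right
            exact ⟨1, -9 * q, by ring⟩
          norm_num at this
          exact this
        have h10 : (a + 20) ∣ 200 := by
          have : (16200 : ℤ) = 81 * 200 := by norm_num
          rw [this] at h3
          exact h8.dvd_of_dvd_mul_left h3
        have h4 : a + 20 ≤ 200 := Int.le_of_dvd (by norm_num) h10
        have h5 : -(a + 20) ≤ 200 := Int.le_of_dvd (by norm_num) (by rwa [neg_dvd])
        have h6 : a = -208 ∨ a = -181 ∨ a = -154 ∨ a = -127 ∨ a = -100 ∨ a = -73 ∨ a = -46 ∨ a = -19 ∨ a = 8 ∨ a = 35 ∨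
          a = 62 ∨ a = 89 ∨ a = 116 ∨ a = 143 ∨ a = 170 := by omega
        rcases h6 with rfl | rfl | rfl | rfl | rfl | rfl | rfl | rfl | rfl | rfl | rfl | rfl | rfl | rfl | rfl <;>
          first | rfl | (exfalso; norm_num at h10)
      subst h7
      have h8 : g = 12312 := by omega
      subst h8
      have h9 : D2 = -30 - D1 := by omega
      subst h9
      have h10 : D1 * D1 + 30 * D1 - 3420 = 0 := by nlinarith
      have h11 : -80 < D1 := by nlinarith
      have h12 : D1 < 60 := by nlinarith
      interval_cases D1 <;> omega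
  · omega
  · -- positive
    have h1 : g ≤ 27 * X := by
      have h2 : 0 ≤ X * (27 * X - g) := by nlinarith
      by_contra hc
      have h3 : 27 * X - g < 0 := by omega
      nlinarith
    have h2 : X < 54 + 1 := by
      by_contra hc
      nlinarith
    have hX2 : X = 24 ∨ X = 51 := by omega
    rcases hX2 with rfl | rfl
    · omega
    · exfalso
      have h3 : k = 1 ∨ k = 2 := by omega
      rcases h3 with rfl | rfl
      · subst hk
        nlinarith
      · subst hk
        nlinarith

end Cfsg.Agent.Tri4
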