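import Cfsg.Agent.Tri4.States
import Cfsg.Agent.Tri4.Num

/-!
# From the decompositions to the order (helper45)
-/

set_option autoImplicit false
set_option maxRecDepth 100000

namespace Cfsg.Agent.Tri4

/-- coordinates in terms of the lattice coordinates -/
def xv1 (f : ℕ → ℤ) : ℤ := 3 * f 0 - 4 * f 1 - 6 * f 2 - 8 * f 3 + 3 * f 4 + 3 * f 5 - 4 * f 6
def xv2 (f : ℕ → ℤ) : ℤ := 2 * f 1 - 2 * f 3 + 2 * f 6 - 3 * f 7 - 3 * f 8
def xv3 (f : ℕ → ℤ) : ℤ := -3 * f 0 - f 1 - 3 * f 2 + 4 * f 3 - 3 * f 4 - 3 * f 5 - f 6 + 3 * f 7 + 3 * f 8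
def sF (f : ℕ → ℤ) : ℤ := f 0 - f 1 - f 2 - 2 * f 3 + f 4 + f 5 - f 6
def tF (f : ℕ → ℤ) : ℤ := -f 1 - f 2 - f 6 + f 7 + f 8
def rF (f : ℕ → ℤ) : ℤ := -f 1 - 3 * f 2 - 2 * f 3 - f 6
def aF (f : ℕ → ℤ) : ℤ := f 1
def FBf (f : ℕ → ℤ) : ℤ := tF f ^ 3 - sF f * tF f ^ 2
def FCf (f : ℕ → ℤ) : ℤ := sF f * tF f ^ 2
def FPf (f : ℕ → ℤ) : ℤ := rF f * (tF f ^ 2 - sF f * tF f)
def FZf (f : ℕ → ℤ) : ℤ := sF f * tF f * (sF f - tF f)
def VLf (f : ℕ → ℤ) : ℤ := 3 * xv1 f - 3 * xv2 f + xv3 f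

theorem xv1_eq (f : ℕ → ℤ) : xv1 f = rF f + 3 * sF f := by unfold xv1 rF sF; ring
theorem xv2_eq (f : ℕ → ℤ) : xv2 f = rF f - 3 * tF f := by unfold xv2 rF tF; ring
theorem xv3_eq (f : ℕ → ℤ) : xv3 f = rF f - 3 * sF f + 3 * tF f := by unfold xv3 rF sF tF; ring

/-- a (reversed) row as a function -/
def gl (row : List ℤ) : ℕ → ℤ := fun i => row.getD (8 - i) 0

/-- weighted sums -/
def sumC : List ℤ → List ℤ → ℚ
  | c :: cs, d :: ds => (c : ℚ) / (d : ℚ) + sumC cs ds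
  | _, _ => 0

def sumD : List ℤ → List ℤ → ℤ
  | c :: cs, d :: ds => c * d + sumD cs ds
  | _, _ => 0

def congL : List ℤ → List ℤ → Prop
  | v :: vs, d :: ds => (d - v) % 27 = 0 ∧ congL vs ds
  | _, _ => True

theorem ex_cons {l : List ℤ} {m : ℕ} (h : l.length = m + 1) : ∃ a t, l = a :: t ∧ t.length = m := by
  cases l with
  | nil => simp at h
  | cons a t => exact ⟨a, t, rfl, by simpa using h⟩

theorem St9_Z : ∀ R ∈ St9, ∀ r ∈ R, FZf (gl r) = 0 := by decide +kernel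

theorem St9_cases : ∀ R ∈ St9,
    (R.length = 11 ∧ R.map (fun r => FPf (gl r)) = [0, 0, 0, 0, 0, -3, 0, 0, 0, 0, 0]) ∨
    (R.length = 12 ∧ R.map (fun r => FBf (gl r)) = [0, 0, 0, 0, 0, 0, 0, 0, 0, 0, 1, 1] ∧ R.map (fun r => FCf (gl r)) = [0, 0, -1, 1, 0, 0, 0, 0, 0, -1, 0, 0] ∧ R.map (fun r => tF (gl r)) = [0, 0, -1, 1, 0, 0, 0, 0, 0, -1, 1, 1] ∧ R.map (fun r => aF (gl r)) = [0, 0, 1, 1, 0, 0, 0, 0, 0, 0, 0, 0] ∧ R.map (fun r => VLf (gl r)) = [0, 0, -19, 19, 3, -3, -8, 6, -7, -19, 12, 12]) ∨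
    (R.length = 12 ∧ R.map (fun r => FPf (gl r)) = [0, 0, 0, 0, 0, 0, 0, 0, -1, 0, 0, 0]) ∨
    (R.length = 13 ∧ R.map (fun r => FBf (gl r)) = [0, 0, 0, 0, 0, 0, 0, 0, 0, 0, 0, 1, 1] ∧ R.map (fun r => FCf (gl r)) = [0, 0, -1, 1, 0, 0, 0, 0, 0, 0, -1, 0, 0] ∧ R.map (fun r => tF (gl r)) = [0, 0, -1, 1, 0, 0, 0, 0, 0, 0, -1, 1, 1] ∧ R.map (fun r => aF (gl r)) = [0, 0, 1, 1, 0, 0, 0, 0, 0, 0, 0, 0, 0] ∧ R.map (fun r => VLf (gl r)) = [6, -6, -19, 19, -3, -3, -2, 6, -1, 6, -19, 12, 12]) := by decide +kernel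

theorem fin_cases (R : List (List ℤ)) (hR : R ∈ St9) (DL : List ℤ) (hlen : DL.length = R.length)
    (hnz : ∀ x ∈ DL, x ≠ 0) (g : ℤ) (hg : 0 < g) (h648 : (648 : ℤ) ∣ g)
    (hB : (g : ℚ) * sumC (R.map (fun r => FBf (gl r))) DL = 108)
    (hCc : (g : ℚ) * sumC (R.map (fun r => FCf (gl r))) DL = -243)
    (hP : (g : ℚ) * sumC (R.map (fun r => FPf (gl r))) DL = 0)
    (hT : sumD (R.map (fun r => tF (gl r))) DL = 0)
    (hA : sumD (R.map (fun r => aF (gl r))) DL = 0)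
    (hcong : congL (R.map (fun r => VLf (gl r))) DL)
    (hS : (DL.map (fun x => x * x)).sum ≤ g) : g = 648 := by
  have hgq : (g : ℚ) ≠ 0 := by exact_mod_cast hg.ne'
  rcases St9_cases R hR with ⟨hl, e1⟩ | ⟨hl, e1, e2, e3, e4, e5⟩ | ⟨hl, e1⟩ | ⟨hl, e1, e2, e3, e4, e5⟩
  · rw [hl] at hlen
    obtain ⟨d1, t1, rfl, h1⟩ := ex_cons hlen
    obtain ⟨d2, t2, rfl, h2⟩ := ex_cons h1
    obtain ⟨d3, t3, rfl, h3⟩ := ex_cons h2
    obtain ⟨d4, t4, rfl, h4⟩ := ex_cons h3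
    obtain ⟨d5, t5, rfl, h5⟩ := ex_cons h4
    obtain ⟨d6, t6, rfl, h6⟩ := ex_cons h5
    obtain ⟨d7, t7, rfl, h7⟩ := ex_cons h6
    obtain ⟨d8, t8, rfl, h8⟩ := ex_cons h7
    obtain ⟨d9, t9, rfl, h9⟩ := ex_cons h8
    obtain ⟨d10, t10, rfl, h10⟩ := ex_cons h9
    obtain ⟨d11, t11, rfl, h11⟩ := ex_cons h10
    have ht : t11 = [] := List.length_eq_zero_iff.1 h11
    subst ht
    exfalso
    have hd : d6 ≠ 0 := hnz d6 (by simp)
    have hdq : (d6 : ℚ) ≠ 0 := by exact_mod_cast hd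
    rw [e1] at hP
    simp only [sumC, Int.cast_zero, zero_div, zero_add, add_zero] at hP
    rcases mul_eq_zero.1 hP with h | h
    · exact hgq h
    · rw [div_eq_zero_iff] at h
      rcases h with h | h
      · norm_num at h
      · exact hdq h
  · rw [hl] at hlen
    obtain ⟨d1, t1, rfl, h1⟩ := ex_cons hlen
    obtain ⟨d2, t2, rfl, h2⟩ := ex_cons h1
    obtain ⟨d3, t3, rfl, h3⟩ := ex_cons h2
    obtain ⟨d4, t4, rfl, h4⟩ := ex_cons h3
    obtain ⟨d5, t5, rfl, h5⟩ := ex_cons h4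
    obtain ⟨d6, t6, rfl, h6⟩ := ex_cons h5
    obtain ⟨d7, t7, rfl, h7⟩ := ex_cons h6
    obtain ⟨d8, t8, rfl, h8⟩ := ex_cons h7
    obtain ⟨d9, t9, rfl, h9⟩ := ex_cons h8
    obtain ⟨d10, t10, rfl, h10⟩ := ex_cons h9
    obtain ⟨d11, t11, rfl, h11⟩ := ex_cons h10
    obtain ⟨d12, t12, rfl, h12⟩ := ex_cons h11
    have ht : t12 = [] := List.length_eq_zero_iff.1 h12
    subst ht
    rw [e1] at hB
    rw [e2] at hCc
    rw [e3] at hT
    rw [e4] at hA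
    rw [e5] at hcong
    have z3 : (d3 : ℚ) ≠ 0 := by exact_mod_cast hnz d3 (by simp)
    have z4 : (d4 : ℚ) ≠ 0 := by exact_mod_cast hnz d4 (by simp)
    have z10 : (d10 : ℚ) ≠ 0 := by exact_mod_cast hnz d10 (by simp)
    have z11 : (d11 : ℚ) ≠ 0 := by exact_mod_cast hnz d11 (by simp)
    have z12 : (d12 : ℚ) ≠ 0 := by exact_mod_cast hnz d12 (by simp)
    simp only [sumC, Int.cast_zero, Int.cast_one, Int.cast_neg, zero_div, zero_add, add_zero] at hB hCc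
    simp only [sumD, zero_mul, zero_add, add_zero, one_mul, neg_mul] at hT hA
    simp only [congL] at hcong
    simp only [List.map_cons, List.map_nil, List.sum_cons, List.sum_nil] at hS
    obtain ⟨c1, c2, c3, c4, c5, c6, c7, c8, c9, c10, c11, c12, -⟩ := hcong
    have a4 : d4 = -d3 := by linarith
    rw [a4] at hCc hT
    push_cast at hCc
    have k1 : (g : ℚ) * (d3 + 2 * d10) = 243 * (d3 * d10) := by
      have hh : (g : ℚ) * (-1 / (d3 : ℚ) + (1 / -(d3 : ℚ) + -1 / (d10 : ℚ))) = -243 := hCc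
      field_simp at hh
      linarith
    have k2 : (g : ℚ) * (d11 + d12) = 108 * (d11 * d12) := by
      have hh : (g : ℚ) * (1 / (d11 : ℚ) + 1 / (d12 : ℚ)) = 108 := hB
      field_simp at hh
      linarith
    have k1 : g * (d3 + 2 * d10) = 243 * (d3 * d10) := by exact_mod_cast k1
    have k2 : g * (d11 + d12) = 108 * (d11 * d12) := by exact_mod_cast k2
    have s1 := mul_self_nonneg d1
    have s2 := mul_self_nonneg d2
    have s3 := mul_self_nonneg d3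
    have s4 := mul_self_nonneg d4
    have s5 := mul_self_nonneg d5
    have s6 := mul_self_nonneg d6
    have s7 := mul_self_nonneg d7
    have s8 := mul_self_nonneg d8
    have s9 := mul_self_nonneg d9
    have s10 := mul_self_nonneg d10
    have hsum : d11 + d12 = 2 * d3 + d10 := by linarith
    exact order_eq g d3 d10 (2 * d3 + d10) d11 d12 hg h648 (by omega) (by omega) rfl hsum (by rw [← hsum]; exact k2) k1
      (by linarith)
  · rw [hl] at hlen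
    obtain ⟨d1, t1, rfl, h1⟩ := ex_cons hlen
    obtain ⟨d2, t2, rfl, h2⟩ := ex_cons h1
    obtain ⟨d3, t3, rfl, h3⟩ := ex_cons h2
    obtain ⟨d4, t4, rfl, h4⟩ := ex_cons h3
    obtain ⟨d5, t5, rfl, h5⟩ := ex_cons h4
    obtain ⟨d6, t6, rfl, h6⟩ := ex_cons h5
    obtain ⟨d7, t7, rfl, h7⟩ := ex_cons h6
    obtain ⟨d8, t8, rfl, h8⟩ := ex_cons h7
    obtain ⟨d9, t9, rfl, h9⟩ := ex_cons h8
    obtain ⟨d10, t10, rfl, h10⟩ := ex_cons h9
    obtain ⟨d11, t11, rfl, h11⟩ := ex_cons h10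
    obtain ⟨d12, t12, rfl, h12⟩ := ex_cons h11
    have ht : t12 = [] := List.length_eq_zero_iff.1 h12
    subst ht
    exfalso
    have hd : d9 ≠ 0 := hnz d9 (by simp)
    have hdq : (d9 : ℚ) ≠ 0 := by exact_mod_cast hd
    rw [e1] at hP
    simp only [sumC, Int.cast_zero, zero_div, zero_add, add_zero] at hP
    rcases mul_eq_zero.1 hP with h | h
    · exact hgq h
    · rw [div_eq_zero_iff] at h
      rcases h with h | h
      · norm_num at h
      · exact hdq h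
  · rw [hl] at hlen
    obtain ⟨d1, t1, rfl, h1⟩ := ex_cons hlen
    obtain ⟨d2, t2, rfl, h2⟩ := ex_cons h1
    obtain ⟨d3, t3, rfl, h3⟩ := ex_cons h2
    obtain ⟨d4, t4, rfl, h4⟩ := ex_cons h3
    obtain ⟨d5, t5, rfl, h5⟩ := ex_cons h4
    obtain ⟨d6, t6, rfl, h6⟩ := ex_cons h5
    obtain ⟨d7, t7, rfl, h7⟩ := ex_cons h6
    obtain ⟨d8, t8, rfl, h8⟩ := ex_cons h7
    obtain ⟨d9, t9, rfl, h9⟩ := ex_cons h8
    obtain ⟨d10, t10, rfl, h10⟩ := ex_cons h9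
    obtain ⟨d11, t11, rfl, h11⟩ := ex_cons h10
    obtain ⟨d12, t12, rfl, h12⟩ := ex_cons h11
    obtain ⟨d13, t13, rfl, h13⟩ := ex_cons h12
    have ht : t13 = [] := List.length_eq_zero_iff.1 h13
    subst ht
    rw [e1] at hB
    rw [e2] at hCc
    rw [e3] at hT
    rw [e4] at hA
    rw [e5] at hcong
    have z3 : (d3 : ℚ) ≠ 0 := by exact_mod_cast hnz d3 (by simp)
    have z4 : (d4 : ℚ) ≠ 0 := by exact_mod_cast hnz d4 (by simp)
    have z11 : (d11 : ℚ) ≠ 0 := by exact_mod_cast hnz d11 (by simp)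
    have z12 : (d12 : ℚ) ≠ 0 := by exact_mod_cast hnz d12 (by simp)
    have z13 : (d13 : ℚ) ≠ 0 := by exact_mod_cast hnz d13 (by simp)
    simp only [sumC, Int.cast_zero, Int.cast_one, Int.cast_neg, zero_div, zero_add, add_zero] at hB hCc
    simp only [sumD, zero_mul, zero_add, add_zero, one_mul, neg_mul] at hT hA
    simp only [congL] at hcong
    simp only [List.map_cons, List.map_nil, List.sum_cons, List.sum_nil] at hS
    obtain ⟨c1, c2, c3, c4, c5, c6, c7, c8, c9, c10, c11, c12, c13, -⟩ := hcong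
    have a4 : d4 = -d3 := by linarith
    rw [a4] at hCc hT
    push_cast at hCc
    have k1 : (g : ℚ) * (d3 + 2 * d11) = 243 * (d3 * d11) := by
      have hh : (g : ℚ) * (-1 / (d3 : ℚ) + (1 / -(d3 : ℚ) + -1 / (d11 : ℚ))) = -243 := hCc
      field_simp at hh
      linarith
    have k2 : (g : ℚ) * (d12 + d13) = 108 * (d12 * d13) := by
      have hh : (g : ℚ) * (1 / (d12 : ℚ) + 1 / (d13 : ℚ)) = 108 := hB
      field_simp at hh
      linarith
    have k1 : g * (d3 + 2 * d11) = 243 * (d3 * d11) := by exact_mod_cast k1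
    have k2 : g * (d12 + d13) = 108 * (d12 * d13) := by exact_mod_cast k2
    have s1 := mul_self_nonneg d1
    have s2 := mul_self_nonneg d2
    have s3 := mul_self_nonneg d3
    have s4 := mul_self_nonneg d4
    have s5 := mul_self_nonneg d5
    have s6 := mul_self_nonneg d6
    have s7 := mul_self_nonneg d7
    have s8 := mul_self_nonneg d8
    have s9 := mul_self_nonneg d9
    have s10 := mul_self_nonneg d10
    have s11 := mul_self_nonneg d11
    have hsum : d12 + d13 = 2 * d3 + d11 := by linarith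
    exact order_eq g d3 d11 (2 * d3 + d11) d12 d13 hg h648 (by omega) (by omega) rfl hsum (by rw [← hsum]; exact k2) k1
      (by linarith)

section

variable {X : Type*} (n : X → ℕ → ℤ)

theorem gl_s (p : X × ℤ) : sF (gl (rowk n 9 p)) = p.2 * sF (n p.1) := by
  change (p.2 * n p.1 0) - (p.2 * n p.1 1) - (p.2 * n p.1 2) - 2 * (p.2 * n p.1 3) + (p.2 * n p.1 4) + (p.2 * n p.1 5) -
    (p.2 * n p.1 6) = _
  unfold sF; ring

theorem gl_t (p : X × ℤ) : tF (gl (rowk n 9 p)) = p.2 * tF (n p.1) := by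
  change -(p.2 * n p.1 1) - (p.2 * n p.1 2) - (p.2 * n p.1 6) + (p.2 * n p.1 7) + (p.2 * n p.1 8) = _
  unfold tF; ring

theorem gl_r (p : X × ℤ) : rF (gl (rowk n 9 p)) = p.2 * rF (n p.1) := by
  change -(p.2 * n p.1 1) - 3 * (p.2 * n p.1 2) - 2 * (p.2 * n p.1 3) - (p.2 * n p.1 6) = _
  unfold rF; ring

theorem gl_a (p : X × ℤ) : aF (gl (rowk n 9 p)) = p.2 * aF (n p.1) := rfl

theorem gl_V (p : X × ℤ) : VLf (gl (rowk n 9 p)) = p.2 * VLf (n p.1) := by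
  unfold VLf
  rw [xv1_eq, xv2_eq, xv3_eq, xv1_eq, xv2_eq, xv3_eq, gl_s, gl_t, gl_r]; ring

theorem gl_B (p : X × ℤ) (hp : p.2 = 1 ∨ p.2 = -1) : FBf (gl (rowk n 9 p)) = p.2 * FBf (n p.1) := by
  unfold FBf
  rw [gl_s, gl_t]
  rcases hp with h | h <;> rw [h] <;> ring

theorem gl_C (p : X × ℤ) (hp : p.2 = 1 ∨ p.2 = -1) : FCf (gl (rowk n 9 p)) = p.2 * FCf (n p.1) := by
  unfold FCf
  rw [gl_s, gl_t]
  rcases hp with h | h <;> rw [h] <;> ring

theorem gl_P (p : X × ℤ) (hp : p.2 = 1 ∨ p.2 = -1) : FPf (gl (rowk n 9 p)) = p.2 * FPf (n p.1) := by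
  unfold FPf
  rw [gl_s, gl_t, gl_r]
  rcases hp with h | h <;> rw [h] <;> ring

theorem gl_Z (p : X × ℤ) (hp : p.2 = 1 ∨ p.2 = -1) : FZf (gl (rowk n 9 p)) = p.2 * FZf (n p.1) := by
  unfold FZf
  rw [gl_s, gl_t]
  rcases hp with h | h <;> rw [h] <;> ring

theorem sumC_link [Fintype X] (d : X → ℤ) (l : List (X × ℤ)) (h1 : (l.map Prod.fst).Nodup)
    (h2 : ∀ p ∈ l, p.2 = 1 ∨ p.2 = -1) (f : X → ℤ) (F : List ℤ → ℤ) (hf : ∀ x, x ∉ l.map Prod.fst → f x = 0)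
    (hF : ∀ p ∈ l, F (rowk n 9 p) = p.2 * f p.1) :
    ∑ x, (f x : ℚ) / (d x : ℚ) = sumC ((l.map (rowk n 9)).map F) (l.map (fun p => p.2 * d p.1)) := by
  rw [sum_eq_list (fun x => (f x : ℚ) / (d x : ℚ)) (l.map Prod.fst) h1 (fun x hx => by
    change (f x : ℚ) / (d x : ℚ) = 0
    rw [hf x hx, Int.cast_zero, zero_div])]
  clear hf h1
  induction l with
  | nil => rfl
  | cons p l ih =>
    have h3 := ih (fun p hp => h2 p (List.mem_cons_of_mem _ hp)) (fun p hp => hF p (List.mem_cons_of_mem _ hp))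
    simp only [List.map_cons, List.sum_cons, sumC]
    rw [h3, hF p List.mem_cons_self]
    congr 1
    rcases h2 p List.mem_cons_self with h | h <;> rw [h] <;> push_cast
    · rw [one_mul, one_mul]
    · rw [neg_one_mul, neg_one_mul, neg_div_neg_eq]

theorem sumD_link [Fintype X] (d : X → ℤ) (l : List (X × ℤ)) (h1 : (l.map Prod.fst).Nodup)
    (h2 : ∀ p ∈ l, p.2 = 1 ∨ p.2 = -1) (f : X → ℤ) (F : List ℤ → ℤ) (hf : ∀ x, x ∉ l.map Prod.fst → f x = 0)
    (hF : ∀ p ∈ l, F (rowk n 9 p) = p.2 * f p.1) :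
    ∑ x, d x * f x = sumD ((l.map (rowk n 9)).map F) (l.map (fun p => p.2 * d p.1)) := by
  rw [sum_eq_list (fun x => d x * f x) (l.map Prod.fst) h1 (fun x hx => by
    change d x * f x = 0
    rw [hf x hx, mul_zero])]
  clear hf h1
  induction l with
  | nil => rfl
  | cons p l ih =>
    have h3 := ih (fun p hp => h2 p (List.mem_cons_of_mem _ hp)) (fun p hp => hF p (List.mem_cons_of_mem _ hp))
    simp only [List.map_cons, List.sum_cons, sumD]
    rw [h3, hF p List.mem_cons_self]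
    congr 1
    rcases h2 p List.mem_cons_self with h | h <;> rw [h] <;> ring

theorem sq_link [Fintype X] (d : X → ℤ) (l : List (X × ℤ)) (h1 : (l.map Prod.fst).Nodup)
    (h2 : ∀ p ∈ l, p.2 = 1 ∨ p.2 = -1) :
    ((l.map (fun p => p.2 * d p.1)).map (fun x => x * x)).sum ≤ ∑ x, d x * d x := by
  classical
  have h3 : ((l.map (fun p => p.2 * d p.1)).map (fun x => x * x)).sum =
      ((l.map Prod.fst).map (fun x => d x * d x)).sum := by
    rw [List.map_map, List.map_map]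
    congr 1
    apply List.map_congr_left
    intro p hp
    change (p.2 * d p.1) * (p.2 * d p.1) = d p.1 * d p.1
    rcases h2 p hp with h | h <;> rw [h] <;> ring
  rw [h3, ← List.sum_toFinset (fun x => d x * d x) h1]
  exact Finset.sum_le_sum_of_subset_of_nonneg (Finset.subset_univ _) (fun _ _ _ => mul_self_nonneg _)

/-- cubic sums -/
def cub [Fintype X] (d : X → ℤ) (a b c : (ℕ → ℤ) → ℤ) : ℚ := ∑ x, ((a (n x) * b (n x) * c (n x) : ℤ) : ℚ) / (d x : ℚ)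

/-- the order is 648 -/
theorem final [Fintype X] (d : X → ℤ) (g : ℤ) (hd : ∀ x, 0 < d x) (hg : 0 < g) (h648 : (648 : ℤ) ∣ g)
    (hM : ∀ i j, i ≤ j → j < 9 → ∑ x, n x i * n x j = MG i j)
    (hcong : ∀ x, (d x - VLf (n x)) % 27 = 0) (hS : ∑ x, d x * d x ≤ g)
    (l1 : 1 + ∑ x, d x * xv1 (n x) = 0) (l2 : 1 + ∑ x, d x * xv2 (n x) = 0) (l3 : 1 + ∑ x, d x * xv3 (n x) = 0)
    (hA : ∑ x, d x * n x 1 = 0)
    (q112 : (g : ℚ) * (1 + cub n d xv1 xv1 xv2) = 23328)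
    (q113 : (g : ℚ) * (1 + cub n d xv1 xv1 xv3) = 0)
    (q122 : (g : ℚ) * (1 + cub n d xv1 xv2 xv2) = 11664)
    (q123 : (g : ℚ) * (1 + cub n d xv1 xv2 xv3) = 17496)
    (q133 : (g : ℚ) * (1 + cub n d xv1 xv3 xv3) = 26244)
    (q223 : (g : ℚ) * (1 + cub n d xv2 xv2 xv3) = 17496)
    (q233 : (g : ℚ) * (1 + cub n d xv2 xv3 xv3) = 13122)
    (q111 : 11664 ≤ (g : ℚ) * (1 + cub n d xv1 xv1 xv1))
    (q222 : 14580 ≤ (g : ℚ) * (1 + cub n d xv2 xv2 xv2))
    (q333 : 6561 ≤ (g : ℚ) * (1 + cub n d xv3 xv3 xv3)) : g = 648 := by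
  obtain ⟨R, hR, l, h1, h2, h3, h4⟩ := exists_good hM
  have hz : ∀ x, x ∉ l.map Prod.fst → n x 0 = 0 ∧ n x 1 = 0 ∧ n x 2 = 0 ∧ n x 3 = 0 ∧ n x 4 = 0 ∧ n x 5 = 0 ∧
      n x 6 = 0 ∧ n x 7 = 0 ∧ n x 8 = 0 := fun x hx =>
    ⟨h3 x hx 0 (by norm_num), h3 x hx 1 (by norm_num), h3 x hx 2 (by norm_num), h3 x hx 3 (by norm_num),
      h3 x hx 4 (by norm_num), h3 x hx 5 (by norm_num), h3 x hx 6 (by norm_num), h3 x hx 7 (by norm_num),
      h3 x hx 8 (by norm_num)⟩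
  have zs : ∀ x, x ∉ l.map Prod.fst → sF (n x) = 0 := fun x hx => by
    obtain ⟨a0, a1, a2, a3, a4, a5, a6, a7, a8⟩ := hz x hx
    unfold sF; rw [a0, a1, a2, a3, a4, a5, a6]; norm_num
  have zt : ∀ x, x ∉ l.map Prod.fst → tF (n x) = 0 := fun x hx => by
    obtain ⟨a0, a1, a2, a3, a4, a5, a6, a7, a8⟩ := hz x hx
    unfold tF; rw [a1, a2, a6, a7, a8]; norm_num
  have hZ : ∀ x, FZf (n x) = 0 := by
    intro x
    by_cases hx : x ∈ l.map Prod.fst
    · obtain ⟨p, hp, rfl⟩ := List.mem_map.1 hx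
      have h5 := St9_Z R hR (rowk n 9 p) (by rw [← h4]; exact List.mem_map_of_mem hp)
      rw [gl_Z n p (h2 p hp)] at h5
      rcases mul_eq_zero.1 h5 with h | h
      · rcases h2 p hp with h' | h' <;> rw [h'] at h <;> norm_num at h
      · exact h
    · unfold FZf; rw [zs x hx]; ring
  have eZ : (0 : ℚ) = 2 / 729 * cub n d xv1 xv1 xv1 - 1 / 243 * cub n d xv1 xv1 xv2 - 1 / 243 * cub n d xv1 xv1 xv3
      - 1 / 243 * cub n d xv1 xv2 xv2 + 4 / 243 * cub n d xv1 xv2 xv3 - 1 / 243 * cub n d xv1 xv3 xv3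
      + 2 / 729 * cub n d xv2 xv2 xv2 - 1 / 243 * cub n d xv2 xv2 xv3 - 1 / 243 * cub n d xv2 xv3 xv3
      + 2 / 729 * cub n d xv3 xv3 xv3 := by
    simp only [cub, Finset.mul_sum, ← Finset.sum_add_distrib, ← Finset.sum_sub_distrib]
    rw [eq_comm]
    apply Finset.sum_eq_zero
    intro x _
    have h5 := hZ x
    unfold FZf at h5
    have h6 : (sF (n x) : ℚ) * tF (n x) * (sF (n x) - tF (n x)) = 0 := by exact_mod_cast h5
    simp only [xv1_eq, xv2_eq, xv3_eq]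
    push_cast
    linear_combination ((d x : ℚ))⁻¹ * h6
  have eB : ∑ x, ((FBf (n x) : ℤ) : ℚ) / (d x : ℚ) = -1 / 729 * cub n d xv1 xv1 xv1 + 1 / 243 * cub n d xv1 xv1 xv2
      - 2 / 243 * cub n d xv1 xv2 xv3 + 1 / 243 * cub n d xv1 xv3 xv3 - 4 / 729 * cub n d xv2 xv2 xv2
      + 4 / 243 * cub n d xv2 xv2 xv3 - 1 / 81 * cub n d xv2 xv3 xv3 + 2 / 729 * cub n d xv3 xv3 xv3 := by
    simp only [cub, Finset.mul_sum, ← Finset.sum_add_distrib, ← Finset.sum_sub_distrib]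
    apply Finset.sum_congr rfl
    intro x _
    simp only [FBf, xv1_eq, xv2_eq, xv3_eq]
    push_cast
    ring
  have eC : ∑ x, ((FCf (n x) : ℤ) : ℚ) / (d x : ℚ) = 2 / 729 * cub n d xv1 xv1 xv1 - 1 / 81 * cub n d xv1 xv1 xv2
      + 1 / 243 * cub n d xv1 xv1 xv3 + 4 / 243 * cub n d xv1 xv2 xv2 - 2 / 243 * cub n d xv1 xv2 xv3
      - 4 / 729 * cub n d xv2 xv2 xv2 + 1 / 243 * cub n d xv2 xv3 xv3 - 1 / 729 * cub n d xv3 xv3 xv3 := by
    simp only [cub, Finset.mul_sum, ← Finset.sum_add_distrib, ← Finset.sum_sub_distrib]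
    apply Finset.sum_congr rfl
    intro x _
    simp only [FCf, xv1_eq, xv2_eq, xv3_eq]
    push_cast
    ring
  have eP : ∑ x, ((FPf (n x) : ℤ) : ℚ) / (d x : ℚ) = -1 / 243 * cub n d xv1 xv1 xv1 + 1 / 81 * cub n d xv1 xv2 xv2
      - 1 / 81 * cub n d xv1 xv2 xv3 + 1 / 81 * cub n d xv1 xv3 xv3 + 2 / 243 * cub n d xv2 xv2 xv2
      - 1 / 81 * cub n d xv2 xv2 xv3 - 1 / 81 * cub n d xv2 xv3 xv3 + 2 / 243 * cub n d xv3 xv3 xv3 := by
    simp only [cub, Finset.mul_sum, ← Finset.sum_add_distrib, ← Finset.sum_sub_distrib]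
    apply Finset.sum_congr rfl
    intro x _
    simp only [FPf, xv1_eq, xv2_eq, xv3_eq]
    push_cast
    ring
  have hsum : (g : ℚ) * (1 + cub n d xv1 xv1 xv1) + (g : ℚ) * (1 + cub n d xv2 xv2 xv2) +
      (g : ℚ) * (1 + cub n d xv3 xv3 xv3) = 11664 + 14580 + 6561 := by
    linear_combination (-729 / 2 * (g : ℚ)) * eZ + (3 / 2) * q112 + (3 / 2) * q113 + (3 / 2) * q122 - 6 * q123 + (3 / 2) * q133
      + (3 / 2) * q223 + (3 / 2) * q233
  have p111 : (g : ℚ) * (1 + cub n d xv1 xv1 xv1) = 11664 := by linarith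
  have p222 : (g : ℚ) * (1 + cub n d xv2 xv2 xv2) = 14580 := by linarith
  have p333 : (g : ℚ) * (1 + cub n d xv3 xv3 xv3) = 6561 := by linarith
  have kB := sumC_link n d l h1 h2 (fun x => FBf (n x)) (fun r => FBf (gl r)) (fun x hx => by
    change FBf (n x) = 0
    unfold FBf; rw [zs x hx, zt x hx]; ring) (fun p hp => gl_B n p (h2 p hp))
  have kC := sumC_link n d l h1 h2 (fun x => FCf (n x)) (fun r => FCf (gl r)) (fun x hx => by
    change FCf (n x) = 0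
    unfold FCf; rw [zs x hx]; ring) (fun p hp => gl_C n p (h2 p hp))
  have kP := sumC_link n d l h1 h2 (fun x => FPf (n x)) (fun r => FPf (gl r)) (fun x hx => by
    change FPf (n x) = 0
    unfold FPf; rw [zs x hx, zt x hx]; ring) (fun p hp => gl_P n p (h2 p hp))
  have kT := sumD_link n d l h1 h2 (fun x => tF (n x)) (fun r => tF (gl r)) zt (fun p hp => gl_t n p)
  have kA := sumD_link n d l h1 h2 (fun x => aF (n x)) (fun r => aF (gl r)) (fun x hx => (hz x hx).2.1)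
    (fun p hp => gl_a n p)
  rw [h4] at kB kC kP kT kA
  apply fin_cases R hR (l.map (fun p => p.2 * d p.1)) (by rw [← h4]; simp) ?_ g hg h648 ?_ ?_ ?_ ?_ ?_ ?_ ?_
  · intro y hy
    obtain ⟨p, hp, rfl⟩ := List.mem_map.1 hy
    have := (hd p.1).ne'
    rcases h2 p hp with h | h <;> rw [h] <;> simpa using this
  · rw [← kB, eB]
    linear_combination (-1 / 729) * p111 + (1 / 243) * q112 - (2 / 243) * q123 + (1 / 243) * q133 - (4 / 729) * p222
      + (4 / 243) * q223 - (1 / 81) * q233 + (2 / 729) * p333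
  · rw [← kC, eC]
    linear_combination (2 / 729) * p111 - (1 / 81) * q112 + (1 / 243) * q113 + (4 / 243) * q122 - (2 / 243) * q123
      - (4 / 729) * p222 + (1 / 243) * q233 - (1 / 729) * p333
  · rw [← kP, eP]
    linear_combination (-1 / 243) * p111 + (1 / 81) * q122 - (1 / 81) * q123 + (1 / 81) * q133 + (2 / 243) * p222
      - (1 / 81) * q223 - (1 / 81) * q233 + (2 / 243) * p333
  · rw [← kT]
    have e9 : 9 * ∑ x, d x * tF (n x) = (1 + ∑ x, d x * xv1 (n x)) - 2 * (1 + ∑ x, d x * xv2 (n x)) +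
        (1 + ∑ x, d x * xv3 (n x)) := by
      have : (1 + ∑ x, d x * xv1 (n x)) - 2 * (1 + ∑ x, d x * xv2 (n x)) + (1 + ∑ x, d x * xv3 (n x)) =
          ∑ x, d x * xv1 (n x) - 2 * ∑ x, d x * xv2 (n x) + ∑ x, d x * xv3 (n x) := by ring
      rw [this, Finset.mul_sum, Finset.mul_sum, ← Finset.sum_sub_distrib, ← Finset.sum_add_distrib]
      apply Finset.sum_congr rfl
      intro x _
      rw [xv1_eq, xv2_eq, xv3_eq]; ring
    rw [l1, l2, l3] at e9
    linarith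
  · rw [← kA]; exact hA
  · rw [← h4]
    clear kB kC kP kT kA hR h4 h1 hz zs zt hZ h3
    induction l with
    | nil => trivial
    | cons p l ih =>
      refine ⟨?_, ih (fun p hp => h2 p (List.mem_cons_of_mem _ hp))⟩
      change (p.2 * d p.1 - VLf (gl (rowk n 9 p))) % 27 = 0
      rw [gl_V]
      have h5 := hcong p.1
      rcases h2 p List.mem_cons_self with h | h <;> rw [h] <;> omega
  · exact (sq_link d l h1 h2).trans hS

end

end Cfsg.Agent.Tri4
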