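import Mathlib

/-!
# The group `3³ : S₄` (normalizer of an elementary abelian group of order 27 in `Alt(9)`) in coordinates (helper45)
-/

set_option autoImplicit false
set_option maxRecDepth 100000

namespace Cfsg.Agent.Tri4

/-- the elementary abelian group of order 27 -/
abbrev A3 := ZMod 3 × ZMod 3 × ZMod 3

/-- coordinates -/
def cr (v : A3) : Fin 3 → ZMod 3 := ![v.1, v.2.1, v.2.2]

/-- source of the coordinates -/
def sc : Fin 24 → Fin 3 → Fin 3 :=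
  ![![0, 1, 2],
    ![0, 1, 2],
    ![0, 1, 2],
    ![0, 1, 2],
    ![0, 2, 1],
    ![0, 2, 1],
    ![0, 2, 1],
    ![0, 2, 1],
    ![1, 0, 2],
    ![1, 0, 2],
    ![1, 0, 2],
    ![1, 0, 2],
    ![2, 0, 1],
    ![2, 0, 1],
    ![2, 0, 1],
    ![2, 0, 1],
    ![1, 2, 0],
    ![1, 2, 0],
    ![1, 2, 0],
    ![1, 2, 0],
    ![2, 1, 0],
    ![2, 1, 0],
    ![2, 1, 0],
    ![2, 1, 0]]

/-- signs -/
def sn : Fin 24 → Fin 3 → ZMod 3 :=
  ![![1, 1, 1],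
    ![1, 2, 2],
    ![2, 1, 2],
    ![2, 2, 1],
    ![1, 2, 1],
    ![1, 1, 2],
    ![2, 1, 1],
    ![2, 2, 2],
    ![1, 1, 2],
    ![2, 1, 1],
    ![1, 2, 1],
    ![2, 2, 2],
    ![1, 1, 1],
    ![2, 1, 2],
    ![2, 2, 1],
    ![1, 2, 2],
    ![1, 1, 1],
    ![2, 2, 1],
    ![1, 2, 2],
    ![2, 1, 2],
    ![2, 1, 1],
    ![1, 2, 1],
    ![1, 1, 2],
    ![2, 2, 2]]

/-- the action of the complement -/
def sg (i : Fin 24) (v : A3) : A3 :=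
  (sn i 0 * cr v (sc i 0), sn i 1 * cr v (sc i 1), sn i 2 * cr v (sc i 2))

/-- multiplication table of the complement -/
def mulI : Fin 24 → Fin 24 → Fin 24 :=
  ![![0, 1, 2, 3, 4, 5, 6, 7, 8, 9, 10, 11, 12, 13, 14, 15, 16, 17, 18, 19, 20, 21, 22, 23],
    ![1, 0, 3, 2, 5, 4, 7, 6, 10, 11, 8, 9, 15, 14, 13, 12, 18, 19, 16, 17, 23, 22, 21, 20],
    ![2, 3, 0, 1, 7, 6, 5, 4, 9, 8, 11, 10, 13, 12, 15, 14, 19, 18, 17, 16, 22, 23, 20, 21],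
    ![3, 2, 1, 0, 6, 7, 4, 5, 11, 10, 9, 8, 14, 15, 12, 13, 17, 16, 19, 18, 21, 20, 23, 22],
    ![4, 5, 6, 7, 1, 0, 3, 2, 16, 17, 18, 19, 21, 20, 23, 22, 10, 11, 8, 9, 14, 15, 12, 13],
    ![5, 4, 7, 6, 0, 1, 2, 3, 18, 19, 16, 17, 22, 23, 20, 21, 8, 9, 10, 11, 13, 12, 15, 14],
    ![6, 7, 4, 5, 2, 3, 0, 1, 17, 16, 19, 18, 20, 21, 22, 23, 9, 8, 11, 10, 12, 13, 14, 15],
    ![7, 6, 5, 4, 3, 2, 1, 0, 19, 18, 17, 16, 23, 22, 21, 20, 11, 10, 9, 8, 15, 14, 13, 12],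
    ![8, 9, 10, 11, 13, 12, 15, 14, 0, 1, 2, 3, 5, 4, 7, 6, 22, 23, 20, 21, 18, 19, 16, 17],
    ![9, 8, 11, 10, 12, 13, 14, 15, 2, 3, 0, 1, 6, 7, 4, 5, 20, 21, 22, 23, 17, 16, 19, 18],
    ![10, 11, 8, 9, 14, 15, 12, 13, 1, 0, 3, 2, 4, 5, 6, 7, 21, 20, 23, 22, 16, 17, 18, 19],
    ![11, 10, 9, 8, 15, 14, 13, 12, 3, 2, 1, 0, 7, 6, 5, 4, 23, 22, 21, 20, 19, 18, 17, 16],
    ![12, 13, 14, 15, 8, 9, 10, 11, 20, 21, 22, 23, 16, 17, 18, 19, 0, 1, 2, 3, 4, 5, 6, 7],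
    ![13, 12, 15, 14, 9, 8, 11, 10, 22, 23, 20, 21, 19, 18, 17, 16, 2, 3, 0, 1, 7, 6, 5, 4],
    ![14, 15, 12, 13, 11, 10, 9, 8, 21, 20, 23, 22, 17, 16, 19, 18, 3, 2, 1, 0, 6, 7, 4, 5],
    ![15, 14, 13, 12, 10, 11, 8, 9, 23, 22, 21, 20, 18, 19, 16, 17, 1, 0, 3, 2, 5, 4, 7, 6],
    ![16, 17, 18, 19, 20, 21, 22, 23, 4, 5, 6, 7, 0, 1, 2, 3, 12, 13, 14, 15, 8, 9, 10, 11],
    ![17, 16, 19, 18, 21, 20, 23, 22, 6, 7, 4, 5, 3, 2, 1, 0, 14, 15, 12, 13, 11, 10, 9, 8],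
    ![18, 19, 16, 17, 23, 22, 21, 20, 5, 4, 7, 6, 1, 0, 3, 2, 15, 14, 13, 12, 10, 11, 8, 9],
    ![19, 18, 17, 16, 22, 23, 20, 21, 7, 6, 5, 4, 2, 3, 0, 1, 13, 12, 15, 14, 9, 8, 11, 10],
    ![20, 21, 22, 23, 17, 16, 19, 18, 12, 13, 14, 15, 9, 8, 11, 10, 6, 7, 4, 5, 2, 3, 0, 1],
    ![21, 20, 23, 22, 16, 17, 18, 19, 14, 15, 12, 13, 10, 11, 8, 9, 4, 5, 6, 7, 1, 0, 3, 2],
    ![22, 23, 20, 21, 18, 19, 16, 17, 13, 12, 15, 14, 8, 9, 10, 11, 5, 4, 7, 6, 0, 1, 2, 3],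
    ![23, 22, 21, 20, 19, 18, 17, 16, 15, 14, 13, 12, 11, 10, 9, 8, 7, 6, 5, 4, 3, 2, 1, 0]]

/-- inverses -/
def invI : Fin 24 → Fin 24 :=
  ![0, 1, 2, 3, 5, 4, 6, 7, 8, 10, 9, 11, 16, 18, 19, 17, 12, 15, 13, 14, 22, 21, 20, 23]

theorem sg_mul : ∀ (i j : Fin 24) (v : A3), sg (mulI i j) v = sg i (sg j v) := by decide +kernel

theorem sg_zero : ∀ i : Fin 24, sg i 0 = 0 := by decide +kernel

theorem sg_add (i : Fin 24) (v w : A3) : sg i (v + w) = sg i v + sg i w := by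
  have h : ∀ k, cr (v + w) k = cr v k + cr w k := by
    intro k; fin_cases k <;> rfl
  unfold sg
  rw [h, h, h, mul_add, mul_add, mul_add]
  rfl

theorem sg_one : ∀ v : A3, sg 0 v = v := by decide +kernel

theorem mulI_inv : ∀ i : Fin 24, mulI i (invI i) = 0 ∧ mulI (invI i) i = 0 := by decide +kernel

theorem mulI_one : ∀ i : Fin 24, mulI i 0 = i ∧ mulI 0 i = i := by decide +kernel

/-- translation of a point -/
def phf (v : A3) (x : Fin 9) : Fin 9 :=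
  ⟨3 * (x.val / 3) + (x.val % 3 + (cr v ⟨x.val / 3, by omega⟩).val) % 3, by omega⟩

/-- block permutations -/
def rh : Fin 24 → Fin 3 → Fin 3 :=
  ![![0, 1, 2],
    ![0, 1, 2],
    ![0, 1, 2],
    ![0, 1, 2],
    ![0, 2, 1],
    ![0, 2, 1],
    ![0, 2, 1],
    ![0, 2, 1],
    ![1, 0, 2],
    ![1, 0, 2],
    ![1, 0, 2],
    ![1, 0, 2],
    ![1, 2, 0],
    ![1, 2, 0],
    ![1, 2, 0],
    ![1, 2, 0],
    ![2, 0, 1],
    ![2, 0, 1],
    ![2, 0, 1],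
    ![2, 0, 1],
    ![2, 1, 0],
    ![2, 1, 0],
    ![2, 1, 0],
    ![2, 1, 0]]

/-- signs, by source -/
def sh : Fin 24 → Fin 3 → ℕ :=
  ![![1, 1, 1],
    ![1, 2, 2],
    ![2, 1, 2],
    ![2, 2, 1],
    ![1, 1, 2],
    ![1, 2, 1],
    ![2, 1, 1],
    ![2, 2, 2],
    ![1, 1, 2],
    ![1, 2, 1],
    ![2, 1, 1],
    ![2, 2, 2],
    ![1, 1, 1],
    ![1, 2, 2],
    ![2, 1, 2],
    ![2, 2, 1],
    ![1, 1, 1],
    ![1, 2, 2],
    ![2, 1, 2],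
    ![2, 2, 1],
    ![1, 1, 2],
    ![1, 2, 1],
    ![2, 1, 1],
    ![2, 2, 2]]

/-- the complement acting on the points -/
def ef (i : Fin 24) (x : Fin 9) : Fin 9 :=
  ⟨3 * (rh i ⟨x.val / 3, by omega⟩).val + (sh i ⟨x.val / 3, by omega⟩ * (x.val % 3)) % 3, by omega⟩

theorem phf_add : ∀ (v w : A3) (x : Fin 9), phf (v + w) x = phf v (phf w x) := by decide +kernel

theorem phf_zero : ∀ x : Fin 9, phf 0 x = x := by decide +kernel

theorem ef_mul : ∀ (i j : Fin 24) (x : Fin 9), ef (mulI i j) x = ef i (ef j x) := by decide +kernel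

theorem ef_one : ∀ x : Fin 9, ef 0 x = x := by decide +kernel

theorem ef_phf : ∀ (i : Fin 24) (v : A3) (x : Fin 9), ef i (phf v x) = phf (sg i v) (ef i x) := by decide +kernel

/-- translations as permutations -/
def Ph (v : A3) : Equiv.Perm (Fin 9) where
  toFun := phf v
  invFun := phf (-v)
  left_inv x := by rw [← phf_add, neg_add_cancel, phf_zero]
  right_inv x := by rw [← phf_add, add_neg_cancel, phf_zero]

/-- elements of the complement as permutations -/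
def Ei (i : Fin 24) : Equiv.Perm (Fin 9) where
  toFun := ef i
  invFun := ef (invI i)
  left_inv x := by rw [← ef_mul, (mulI_inv i).2, ef_one]
  right_inv x := by rw [← ef_mul, (mulI_inv i).1, ef_one]

theorem Ph_add (v w : A3) : Ph (v + w) = Ph v * Ph w := Equiv.ext fun x => phf_add v w x

theorem Ei_mul (i j : Fin 24) : Ei i * Ei j = Ei (mulI i j) := Equiv.ext fun x => (ef_mul i j x).symm

theorem Ei_Ph (i : Fin 24) (v : A3) : Ei i * Ph v = Ph (sg i v) * Ei i := Equiv.ext fun x => ef_phf i v x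

theorem Ph_zero : Ph 0 = 1 := Equiv.ext phf_zero

theorem Ei_zero : Ei 0 = 1 := Equiv.ext ef_one

theorem Ph_Ei_inj : ∀ (v w : A3) (i j : Fin 24), Ph v * Ei i = Ph w * Ei j → v = w ∧ i = j := by
  have key : ∀ (v : A3) (i : Fin 24), (∀ x : Fin 9, phf v (ef i x) = x) → v = 0 ∧ i = 0 := by decide +kernel
  intro v w i j h
  have h1 : Ph (-w + v) * Ei (mulI i (invI j)) = 1 := by
    rw [Ph_add, ← Ei_mul]
    have hj : Ei j * Ei (invI j) = 1 := by rw [Ei_mul, (mulI_inv j).1, Ei_zero]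
    have hw : Ph (-w) * Ph w = 1 := by rw [← Ph_add, neg_add_cancel, Ph_zero]
    calc Ph (-w) * Ph v * (Ei i * Ei (invI j)) = Ph (-w) * (Ph v * Ei i) * Ei (invI j) := by group
      _ = Ph (-w) * Ph w * (Ei j * Ei (invI j)) := by rw [h]; group
      _ = 1 := by rw [hw, hj, one_mul]
  obtain ⟨h2, h3⟩ := key _ _ fun x => Equiv.ext_iff.1 h1 x
  have h4 : ∀ i j : Fin 24, mulI i (invI j) = 0 → i = j := by decide +kernel
  exact ⟨by rw [neg_add_eq_zero] at h2; exact h2.symm, h4 i j h3⟩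

/-- the given subgroup -/
def K0 : Subgroup (Equiv.Perm (Fin 9)) :=
  Subgroup.closure ({Equiv.swap (0 : Fin 9) 1 * Equiv.swap 1 2,
        Equiv.swap (0 : Fin 9) 3 * Equiv.swap 3 6 * (Equiv.swap (1 : Fin 9) 4 * Equiv.swap 4 7) * (Equiv.swap (2 : Fin 9) 5 * Equiv.swap 5 8),
        Equiv.swap (0 : Fin 9) 1 * Equiv.swap 3 4, Equiv.swap (0 : Fin 9) 3 * Equiv.swap 1 4 * Equiv.swap 2 5 * Equiv.swap 6 7} : Set (Equiv.Perm (Fin 9)))

theorem gen1 : Equiv.swap (0 : Fin 9) 1 * Equiv.swap 1 2 = Ph (1, 0, 0) := by decide +kernel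
theorem gen2 : Equiv.swap (0 : Fin 9) 3 * Equiv.swap 3 6 * (Equiv.swap (1 : Fin 9) 4 * Equiv.swap 4 7) *
    (Equiv.swap (2 : Fin 9) 5 * Equiv.swap 5 8) = Ei 12 := by decide +kernel
theorem gen3 : Equiv.swap (0 : Fin 9) 1 * Equiv.swap 3 4 = Ph (1, 1, 0) * Ei 3 := by decide +kernel
theorem gen4 : Equiv.swap (0 : Fin 9) 3 * Equiv.swap 1 4 * Equiv.swap 2 5 * Equiv.swap 6 7 = Ph (0, 0, 1) * Ei 8 := by
  decide +kernel

theorem mem_K0 (v : A3) (i : Fin 24) : Ph v * Ei i ∈ K0 := by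
  have m1 : Ph (1, 0, 0) ∈ K0 := by rw [← gen1]; exact Subgroup.subset_closure (by simp)
  have m12 : Ei 12 ∈ K0 := by rw [← gen2]; exact Subgroup.subset_closure (by simp)
  have m3' : Ph (1, 1, 0) * Ei 3 ∈ K0 := by rw [← gen3]; exact Subgroup.subset_closure (by simp)
  have m8' : Ph (0, 0, 1) * Ei 8 ∈ K0 := by rw [← gen4]; exact Subgroup.subset_closure (by simp)
  have c1 : Ph (0, 1, 0) ∈ K0 := by
    have h : Ph (0, 1, 0) = Ei 12 * Ph (1, 0, 0) * (Ei 12)⁻¹ := by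
      rw [eq_mul_inv_iff_mul_eq, Ei_Ph]; rfl
    rw [h]; exact K0.mul_mem (K0.mul_mem m12 m1) (K0.inv_mem m12)
  have c2 : Ph (0, 0, 1) ∈ K0 := by
    have h : Ph (0, 0, 1) = Ei 12 * Ph (0, 1, 0) * (Ei 12)⁻¹ := by
      rw [eq_mul_inv_iff_mul_eq, Ei_Ph]; rfl
    rw [h]; exact K0.mul_mem (K0.mul_mem m12 c1) (K0.inv_mem m12)
  have hP : ∀ v, Ph v ∈ K0 := by
    intro v
    have key : ∀ v : A3, ∃ a b c : Fin 3, v = a.val • ((1, 0, 0) : A3) + b.val • ((0, 1, 0) : A3) + c.val • ((0, 0, 1) : A3) := by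
      decide +kernel
    have hn : ∀ (w : A3) (n : ℕ), Ph w ∈ K0 → Ph (n • w) ∈ K0 := by
      intro w n hw
      induction n with
      | zero => rw [zero_nsmul, Ph_zero]; exact K0.one_mem
      | succ n ih => rw [succ_nsmul, Ph_add]; exact K0.mul_mem ih hw
    obtain ⟨a, b, c, rfl⟩ := key v
    rw [Ph_add, Ph_add]
    exact K0.mul_mem (K0.mul_mem (hn _ _ m1) (hn _ _ c1)) (hn _ _ c2)
  have m3 : Ei 3 ∈ K0 := (K0.mul_mem_cancel_left (hP _)).1 m3'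
  have m8 : Ei 8 ∈ K0 := (K0.mul_mem_cancel_left (hP _)).1 m8'
  have n0 : Ei 0 ∈ K0 := by rw [Ei_zero]; exact K0.one_mem

  have n12 : Ei 12 ∈ K0 := by
    have h : Ei 12 = Ei 0 * Ei 12 := by rw [Ei_mul]; rfl
    rw [h]; exact K0.mul_mem n0 m12

  have n3 : Ei 3 ∈ K0 := by
    have h : Ei 3 = Ei 0 * Ei 3 := by rw [Ei_mul]; rfl
    rw [h]; exact K0.mul_mem n0 m3

  have n8 : Ei 8 ∈ K0 := by
    have h : Ei 8 = Ei 0 * Ei 8 := by rw [Ei_mul]; rfl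
    rw [h]; exact K0.mul_mem n0 m8

  have n16 : Ei 16 ∈ K0 := by
    have h : Ei 16 = Ei 12 * Ei 12 := by rw [Ei_mul]; rfl
    rw [h]; exact K0.mul_mem n12 m12

  have n15 : Ei 15 ∈ K0 := by
    have h : Ei 15 = Ei 12 * Ei 3 := by rw [Ei_mul]; rfl
    rw [h]; exact K0.mul_mem n12 m3

  have n20 : Ei 20 ∈ K0 := by
    have h : Ei 20 = Ei 12 * Ei 8 := by rw [Ei_mul]; rfl
    rw [h]; exact K0.mul_mem n12 m8

  have n14 : Ei 14 ∈ K0 := by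
    have h : Ei 14 = Ei 3 * Ei 12 := by rw [Ei_mul]; rfl
    rw [h]; exact K0.mul_mem n3 m12

  have n11 : Ei 11 ∈ K0 := by
    have h : Ei 11 = Ei 3 * Ei 8 := by rw [Ei_mul]; rfl
    rw [h]; exact K0.mul_mem n3 m8

  have n5 : Ei 5 ∈ K0 := by
    have h : Ei 5 = Ei 8 * Ei 12 := by rw [Ei_mul]; rfl
    rw [h]; exact K0.mul_mem n8 m12

  have n19 : Ei 19 ∈ K0 := by
    have h : Ei 19 = Ei 16 * Ei 3 := by rw [Ei_mul]; rfl
    rw [h]; exact K0.mul_mem n16 m3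

  have n4 : Ei 4 ∈ K0 := by
    have h : Ei 4 = Ei 16 * Ei 8 := by rw [Ei_mul]; rfl
    rw [h]; exact K0.mul_mem n16 m8

  have n18 : Ei 18 ∈ K0 := by
    have h : Ei 18 = Ei 15 * Ei 12 := by rw [Ei_mul]; rfl
    rw [h]; exact K0.mul_mem n15 m12

  have n23 : Ei 23 ∈ K0 := by
    have h : Ei 23 = Ei 15 * Ei 8 := by rw [Ei_mul]; rfl
    rw [h]; exact K0.mul_mem n15 m8

  have n9 : Ei 9 ∈ K0 := by
    have h : Ei 9 = Ei 20 * Ei 12 := by rw [Ei_mul]; rfl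
    rw [h]; exact K0.mul_mem n20 m12

  have n17 : Ei 17 ∈ K0 := by
    have h : Ei 17 = Ei 14 * Ei 12 := by rw [Ei_mul]; rfl
    rw [h]; exact K0.mul_mem n14 m12

  have n13 : Ei 13 ∈ K0 := by
    have h : Ei 13 = Ei 14 * Ei 3 := by rw [Ei_mul]; rfl
    rw [h]; exact K0.mul_mem n14 m3

  have n21 : Ei 21 ∈ K0 := by
    have h : Ei 21 = Ei 14 * Ei 8 := by rw [Ei_mul]; rfl
    rw [h]; exact K0.mul_mem n14 m8

  have n7 : Ei 7 ∈ K0 := by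
    have h : Ei 7 = Ei 11 * Ei 12 := by rw [Ei_mul]; rfl
    rw [h]; exact K0.mul_mem n11 m12

  have n22 : Ei 22 ∈ K0 := by
    have h : Ei 22 = Ei 5 * Ei 12 := by rw [Ei_mul]; rfl
    rw [h]; exact K0.mul_mem n5 m12

  have n6 : Ei 6 ∈ K0 := by
    have h : Ei 6 = Ei 5 * Ei 3 := by rw [Ei_mul]; rfl
    rw [h]; exact K0.mul_mem n5 m3

  have n2 : Ei 2 ∈ K0 := by
    have h : Ei 2 = Ei 19 * Ei 12 := by rw [Ei_mul]; rfl
    rw [h]; exact K0.mul_mem n19 m12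

  have n1 : Ei 1 ∈ K0 := by
    have h : Ei 1 = Ei 18 * Ei 12 := by rw [Ei_mul]; rfl
    rw [h]; exact K0.mul_mem n18 m12

  have n10 : Ei 10 ∈ K0 := by
    have h : Ei 10 = Ei 9 * Ei 3 := by rw [Ei_mul]; rfl
    rw [h]; exact K0.mul_mem n9 m3

  refine K0.mul_mem (hP v) ?_
  fin_cases i
  · exact n0
  · exact n1
  · exact n2
  · exact n3
  · exact n4
  · exact n5
  · exact n6
  · exact n7
  · exact n8
  · exact n9
  · exact n10
  · exact n11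
  · exact n12
  · exact n13
  · exact n14
  · exact n15
  · exact n16
  · exact n17
  · exact n18
  · exact n19
  · exact n20
  · exact n21
  · exact n22
  · exact n23


theorem exists_of_mem_K0 {p : Equiv.Perm (Fin 9)} (hp : p ∈ K0) : ∃ (v : A3) (i : Fin 24), p = Ph v * Ei i := by
  have hm : ∀ (v w : A3) (i j : Fin 24), Ph v * Ei i * (Ph w * Ei j) = Ph (v + sg i w) * Ei (mulI i j) := by
    intro v w i j
    rw [Ph_add, ← Ei_mul]
    calc Ph v * Ei i * (Ph w * Ei j) = Ph v * (Ei i * Ph w) * Ei j := by group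
      _ = Ph v * (Ph (sg i w) * Ei i) * Ei j := by rw [Ei_Ph]
      _ = _ := by group
  let S : Subgroup (Equiv.Perm (Fin 9)) :=
    { carrier := {p | ∃ (v : A3) (i : Fin 24), p = Ph v * Ei i}
      one_mem' := ⟨0, 0, by rw [Ph_zero, Ei_zero, one_mul]⟩
      mul_mem' := by
        rintro _ _ ⟨v, i, rfl⟩ ⟨w, j, rfl⟩
        exact ⟨_, _, hm v w i j⟩
      inv_mem' := by
        rintro _ ⟨v, i, rfl⟩
        refine ⟨sg (invI i) (-v), invI i, ?_⟩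
        rw [inv_eq_iff_mul_eq_one, hm, (mulI_inv i).1, ← sg_mul, (mulI_inv i).1, sg_one, add_neg_cancel, Ph_zero, Ei_zero,
          one_mul] }
  have hle : K0 ≤ S := by
    unfold K0
    rw [Subgroup.closure_le]
    intro x hx
    simp only [Set.mem_insert_iff, Set.mem_singleton_iff] at hx
    rcases hx with rfl | rfl | rfl | rfl
    · exact ⟨(1, 0, 0), 0, by rw [gen1, Ei_zero, mul_one]⟩
    · exact ⟨0, 12, by rw [gen2, Ph_zero, one_mul]⟩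
    · exact ⟨_, _, gen3⟩
    · exact ⟨_, _, gen4⟩
  exact hle hp

end Cfsg.Agent.Tri4
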