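import Cfsg.Agent.Tri4.TI
import Cfsg.Agent.Tri3.Tri

/-!
# Strongly closed `3³ : S₄`: fusion (helper45)
-/

set_option autoImplicit false
set_option maxRecDepth 100000

namespace Cfsg.Agent.Tri4

open Multiplicative

/-- the weight -/
def wt (v : A3) : Fin 4 := (if v.1 = 0 then 0 else 1) + (if v.2.1 = 0 then 0 else 1) + (if v.2.2 = 0 then 0 else 1)

/-- centralizer orders -/
def cw : Fin 4 → ℕ := ![648, 108, 54, 81]

/-- representatives -/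
def xr : Fin 4 → A3 := ![(0, 0, 0), (1, 0, 0), (1, 1, 0), (1, 1, 1)]

theorem ccard_f : ∀ v : A3, Dat.ccard v 0 = cw (wt v) := by decide +kernel

theorem wt_conj : ∀ v w : A3, wt v = wt w → ∃ i, sg i w = v := by decide +kernel

theorem cw_inj : ∀ a b : Fin 4, cw a = cw b → a = b := by decide

/-- `3³ : S₄` containing centralizers, and strongly closed -/
structure Con {G : Type*} [Group G] (H : Subgroup G) extends Dat H where
  cen : ∀ v : A3, v ≠ 0 → Subgroup.centralizer ({toDat.f v} : Set G) ≤ H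
  clos : ∀ (v : A3) (g : G), g * toDat.f v * g⁻¹ ∈ H → ∃ w, g * toDat.f v * g⁻¹ = toDat.f w

namespace Con

variable {G : Type*} [Group G] {H : Subgroup G} (D : Con H)

theorem cen' {v : A3} (hv : v ≠ 0) {g : G} (hg : g * D.f v = D.f v * g) : g ∈ H := by
  apply D.cen v hv
  rw [Subgroup.mem_centralizer_iff]
  intro h hh
  rw [Set.mem_singleton_iff] at hh
  subst hh
  exact hg.symm

theorem card_cen {v : A3} (hv : v ≠ 0) : Nat.card (Subgroup.centralizer ({D.f v} : Set G)) = cw (wt v) := by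
  have h := D.card_centralizer (v := v) (i := 0) (by rw [D.m_zero]; exact D.cen v hv)
  rw [D.m_zero] at h
  rw [h, ccard_f]

theorem card_cen_conj {a b : G} (h : IsConj a b) :
    Nat.card (Subgroup.centralizer ({a} : Set G)) = Nat.card (Subgroup.centralizer ({b} : Set G)) := by
  obtain ⟨g, hg⟩ := isConj_iff.1 h
  subst hg
  refine Nat.card_congr (Equiv.ofBijective (fun p => ⟨g * p.1 * g⁻¹, ?_⟩) ⟨?_, ?_⟩)
  · have hp := p.2
    rw [Subgroup.mem_centralizer_iff] at hp ⊢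
    intro h hh
    rw [Set.mem_singleton_iff] at hh
    subst hh
    have h1 := hp a rfl
    calc g * a * g⁻¹ * (g * p.1 * g⁻¹) = g * (a * p.1) * g⁻¹ := by group
      _ = g * (p.1 * a) * g⁻¹ := by rw [h1]
      _ = _ := by group
  · intro p q hpq
    have := congrArg Subtype.val hpq
    simp only at this
    apply Subtype.ext
    have h2 : g * p.1 = g * q.1 := mul_right_cancel this
    exact mul_left_cancel h2
  · rintro ⟨q, hq⟩
    refine ⟨⟨g⁻¹ * q * g, ?_⟩, ?_⟩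
    · rw [Subgroup.mem_centralizer_iff] at hq ⊢
      intro c hh
      rw [Set.mem_singleton_iff] at hh
      have h1 := hq (g * a * g⁻¹) rfl
      rw [hh]
      calc a * (g⁻¹ * q * g) = g⁻¹ * ((g * a * g⁻¹) * q) * g := by group
        _ = g⁻¹ * (q * (g * a * g⁻¹)) * g := by rw [h1]
        _ = _ := by group
    · apply Subtype.ext
      change g * (g⁻¹ * q * g) * g⁻¹ = q
      group

theorem e_conj (i : Fin 24) (v : A3) : D.e i * D.f v * (D.e i)⁻¹ = D.f (sg i v) := by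
  rw [D.e_f]; group

theorem ti {v w : A3} (hv : v ≠ 0) {g : G} (hg : g * D.f v * g⁻¹ = D.f w) : g ∈ H := by
  have hw : w ≠ 0 := by
    intro h
    rw [h, D.f_zero] at hg
    apply D.f_ne_one hv
    calc D.f v = g⁻¹ * (g * D.f v * g⁻¹) * g := by group
      _ = 1 := by rw [hg]; group
  have hc : IsConj (D.f v) (D.f w) := isConj_iff.2 ⟨g, hg⟩
  have h1 := card_cen_conj hc
  rw [D.card_cen hv, D.card_cen hw] at h1
  obtain ⟨i, hi⟩ := wt_conj v w (cw_inj _ _ h1)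
  have h2 : D.e i * g ∈ H := by
    apply D.cen' hv
    have h3 : (D.e i * g) * D.f v * (D.e i * g)⁻¹ = D.f v := by
      calc (D.e i * g) * D.f v * (D.e i * g)⁻¹ = D.e i * (g * D.f v * g⁻¹) * (D.e i)⁻¹ := by group
        _ = D.f v := by rw [hg, D.e_conj, hi]
    rw [mul_inv_eq_iff_eq_mul] at h3
    exact h3
  have h4 := H.mul_mem (H.inv_mem (D.meme i)) h2
  rwa [inv_mul_cancel_left] at h4

theorem clos' {v : A3} {z : G} (hz : IsConj (D.f v) z) (hzH : z ∈ H) : ∃ w, z = D.f w := by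
  obtain ⟨g, rfl⟩ := isConj_iff.1 hz
  exact D.clos v g hzH

/-- 3-subgroups meeting `J` nontrivially lie in `H` -/
theorem three_le [Finite G] (P : Subgroup G) (hP : IsPGroup 3 P) {v : A3} (hv : v ≠ 0) (hvP : D.f v ∈ P) : P ≤ H := by
  by_contra hc
  haveI : Fact (Nat.Prime 3) := ⟨Nat.prime_three⟩
  have hnil := hP.isNilpotent
  have hlt : H.subgroupOf P < ⊤ := by
    rw [lt_top_iff_ne_top]
    intro h
    exact hc (Subgroup.subgroupOf_eq_top.1 h)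
  have hN := Group.normalizerCondition_of_isNilpotent (G := ↥P) _ hlt
  obtain ⟨g, hg1, hg2⟩ := Set.exists_of_ssubset hN
  apply hg2
  rw [SetLike.mem_coe, Subgroup.mem_subgroupOf]
  have h1 := (Subgroup.mem_normalizer_iff.1 hg1 ⟨D.f v, hvP⟩).1 (by
    change (⟨D.f v, hvP⟩ : ↥P) ∈ H.subgroupOf P
    rw [Subgroup.mem_subgroupOf]; exact D.f_mem v)
  have h2 : (g : G) * D.f v * (g : G)⁻¹ ∈ H := h1
  obtain ⟨w, hw⟩ := D.clos v g h2
  exact D.ti hv hw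

end Con

/-- exponents splitting an element into its 3-part and its 3'-part -/
theorem exists_idem {o : ℕ} (ho : o ≠ 0) : ∃ n k : ℕ, ∀ {G : Type*} [Group G] (u : G), u ^ o = 1 →
    (u ^ (3 * n)) ^ (3 * n) = u ^ (3 * n) ∧ (u * (u ^ (3 * n))⁻¹) ^ (3 ^ k) = 1 := by
  obtain ⟨k, m, hm, hom⟩ := Nat.exists_eq_pow_mul_and_not_dvd ho 3 (by norm_num)
  have hcop : Nat.Coprime (3 ^ (k + 1)) m :=
    Nat.Coprime.pow_left _ ((Nat.Prime.coprime_iff_not_dvd Nat.prime_three).2 hm)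
  obtain ⟨N, hN0, hN1⟩ := Nat.chineseRemainder hcop 0 1
  have h3 : 3 ∣ N := by
    have h1 : 3 ^ (k + 1) ∣ N := (Nat.modEq_zero_iff_dvd).1 hN0
    exact (Dvd.intro_left (3 ^ k) (pow_succ 3 k).symm).trans h1
  obtain ⟨n, rfl⟩ := h3
  refine ⟨n, k, ?_⟩
  intro G _ u hu
  constructor
  · rw [← pow_mul]
    apply pow_eq_pow_of_modEq _ hu
    have e1 : 3 * n * (3 * n) ≡ 3 * n [MOD 3 ^ (k + 1)] := (hN0.mul hN0).trans (by simpa using hN0.symm)
    have e2 : 3 * n * (3 * n) ≡ 3 * n [MOD m] := (hN1.mul hN1).trans (by simpa using hN1.symm)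
    have e3 := (Nat.modEq_and_modEq_iff_modEq_mul hcop).1 ⟨e1, e2⟩
    apply e3.of_dvd
    rw [hom, pow_succ]
    exact Dvd.intro_left 3 (by ring)
  · have hc : Commute u (u ^ (3 * n))⁻¹ := ((Commute.refl u).pow_right _).inv_right
    rw [hc.mul_pow, inv_pow, ← pow_mul, mul_inv_eq_one]
    apply pow_eq_pow_of_modEq _ hu
    have e1 : 1 * 3 ^ k ≡ 3 * n * 3 ^ k [MOD m * 3 ^ k] := hN1.symm.mul_right' _
    rw [one_mul] at e1
    rw [hom, mul_comm (3 ^ k) m]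
    exact e1

/-- the explicit conjugation -/
theorem norm_conj {G : Type*} [Group G] {x u v : G} {n : ℕ} (hn : u ^ (3 * n) = u) (hc : u * v = v * u)
    (hv : x * u * x⁻¹ = v) (hN : u * v * (x * v * x⁻¹) = 1) :
    (u ^ 2 * v) ^ n * x * ((u ^ 2 * v) ^ n)⁻¹ = u * x := by
  have hC : Commute u v := hc
  have hw : x * v * x⁻¹ = v⁻¹ * u⁻¹ := by
    rw [eq_comm, ← mul_inv_rev]; exact inv_eq_of_mul_eq_one_right hN
  have h1 : x * (u ^ 2 * v) * x⁻¹ = v ^ 2 * (v⁻¹ * u⁻¹) := by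
    calc x * (u ^ 2 * v) * x⁻¹ = (x * u * x⁻¹) ^ 2 * (x * v * x⁻¹) := by
          rw [conj_pow]; group
      _ = _ := by rw [hv, hw]
  have h2 : x * ((u ^ 2 * v) ^ n)⁻¹ * x⁻¹ = ((v ^ 2 * (v⁻¹ * u⁻¹)) ^ n)⁻¹ := by
    rw [← h1, conj_pow]; group
  have h3 : (u ^ 2 * v) ^ n * ((v ^ 2 * (v⁻¹ * u⁻¹)) ^ n)⁻¹ = u := by
    have e1 : v ^ 2 * (v⁻¹ * u⁻¹) = v * u⁻¹ := by
      rw [pow_two]; group
    have hC2 : Commute v u⁻¹ := hC.symm.inv_right
    have hC3 : Commute (u ^ 2) v := hC.pow_left 2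
    rw [e1, hC2.mul_pow, hC3.mul_pow]
    have e2 : (v ^ n * u⁻¹ ^ n)⁻¹ = u ^ n * (v ^ n)⁻¹ := by
      rw [mul_inv_rev, inv_pow, inv_inv]
    rw [e2]
    have hC4 : Commute (v ^ n) (u ^ n) := (hC.symm.pow_left n).pow_right n
    calc (u ^ 2) ^ n * v ^ n * (u ^ n * (v ^ n)⁻¹) = (u ^ 2) ^ n * (v ^ n * u ^ n) * (v ^ n)⁻¹ := by group
      _ = (u ^ 2) ^ n * (u ^ n * v ^ n) * (v ^ n)⁻¹ := by rw [hC4.eq]
      _ = (u ^ 2) ^ n * u ^ n := by group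
      _ = u ^ (3 * n) := by rw [← pow_mul, ← pow_add]; congr 1; ring
      _ = u := hn
  calc (u ^ 2 * v) ^ n * x * ((u ^ 2 * v) ^ n)⁻¹ = (u ^ 2 * v) ^ n * (x * ((u ^ 2 * v) ^ n)⁻¹ * x⁻¹) * x := by group
    _ = (u ^ 2 * v) ^ n * ((v ^ 2 * (v⁻¹ * u⁻¹)) ^ n)⁻¹ * x := by rw [h2]
    _ = u * x := by rw [h3]

/-- the 3-part of an abelian subgroup -/
def part3 {G : Type*} [Group G] (A : Subgroup G) (hA : ∀ a ∈ A, ∀ b ∈ A, a * b = b * a) : Subgroup G where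
  carrier := {a | a ∈ A ∧ ∃ k : ℕ, a ^ (3 ^ k) = 1}
  one_mem' := ⟨A.one_mem, 0, one_pow _⟩
  mul_mem' := by
    rintro a b ⟨ha, k, hk⟩ ⟨hb, l, hl⟩
    refine ⟨A.mul_mem ha hb, k + l, ?_⟩
    have hc : Commute a b := hA a ha b hb
    rw [hc.mul_pow, pow_add, pow_mul, hk, one_pow, one_mul, mul_comm, pow_mul, hl, one_pow]
  inv_mem' := by
    rintro a ⟨ha, k, hk⟩
    exact ⟨A.inv_mem ha, k, by rw [inv_pow, hk, inv_one]⟩

theorem part3_conj {G : Type*} [Group G] {A : Subgroup G} {hA : ∀ a ∈ A, ∀ b ∈ A, a * b = b * a} {g : G}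
    (hg : ∀ a ∈ A, g * a * g⁻¹ ∈ A) {a : G} (ha : a ∈ part3 A hA) : g * a * g⁻¹ ∈ part3 A hA := by
  obtain ⟨h1, k, hk⟩ := ha
  refine ⟨hg a h1, k, ?_⟩
  rw [conj_pow, hk]; group

namespace Con

variable {G : Type*} [Group G] {H : Subgroup G} (D : Con H)

/-- an element `u x` with `u` of norm one is conjugate to `x` -/
theorem conj_aux [Finite G] (A : Subgroup G) (hA : ∀ a ∈ A, ∀ b ∈ A, a * b = b * a) {v : A3}
    (hx : ∀ a ∈ A, D.f v * a * (D.f v)⁻¹ ∈ A) (hle : part3 A hA ≤ H)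
    (htriv : ∀ a : A3, D.f a ∈ part3 A hA → a = 0)
    {u u1 z : G} {w : A3} (hu : u ∈ A) (hu1 : D.f v * u * (D.f v)⁻¹ = u1)
    (hN : u * u1 * (D.f v * u1 * (D.f v)⁻¹) = 1) (hz : z = u * D.f v) (hzc : IsConj (D.f w) z) : IsConj (D.f v) z := by
  obtain ⟨n, k, hnk⟩ := exists_idem (o := Nat.card G) Nat.card_pos.ne'
  obtain ⟨h1, h2⟩ := hnk u pow_card_eq_one'
  have hu1A : u1 ∈ A := by rw [← hu1]; exact hx u hu
  set x := D.f v with hxd
  have e1 : x * u ^ (3 * n) * x⁻¹ = u1 ^ (3 * n) := by rw [← hu1, conj_pow]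
  have hcuu : Commute u u1 := hA u hu u1 hu1A
  have hx1A : x * u1 * x⁻¹ ∈ A := hx u1 hu1A
  have hc2 : Commute (u * u1) (x * u1 * x⁻¹) := hA _ (A.mul_mem hu hu1A) _ hx1A
  have e2 : u ^ (3 * n) * u1 ^ (3 * n) * (x * u1 ^ (3 * n) * x⁻¹) = 1 := by
    have : x * u1 ^ (3 * n) * x⁻¹ = (x * u1 * x⁻¹) ^ (3 * n) := by rw [conj_pow]
    rw [this, ← hcuu.mul_pow, ← hc2.mul_pow, hN, one_pow]
  have hcon := norm_conj (x := x) (u := u ^ (3 * n)) (v := u1 ^ (3 * n)) (n := n) h1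
    ((hcuu.pow_left _).pow_right _) e1 e2
  set m := ((u ^ (3 * n)) ^ 2 * u1 ^ (3 * n)) ^ n with hm
  have hmA : m ∈ A := A.pow_mem (A.mul_mem (A.pow_mem (A.pow_mem hu _) _) (A.pow_mem hu1A _)) _
  set u3 := u * (u ^ (3 * n))⁻¹ with hu3
  have hu3A : u3 ∈ A := A.mul_mem hu (A.inv_mem (A.pow_mem hu _))
  have hu3p : u3 ∈ part3 A hA := ⟨hu3A, k, h2⟩
  have hcm : m * u3 = u3 * m := hA m hmA u3 hu3A
  have hz2 : m * (u3 * x) * m⁻¹ = z := by
    calc m * (u3 * x) * m⁻¹ = (m * u3) * x * m⁻¹ := by group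
      _ = u3 * (m * x * m⁻¹) := by rw [hcm]; group
      _ = z := by
        rw [hcon, hz, hu3]
        group
  have hxz : IsConj (D.f w) (u3 * x) := hzc.trans (isConj_iff.2 ⟨m, hz2⟩).symm
  obtain ⟨c, hc⟩ := D.clos' hxz (H.mul_mem (hle hu3p) (D.f_mem v))
  have hu3f : u3 = D.f (c - v) := by
    rw [sub_eq_add_neg, D.f_add, D.f_neg, ← hc, ← hxd]; group
  have h0 := htriv (c - v) (by rw [← hu3f]; exact hu3p)
  rw [h0, D.f_zero] at hu3f
  rw [isConj_iff]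
  refine ⟨m, ?_⟩
  rw [← hz2, hu3f, one_mul]

/-- The dichotomy. -/
theorem dich [Finite G] {v u w : A3} (hv : v ≠ 0) {y : G} (hy : IsConj (D.f u) y)
    (hxy : IsConj (D.f w) (D.f v * y)⁻¹) :
    (IsConj (D.f v) y ∧ IsConj (D.f v) (D.f v * y)⁻¹) ∨ ∃ a, y = D.f a := by
  have hx3 := D.f_cube v
  have hy3 : y ^ 3 = 1 := by
    obtain ⟨g, rfl⟩ := isConj_iff.1 hy
    rw [conj_pow, D.f_cube]; group
  have hxy3 : (D.f v * y) ^ 3 = 1 := by
    obtain ⟨g, hg⟩ := isConj_iff.1 hxy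
    have h1 : ((D.f v * y)⁻¹) ^ 3 = 1 := by rw [← hg, conj_pow, D.f_cube]; group
    rwa [inv_pow, inv_eq_one] at h1
  set x := D.f v with hxd
  have hcomm := Tri3.lat_comm hx3 hy3 hxy3
  have hcc : ∀ a ∈ Tri3.lat x y, ∀ b ∈ Tri3.lat x y, a * b = b * a := fun a ha b hb =>
    congrArg Subtype.val (hcomm.is_comm.comm ⟨a, ha⟩ ⟨b, hb⟩)
  have hcx : ∀ a ∈ Tri3.lat x y, x * a * x⁻¹ ∈ Tri3.lat x y := fun a ha => Tri3.lat_conj_x hx3 hy3 hxy3 ha
  have hcy : ∀ a ∈ Tri3.lat x y, y * a * y⁻¹ ∈ Tri3.lat x y := fun a ha => Tri3.lat_conj_y hx3 hy3 hxy3 ha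
  set A3' := part3 (Tri3.lat x y) hcc with hA3
  have hpA : IsPGroup 3 A3' := by
    rintro ⟨a, ha, k, hk⟩
    exact ⟨k, Subtype.ext hk⟩
  have hpx : IsPGroup 3 (Subgroup.zpowers x) := by
    rintro ⟨a, i, rfl⟩
    refine ⟨1, Subtype.ext ?_⟩
    change (x ^ i) ^ (3 ^ 1) = 1
    rw [pow_one, ← zpow_natCast, ← zpow_mul, mul_comm, zpow_mul, zpow_natCast, hx3, one_zpow]
  have hnx : Subgroup.zpowers x ≤ Subgroup.normalizer (A3' : Set G) := by
    rw [Subgroup.zpowers_le]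
    apply Subgroup.mem_normalizer_fintype
    intro a ha
    exact part3_conj hcx ha
  have hP : IsPGroup 3 (Subgroup.zpowers x ⊔ A3' : Subgroup G) := hpx.to_sup_of_normal_right' hpA hnx
  have hPH := D.three_le _ hP hv (Subgroup.mem_sup_left (Subgroup.mem_zpowers x))
  have hAH : A3' ≤ H := le_sup_right.trans hPH
  by_cases hj : ∃ a : A3, a ≠ 0 ∧ D.f a ∈ A3'
  · right
    obtain ⟨a, ha0, haA⟩ := hj
    have h1 := part3_conj hcy haA
    obtain ⟨b, hb⟩ := D.clos a y (hAH h1)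
    exact D.clos' hy (D.ti ha0 hb)
  · left
    have htriv : ∀ a : A3, D.f a ∈ A3' → a = 0 := by
      intro a ha
      by_contra hne
      exact hj ⟨a, hne, ha⟩
    constructor
    · refine D.conj_aux (Tri3.lat x y) hcc hcx hAH htriv (u := (x * y⁻¹)⁻¹) (u1 := (x⁻¹ * y⁻¹ * x⁻¹)⁻¹)
        (Subgroup.inv_mem _ (Tri3.a0_mem hx3 hy3 hxy3)) ?_ ?_ (by rw [← hxd]; group) hy
      · have h1 : x * (x * y⁻¹)⁻¹ * x⁻¹ = (x * (x * y⁻¹) * x⁻¹)⁻¹ := by group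
        rw [← hxd, h1, Tri3.conj_a0 hx3 hy3 hxy3]
      · have h1 : x * (x⁻¹ * y⁻¹ * x⁻¹)⁻¹ * x⁻¹ = (x * (x⁻¹ * y⁻¹ * x⁻¹) * x⁻¹)⁻¹ := by
          simp only [mul_inv_rev, inv_inv, mul_assoc]
        rw [← hxd, h1, Tri3.conj_a1 hx3 hy3 hxy3]
        have e2 : (x * y⁻¹)⁻¹ * (x⁻¹ * y⁻¹ * x⁻¹)⁻¹ * (y⁻¹ * x)⁻¹
            = (y⁻¹ * x * (x⁻¹ * y⁻¹ * x⁻¹) * (x * y⁻¹))⁻¹ := by
          simp only [mul_inv_rev, mul_assoc]
        rw [e2, Tri3.lat_rel1 hx3 hy3 hxy3, inv_one]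
    · have hxx : x * x = x⁻¹ := by
        apply eq_inv_of_mul_eq_one_left
        rw [← hx3, pow_succ, pow_two]
      refine D.conj_aux (Tri3.lat x y) hcc hcx hAH htriv (u := y⁻¹ * x) (u1 := x * y⁻¹)
        (Tri3.a2_mem hx3 hy3 hxy3) ?_ ?_ ?_ hxy
      · rw [← hxd]; exact Tri3.conj_a2 hx3 hy3 hxy3
      · rw [← hxd, Tri3.conj_a0 hx3 hy3 hxy3, mul_assoc,
          hcc _ (Tri3.a0_mem hx3 hy3 hxy3) _ (Tri3.a1_mem hx3 hy3 hxy3), ← mul_assoc]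
        exact Tri3.lat_rel1 hx3 hy3 hxy3
      · rw [← hxd, mul_assoc, hxx, mul_inv_rev]

end Con

end Cfsg.Agent.Tri4
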