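import Cfsg.Agent.Tri4.Loc
import Cfsg.Agent.Tri3.Const

/-!
# Class constants of the elements of `O₃` (helper45)
-/

set_option autoImplicit false
set_option maxRecDepth 100000

open scoped ComplexConjugate
open Cfsg Cfsg.Agent.CharBase

namespace Cfsg.Agent.Tri4

open Multiplicative

namespace Con

variable {G : Type*} [Group G] {H : Subgroup G} (D : Con H)

/-- fusion in `O₃(H)` -/
theorem isConj_iff_wt {v w : A3} (hv : v ≠ 0) (hw : w ≠ 0) : IsConj (D.f v) (D.f w) ↔ wt v = wt w := by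
  constructor
  · intro h
    have h1 := card_cen_conj h
    rw [D.card_cen hv, D.card_cen hw] at h1
    exact cw_inj _ _ h1
  · intro h
    obtain ⟨i, hi⟩ := wt_conj w v h.symm
    rw [isConj_iff]
    exact ⟨D.e i, by rw [D.e_conj, hi]⟩

theorem wt_neg : ∀ v : A3, wt (-v) = wt v := by decide +kernel

theorem wt_zero : ∀ v : A3, wt v = 0 → v = 0 := by decide +kernel

/-- pairs with product in `O₃(H)` -/
theorem pair_mem [Finite G] {u w q : A3} (hu : u ≠ 0) (hw : w ≠ 0) (hq : q ≠ 0) (hne : ¬ (wt u = wt q ∧ wt w = wt q))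
    {x y : G} (hx : IsConj (D.f u) x) (hy : IsConj (D.f w) y) (hxy : x * y = D.f q) :
    ∃ a b, x = D.f a ∧ y = D.f b := by
  have hnq : -q ≠ 0 := neg_ne_zero.2 hq
  have h1 : D.f (-q) * x = y⁻¹ := by
    rw [D.f_neg, ← hxy]; group
  have h2 : IsConj (D.f w) (D.f (-q) * x)⁻¹ := by rw [h1, inv_inv]; exact hy
  rcases D.dich hnq hx h2 with ⟨h3, h4⟩ | ⟨a, ha⟩
  · exfalso
    apply hne
    rw [h1, inv_inv] at h4
    constructor
    · rw [← wt_neg q, eq_comm, ← D.isConj_iff_wt hnq hu]; exact h3.trans hx.symm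
    · rw [← wt_neg q, eq_comm, ← D.isConj_iff_wt hnq hw]; exact h4.trans hy.symm
  · refine ⟨a, q - a, ha, ?_⟩
    rw [sub_eq_add_neg, add_comm, D.f_add, D.f_neg, ← ha, ← hxy]; group

/-- the number of pairs in `O₃(H)` -/
def cnt (a b : Fin 4) (q : A3) : ℕ := (Finset.univ.filter (fun p : A3 × A3 => wt p.1 = a ∧ wt p.2 = b ∧ p.1 + p.2 = q)).card

theorem wt_pos {v w : A3} (hv : v ≠ 0) (h : wt w = wt v) : w ≠ 0 := by
  rintro rfl
  apply hv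
  apply wt_zero
  rw [← h]; decide

theorem card_pairs [Finite G] {u w q : A3} (hu : u ≠ 0) (hw : w ≠ 0) (hq : q ≠ 0)
    (hne : ¬ (wt u = wt q ∧ wt w = wt q)) :
    Nat.card {p : G × G // IsConj (D.f u) p.1 ∧ IsConj (D.f w) p.2 ∧ p.1 * p.2 = D.f q} = cnt (wt u) (wt w) q := by
  unfold cnt
  rw [← Fintype.card_subtype, ← Nat.card_eq_fintype_card]
  symm
  apply Nat.card_congr
  refine Equiv.ofBijective (fun p => ⟨(D.f p.1.1, D.f p.1.2),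
    (D.isConj_iff_wt hu (wt_pos hu p.2.1)).2 p.2.1.symm, (D.isConj_iff_wt hw (wt_pos hw p.2.2.1)).2 p.2.2.1.symm, ?_⟩)
    ⟨?_, ?_⟩
  · change D.f p.1.1 * D.f p.1.2 = D.f q
    rw [← D.f_add, p.2.2.2]
  · rintro ⟨⟨a, b⟩, h⟩ ⟨⟨a', b'⟩, h'⟩ heq
    have h1 := congrArg Subtype.val heq
    simp only [Prod.mk.injEq] at h1
    apply Subtype.ext
    simp only [Prod.mk.injEq]
    exact ⟨D.f_inj h1.1, D.f_inj h1.2⟩
  · rintro ⟨⟨x, y⟩, h1, h2, h3⟩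
    simp only at h1 h2 h3
    obtain ⟨a, b, rfl, rfl⟩ := D.pair_mem hu hw hq hne h1 h2 h3
    have ha : a ≠ 0 := by
      rintro rfl
      rw [D.f_zero] at h1
      exact D.f_ne_one hu (isConj_one_left.1 h1)
    have hb : b ≠ 0 := by
      rintro rfl
      rw [D.f_zero] at h2
      exact D.f_ne_one hw (isConj_one_left.1 h2)
    refine ⟨⟨(a, b), ((D.isConj_iff_wt hu ha).1 h1).symm, ((D.isConj_iff_wt hw hb).1 h2).symm, ?_⟩, rfl⟩
    apply D.f_inj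
    rw [D.f_add]; exact h3

theorem card_pairs_ge [Finite G] {u w q : A3} (hu : u ≠ 0) (hw : w ≠ 0) :
    cnt (wt u) (wt w) q ≤
      Nat.card {p : G × G // IsConj (D.f u) p.1 ∧ IsConj (D.f w) p.2 ∧ p.1 * p.2 = D.f q} := by
  unfold cnt
  rw [← Fintype.card_subtype, ← Nat.card_eq_fintype_card]
  apply Nat.card_le_card_of_injective (fun p => ⟨(D.f p.1.1, D.f p.1.2),
    (D.isConj_iff_wt hu (wt_pos hu p.2.1)).2 p.2.1.symm, (D.isConj_iff_wt hw (wt_pos hw p.2.2.1)).2 p.2.2.1.symm, by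
      change D.f p.1.1 * D.f p.1.2 = D.f q
      rw [← D.f_add, p.2.2.2]⟩)
  rintro ⟨⟨a, b⟩, h⟩ ⟨⟨a', b'⟩, h'⟩ heq
  have h1 := congrArg Subtype.val heq
  simp only [Prod.mk.injEq] at h1
  apply Subtype.ext
  simp only [Prod.mk.injEq]
  exact ⟨D.f_inj h1.1, D.f_inj h1.2⟩

/-- the cubic relations -/
theorem cubic [Finite G] [Fintype (IrrCharacter G)] {u w q : A3} (hu : u ≠ 0) (hw : w ≠ 0) (hq : q ≠ 0)
    (hne : ¬ (wt u = wt q ∧ wt w = wt q)) :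
    (Nat.card G : ℂ) * ∑ χ : IrrCharacter G, (χ : G → ℂ) (D.f u) * (χ : G → ℂ) (D.f w) * conj ((χ : G → ℂ) (D.f q)) /
      (χ : G → ℂ) 1 = ((cnt (wt u) (wt w) q * cw (wt u) * cw (wt w) : ℕ) : ℂ) := by
  rw [Tri3.class_const, D.card_pairs hu hw hq hne, D.card_cen hu, D.card_cen hw]
  push_cast; ring

theorem cubic_ge [Finite G] [Fintype (IrrCharacter G)] {u w q : A3} (hu : u ≠ 0) (hw : w ≠ 0) :
    ∃ k : ℕ, cnt (wt u) (wt w) q ≤ k ∧
    (Nat.card G : ℂ) * ∑ χ : IrrCharacter G, (χ : G → ℂ) (D.f u) * (χ : G → ℂ) (D.f w) * conj ((χ : G → ℂ) (D.f q)) /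
      (χ : G → ℂ) 1 = ((k * cw (wt u) * cw (wt w) : ℕ) : ℂ) := by
  refine ⟨_, D.card_pairs_ge (q := q) hu hw, ?_⟩
  rw [Tri3.class_const, D.card_cen hu, D.card_cen hw]
  push_cast; ring

end Con

theorem cnt_vals : Con.cnt 1 1 (1, 1, 0) = 2 ∧ Con.cnt 1 1 (1, 1, 1) = 0 ∧ Con.cnt 1 2 (1, 1, 0) = 2 ∧
    Con.cnt 1 2 (1, 1, 1) = 3 ∧ Con.cnt 1 3 (1, 1, 1) = 3 ∧ Con.cnt 2 2 (1, 1, 1) = 6 ∧ Con.cnt 2 3 (1, 1, 1) = 3 ∧
    Con.cnt 1 1 (1, 0, 0) = 1 ∧ Con.cnt 2 2 (1, 1, 0) = 5 ∧ Con.cnt 3 3 (1, 1, 1) = 1 := by decide +kernel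

end Cfsg.Agent.Tri4
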