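import Cfsg.Agent.Tri4.Vals
import Cfsg.Agent.Tri4.Tri
import Cfsg.Agent.Tri4.Fin

/-!
# A strongly closed `3³` with normalizer `3³ : S₄` is normal (helper45)
-/

set_option autoImplicit false
set_option maxRecDepth 100000
set_option maxHeartbeats 1000000

open scoped ComplexConjugate
open Cfsg Cfsg.Agent.CharBase

namespace Cfsg.Agent.Tri4

open Multiplicative Tri3

/-- the values in terms of the lattice coordinates -/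
def VV : Fin 9 → (ℕ → ℤ) → ℤ :=
  ![xv1, xv2, xv3, fun f => 2 * f 1 + f 3 - f 6, fun f => -f 1 + f 3 - f 6, fun f => f 0 + 2 * f 2 - f 4 - f 5,
    fun f => -f 7 + f 8, fun f => -f 4 + f 5, fun f => -f 0]

/-- the inverse, multiplied by 36 -/
def WW : Fin 9 → Fin 9 → ℤ :=
  ![![0, 0, 0, 0, 0, 0, 0, 0, -36], ![0, 0, 0, 12, -12, 0, 0, 0, 0], ![-1, -4, -4, 0, 0, 9, 0, 0, 18],
    ![-3, 0, 0, 0, 12, -9, 0, 0, -18], ![-1, -4, -4, 0, 0, -9, 0, -18, 0], ![-1, -4, -4, 0, 0, -9, 0, 18, 0],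
    ![-3, 0, 0, -12, -12, -9, 0, 0, -18], ![0, -6, 0, 0, -12, 0, -18, 0, 0], ![0, -6, 0, 0, -12, 0, 18, 0, 0]]

/-- norms -/
def cc : Fin 9 → ℤ := ![108, 54, 81, 9, 9, 12, 6, 6, 2]

/-- the principal row -/
def pr : Fin 9 → ℤ := ![0, 0, 0, 0, -1, 0, -1, -1, 0]

theorem sum9 {M : Type*} [AddCommMonoid M] (f : Fin 9 → M) :
    ∑ i, f i = f 0 + f 1 + f 2 + f 3 + f 4 + f 5 + f 6 + f 7 + f 8 := by
  simp only [Fin.sum_univ_succ, Fin.sum_univ_zero, add_zero, add_assoc]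
  rfl

theorem WW_eq (f : ℕ → ℤ) (i : Fin 9) : ∑ a, WW i a * VV a f = 36 * f i := by
  rw [sum9]
  fin_cases i
  · change 0 * xv1 f + 0 * xv2 f + 0 * xv3 f + 0 * (2 * f 1 + f 3 - f 6) + 0 * (-f 1 + f 3 - f 6) +
      0 * (f 0 + 2 * f 2 - f 4 - f 5) + 0 * (-f 7 + f 8) + 0 * (-f 4 + f 5) + -36 * (-f 0) = 36 * f 0
    ring
  · change 0 * xv1 f + 0 * xv2 f + 0 * xv3 f + 12 * (2 * f 1 + f 3 - f 6) + -12 * (-f 1 + f 3 - f 6) +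
      0 * (f 0 + 2 * f 2 - f 4 - f 5) + 0 * (-f 7 + f 8) + 0 * (-f 4 + f 5) + 0 * (-f 0) = 36 * f 1
    ring
  · change -1 * xv1 f + -4 * xv2 f + -4 * xv3 f + 0 * (2 * f 1 + f 3 - f 6) + 0 * (-f 1 + f 3 - f 6) +
      9 * (f 0 + 2 * f 2 - f 4 - f 5) + 0 * (-f 7 + f 8) + 0 * (-f 4 + f 5) + 18 * (-f 0) = 36 * f 2
    unfold xv1 xv2 xv3; ring
  · change -3 * xv1 f + 0 * xv2 f + 0 * xv3 f + 0 * (2 * f 1 + f 3 - f 6) + 12 * (-f 1 + f 3 - f 6) +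
      -9 * (f 0 + 2 * f 2 - f 4 - f 5) + 0 * (-f 7 + f 8) + 0 * (-f 4 + f 5) + -18 * (-f 0) = 36 * f 3
    unfold xv1 xv2 xv3; ring
  · change -1 * xv1 f + -4 * xv2 f + -4 * xv3 f + 0 * (2 * f 1 + f 3 - f 6) + 0 * (-f 1 + f 3 - f 6) +
      -9 * (f 0 + 2 * f 2 - f 4 - f 5) + 0 * (-f 7 + f 8) + -18 * (-f 4 + f 5) + 0 * (-f 0) = 36 * f 4
    unfold xv1 xv2 xv3; ring
  · change -1 * xv1 f + -4 * xv2 f + -4 * xv3 f + 0 * (2 * f 1 + f 3 - f 6) + 0 * (-f 1 + f 3 - f 6) +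
      -9 * (f 0 + 2 * f 2 - f 4 - f 5) + 0 * (-f 7 + f 8) + 18 * (-f 4 + f 5) + 0 * (-f 0) = 36 * f 5
    unfold xv1 xv2 xv3; ring
  · change -3 * xv1 f + 0 * xv2 f + 0 * xv3 f + -12 * (2 * f 1 + f 3 - f 6) + -12 * (-f 1 + f 3 - f 6) +
      -9 * (f 0 + 2 * f 2 - f 4 - f 5) + 0 * (-f 7 + f 8) + 0 * (-f 4 + f 5) + -18 * (-f 0) = 36 * f 6
    unfold xv1 xv2 xv3; ring
  · change 0 * xv1 f + -6 * xv2 f + 0 * xv3 f + 0 * (2 * f 1 + f 3 - f 6) + -12 * (-f 1 + f 3 - f 6) +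
      0 * (f 0 + 2 * f 2 - f 4 - f 5) + -18 * (-f 7 + f 8) + 0 * (-f 4 + f 5) + 0 * (-f 0) = 36 * f 7
    unfold xv1 xv2 xv3; ring
  · change 0 * xv1 f + -6 * xv2 f + 0 * xv3 f + 0 * (2 * f 1 + f 3 - f 6) + -12 * (-f 1 + f 3 - f 6) +
      0 * (f 0 + 2 * f 2 - f 4 - f 5) + 18 * (-f 7 + f 8) + 0 * (-f 4 + f 5) + 0 * (-f 0) = 36 * f 8
    unfold xv1 xv2 xv3; ring

theorem gram_num : ∀ i j : Fin 9, ∑ a, WW i a * WW j a * cc a = 1296 * (MG i j + pr i * pr j) := by decide +kernel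

theorem pr_num : ∀ i : Fin 9, ∑ a : Fin 9, WW i a * (if a = 8 then 0 else 1) = 36 * pr i := by decide +kernel

theorem gram {Y : Type*} [Fintype Y] (n : Y → ℕ → ℤ)
    (hS : ∀ a b : Fin 9, ∑ y, VV a (n y) * VV b (n y) = if a = b then cc a else 0) (i j : Fin 9) :
    ∑ y, n y i * n y j = MG i j + pr i * pr j := by
  have h1 : ∑ y, (∑ a, WW i a * VV a (n y)) * (∑ b, WW j b * VV b (n y)) = ∑ a, WW i a * WW j a * cc a := by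
    have h2 : ∀ y, (∑ a, WW i a * VV a (n y)) * (∑ b, WW j b * VV b (n y)) =
        ∑ a, ∑ b, (WW i a * WW j b) * (VV a (n y) * VV b (n y)) := by
      intro y
      rw [Finset.sum_mul_sum]
      exact Finset.sum_congr rfl fun a _ => Finset.sum_congr rfl fun b _ => by ring
    simp only [h2]
    rw [Finset.sum_comm]
    apply Finset.sum_congr rfl
    intro a _
    rw [Finset.sum_comm]
    have h3 : ∀ b, ∑ y, (WW i a * WW j b) * (VV a (n y) * VV b (n y)) =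
        if a = b then WW i a * WW j b * cc a else 0 := by
      intro b
      rw [← Finset.mul_sum, hS]
      split_ifs <;> ring
    simp only [h3]
    rw [Finset.sum_ite_eq]
    simp
  simp only [WW_eq] at h1
  rw [gram_num] at h1
  have h4 : ∑ y, 36 * n y i * (36 * n y j) = 1296 * ∑ y, n y i * n y j := by
    rw [Finset.mul_sum]
    exact Finset.sum_congr rfl fun y _ => by ring
  rw [h4] at h1
  exact mul_left_cancel₀ (by norm_num) h1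

theorem ex3 {X : ℤ} (h : (3 : ℤ) ∣ X) : ∃ n, X = 3 * n := h
theorem ex36 {X : ℤ} (h4 : (4 : ℤ) ∣ X) (h9 : (9 : ℤ) ∣ X) : ∃ n, X = 36 * n := ⟨X / 36, by omega⟩
theorem ex12 {X : ℤ} (h4 : (4 : ℤ) ∣ X) (h9 : (3 : ℤ) ∣ X) : ∃ n, X = 12 * n := ⟨X / 12, by omega⟩
theorem ex6 {X : ℤ} (h4 : (2 : ℤ) ∣ X) (h9 : (3 : ℤ) ∣ X) : ∃ n, X = 6 * n := ⟨X / 6, by omega⟩

/-- integrality -/
theorem exists_lat (d x1 x2 x3 a9 b9 a6 b6 r s M0 M1 M2 M3 m0 m1 m2 m3 m4 m5 m6 k0 k1 k2 k3 p0 p1 q0 q1 : ℤ)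
    (h0 : d + 6 * x1 + 12 * x2 + 8 * x3 = 27 * M0) (h1 : d + 3 * x1 - 4 * x3 = 27 * M1)
    (h2 : d - 3 * x2 + 2 * x3 = 27 * M2) (h3 : d - 3 * x1 + 3 * x2 - x3 = 27 * M3)
    (hr : r = m0 + m2 - m4 - m6) (hs : s = m1 - m5) (ha6 : a6 = m0 + m1 - m2 - 2 * m3 - m4 + m5 + m6)
    (hx1 : x1 = m0 - m1 - m2 + 2 * m3 - m4 - m5 + m6) (hb6 : b6 = k0 + k1 - k2 - k3)
    (hx2 : x2 = k0 - k1 - k2 + k3) (hp0 : d + 6 * a9 + 2 * x3 = 9 * p0) (hp1 : d - 3 * a9 + 2 * x3 = 9 * p1)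
    (hq0 : d + 6 * b9 + 2 * x3 = 9 * q0) (hq1 : d - 3 * b9 + 2 * x3 = 9 * q1) :
    ∃ n : ℕ → ℤ, xv1 n = x1 ∧ xv2 n = x2 ∧ xv3 n = x3 ∧ VV 3 n = a9 ∧ VV 4 n = b9 ∧ VV 5 n = a6 ∧ VV 6 n = b6 ∧
      VV 7 n = r ∧ VV 8 n = s ∧ (d - VLf n) % 27 = 0 := by
  have g1 : x1 - a6 - 2 * s = 4 * (m3 - m1) := by linarith
  have g2 : x1 + a6 + 2 * r = 4 * (m0 - m4) := by linarith
  have g3 : x1 + a6 - 2 * r = 4 * (m6 - m2) := by linarith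
  have g4 : x1 + 4 * x2 + 4 * x3 = 9 * (M0 - M1) := by linarith
  have g5 : x1 + x2 - 2 * x3 = 9 * (M1 - M2) := by linarith
  have g5' : x1 - 2 * x2 + x3 = 9 * (M2 - M3) := by linarith
  have g6 : x2 + b6 = 2 * (k0 - k2) := by linarith
  have g7 : x1 - x2 = 3 * (M1 - M2 + 2 * (M2 - M3)) := by linarith
  have g8 : x1 - x3 = 3 * (2 * (M1 - M2) + (M2 - M3)) := by linarith
  have g9 : x3 - a9 = 3 * (p1 - 3 * M3 - (M1 - M2 + 2 * (M2 - M3))) := by linarith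
  have g10 : x3 - b9 = 3 * (q1 - 3 * M3 - (M1 - M2 + 2 * (M2 - M3))) := by linarith
  clear hr hs ha6 hx1 hb6 hx2 hp0 hp1 hq0 hq1 h0 h1 h2
  obtain ⟨n1, e1⟩ : ∃ n1, a9 - b9 = 3 * n1 := ex3 ⟨_, (by linarith : a9 - b9 = 3 * ((q1 - 3 * M3 -
    (M1 - M2 + 2 * (M2 - M3))) - (p1 - 3 * M3 - (M1 - M2 + 2 * (M2 - M3)))))⟩
  obtain ⟨n2, e2⟩ : ∃ n2, -x1 - 4 * x2 - 4 * x3 + 9 * a6 + 18 * s = 36 * n2 := ex36
    ⟨-(m3 - m1) - x2 - x3 + 2 * a6 + 4 * s, by linarith⟩ ⟨-(M0 - M1) + a6 + 2 * s, by linarith⟩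
  obtain ⟨n3, e3⟩ : ∃ n3, -x1 + 4 * b9 - 3 * a6 - 6 * s = 12 * n3 := ex12
    ⟨-(m3 - m1) + b9 - a6 - 2 * s, by linarith⟩
    ⟨-(2 * (M1 - M2) + (M2 - M3)) - (q1 - 3 * M3 - (M1 - M2 + 2 * (M2 - M3))) + b9 - a6 - 2 * s, by linarith⟩
  obtain ⟨n4, e4⟩ : ∃ n4, -x1 - 4 * x2 - 4 * x3 - 9 * a6 - 18 * r = 36 * n4 := ex36
    ⟨-(m0 - m4) - x2 - x3 - 2 * a6 - 4 * r, by linarith⟩ ⟨-(M0 - M1) - a6 - 2 * r, by linarith⟩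
  obtain ⟨n5, e5⟩ : ∃ n5, -x1 - 4 * x2 - 4 * x3 - 9 * a6 + 18 * r = 36 * n5 := ex36
    ⟨-(m6 - m2) - x2 - x3 - 2 * a6 + 4 * r, by linarith⟩ ⟨-(M0 - M1) - a6 + 2 * r, by linarith⟩
  obtain ⟨n6, e6⟩ : ∃ n6, -x1 - 4 * a9 - 4 * b9 - 3 * a6 - 6 * s = 12 * n6 := ex12
    ⟨-(m3 - m1) - a9 - b9 - a6 - 2 * s, by linarith⟩
    ⟨-(2 * (M1 - M2) + (M2 - M3)) - a9 - b9 + (p1 - 3 * M3 - (M1 - M2 + 2 * (M2 - M3))) - b9 +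
      (q1 - 3 * M3 - (M1 - M2 + 2 * (M2 - M3))) - x3 - a6 - 2 * s + b9, by linarith⟩
  obtain ⟨n7, e7⟩ : ∃ n7, -x2 - 2 * b9 - 3 * b6 = 6 * n7 := ex6
    ⟨-(k0 - k2) - b9 - b6, by linarith⟩
    ⟨(M1 - M2 + 2 * (M2 - M3)) - (2 * (M1 - M2) + (M2 - M3)) - (q1 - 3 * M3 - (M1 - M2 + 2 * (M2 - M3))) - b9 - b6,
      by linarith⟩
  obtain ⟨n8, e8⟩ : ∃ n8, -x2 - 2 * b9 + 3 * b6 = 6 * n8 := ex6
    ⟨-(k0 - k2) - b9 + 2 * b6, by linarith⟩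
    ⟨(M1 - M2 + 2 * (M2 - M3)) - (2 * (M1 - M2) + (M2 - M3)) - (q1 - 3 * M3 - (M1 - M2 + 2 * (M2 - M3))) - b9 + b6,
      by linarith⟩
  clear g1 g2 g3 g4 g5 g6 g7 g8 g9 g10 g5'
  refine ⟨fun i => ([-s, n1, n2, n3, n4, n5, n6, n7, n8] : List ℤ).getD i 0, ?_, ?_, ?_, ?_, ?_, ?_, ?_, ?_, ?_, ?_⟩
  · change 3 * (-s) - 4 * n1 - 6 * n2 - 8 * n3 + 3 * n4 + 3 * n5 - 4 * n6 = x1
    linarith
  · change 2 * n1 - 2 * n3 + 2 * n6 - 3 * n7 - 3 * n8 = x2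
    linarith
  · change -3 * (-s) - n1 - 3 * n2 + 4 * n3 - 3 * n4 - 3 * n5 - n6 + 3 * n7 + 3 * n8 = x3
    linarith
  · change 2 * n1 + n3 - n6 = a9
    linarith
  · change -n1 + n3 - n6 = b9
    linarith
  · change -s + 2 * n2 - n4 - n5 = a6
    linarith
  · change -n7 + n8 = b6
    linarith
  · change -n4 + n5 = r
    linarith
  · change -(-s) = s
    ring
  · change (d - (3 * (3 * (-s) - 4 * n1 - 6 * n2 - 8 * n3 + 3 * n4 + 3 * n5 - 4 * n6) -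
      3 * (2 * n1 - 2 * n3 + 2 * n6 - 3 * n7 - 3 * n8) +
      (-3 * (-s) - n1 - 3 * n2 + 4 * n3 - 3 * n4 - 3 * n5 - n6 + 3 * n7 + 3 * n8))) % 27 = 0
    have f1 : 3 * (-s) - 4 * n1 - 6 * n2 - 8 * n3 + 3 * n4 + 3 * n5 - 4 * n6 = x1 := by linarith
    have f2 : 2 * n1 - 2 * n3 + 2 * n6 - 3 * n7 - 3 * n8 = x2 := by linarith
    have f3 : -3 * (-s) - n1 - 3 * n2 + 4 * n3 - 3 * n4 - 3 * n5 - n6 + 3 * n7 + 3 * n8 = x3 := by linarith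
    rw [f1, f2, f3]
    have f4 : d - (3 * x1 - 3 * x2 + x3) = 27 * M3 := by linarith
    rw [f4]
    exact Int.mul_emod_right 27 M3

section

variable {G : Type*} [Group G] [Finite G] {H : Subgroup G} (D : Con H)

theorem Con.vals (χ : IrrCharacter G) : ∃ (d : ℤ) (n : ℕ → ℤ), 0 < d ∧ (χ : G → ℂ) 1 = (d : ℂ) ∧
    (∀ i : Fin 9, (i : ℕ) < 7 → (χ : G → ℂ) (D.mm (sp i)) = (VV i n : ℂ)) ∧
    (χ : G → ℂ) (D.mm (sp 7)) = (VV 7 n : ℂ) + (VV 8 n : ℂ) * qq ∧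
    (χ : G → ℂ) (D.mm (sp 8)) = (VV 7 n : ℂ) - (VV 8 n : ℂ) * qq ∧ (d - VLf n) % 27 = 0 := by
  obtain ⟨N, hN⟩ := exists_nat_degree (irr_isCharacter χ)
  have hN0 : N ≠ 0 := by
    rintro rfl
    exact irr_one_ne_zero χ.2 (by rw [hN]; norm_num)
  obtain ⟨M0, M1, M2, M3, j0, j1, j2, j3⟩ := D.valsJ χ
  obtain ⟨m0, m1, m2, m3, m4, m5, m6, t7, t8, t5, t0⟩ := D.vals12 χ
  obtain ⟨k0, k1, k2, k3, t6, t1⟩ := D.vals6 χ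
  obtain ⟨p0, p1, u0, u1⟩ := D.vals9 χ 3 (Or.inl rfl)
  obtain ⟨q0, q1, w0, w1⟩ := D.vals9 χ 4 (Or.inr rfl)
  have f0 : D.f (1, 0, 0) = D.mm (sp 0) := (D.mm_f (1, 0, 0)).symm
  have f1 : D.f (1, 1, 0) = D.mm (sp 1) := (D.mm_f (1, 1, 0)).symm
  have f2 : D.f (1, 1, 1) = D.mm (sp 2) := (D.mm_f (1, 1, 1)).symm
  rw [f0, f1, f2] at j0
  rw [f0, f2] at j1
  rw [f1, f2] at j2
  rw [f0, f1, f2] at j3
  rw [hN] at j0 j1 j2 j3 u0 u1 w0 w1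
  have e0 : (χ : G → ℂ) (D.mm (sp 0)) = (((M0 : ℤ) + 3 * M1 - 4 * M3 : ℤ) : ℂ) := by
    push_cast; linear_combination (1 / 27) * (j0 + 3 * j1 - 4 * j3)
  have e1 : (χ : G → ℂ) (D.mm (sp 1)) = (((M0 : ℤ) - 3 * M2 + 2 * M3 : ℤ) : ℂ) := by
    push_cast; linear_combination (1 / 27) * (j0 - 3 * j2 + 2 * j3)
  have e2 : (χ : G → ℂ) (D.mm (sp 2)) = (((M0 : ℤ) - 3 * M1 + 3 * M2 - M3 : ℤ) : ℂ) := by
    push_cast; linear_combination (1 / 27) * (j0 - 3 * j1 + 3 * j2 - j3)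
  have e3 : (χ : G → ℂ) (D.mm (sp 3)) = (((p0 : ℤ) - p1 : ℤ) : ℂ) := by
    push_cast; linear_combination (1 / 9) * (u0 - u1)
  have e4 : (χ : G → ℂ) (D.mm (sp 4)) = (((q0 : ℤ) - q1 : ℤ) : ℂ) := by
    push_cast; linear_combination (1 / 9) * (w0 - w1)
  have e5 : (χ : G → ℂ) (D.mm (sp 5)) = (((m0 : ℤ) + m1 - m2 - 2 * m3 - m4 + m5 + m6 : ℤ) : ℂ) := by
    rw [t5]; push_cast; ring
  have e6 : (χ : G → ℂ) (D.mm (sp 6)) = (((k0 : ℤ) + k1 - k2 - k3 : ℤ) : ℂ) := by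
    rw [t6]; push_cast; ring
  rw [e0] at j0 j1 j3 t0
  rw [e1] at j0 j2 j3 t1
  rw [e2] at j0 j1 j2 j3 u0 u1 w0 w1
  rw [e3] at u0 u1
  rw [e4] at w0 w1
  obtain ⟨n, v0, v1, v2, v3, v4, v5, v6, v7, v8, hc⟩ := exists_lat (N : ℤ) ((M0 : ℤ) + 3 * M1 - 4 * M3)
    ((M0 : ℤ) - 3 * M2 + 2 * M3) ((M0 : ℤ) - 3 * M1 + 3 * M2 - M3) ((p0 : ℤ) - p1) ((q0 : ℤ) - q1)
    ((m0 : ℤ) + m1 - m2 - 2 * m3 - m4 + m5 + m6) ((k0 : ℤ) + k1 - k2 - k3) ((m0 : ℤ) + m2 - m4 - m6) ((m1 : ℤ) - m5)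
    M0 M1 M2 M3 m0 m1 m2 m3 m4 m5 m6 k0 k1 k2 k3 p0 p1 q0 q1 (by exact_mod_cast j0) (by exact_mod_cast j1)
    (by exact_mod_cast j2) (by exact_mod_cast j3) rfl rfl rfl (by exact_mod_cast t0) rfl (by exact_mod_cast t1)
    (by exact_mod_cast u0) (by exact_mod_cast u1) (by exact_mod_cast w0) (by exact_mod_cast w1)
  refine ⟨N, n, by exact_mod_cast Nat.pos_of_ne_zero hN0, by rw [hN]; simp, ?_, ?_, ?_, hc⟩
  · intro i hi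
    have hcases : i = 0 ∨ i = 1 ∨ i = 2 ∨ i = 3 ∨ i = 4 ∨ i = 5 ∨ i = 6 := by
      revert i; decide
    rcases hcases with rfl | rfl | rfl | rfl | rfl | rfl | rfl
    · rw [e0, ← v0]; rfl
    · rw [e1, ← v1]; rfl
    · rw [e2, ← v2]; rfl
    · rw [e3, ← v3]
    · rw [e4, ← v4]
    · rw [e5, ← v5]
    · rw [e6, ← v6]
  · rw [t7, v7, v8]; push_cast; ring
  · rw [t8, v7, v8]; push_cast; ring

theorem sum_ne {α M : Type*} [Fintype α] [DecidableEq α] [AddCommGroup M] (a0 : α) (F : α → M) :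
    ∑ x : {x // x ≠ a0}, F x = ∑ x, F x - F a0 := by
  rw [← Finset.sum_subtype (Finset.univ.erase a0) (fun x => by simp) F, Finset.sum_erase_eq_sub (Finset.mem_univ _)]

theorem qq_ne : qq ≠ 0 := by
  intro h
  have := qq_sq
  rw [h] at this
  norm_num at this

end

end Cfsg.Agent.Tri4
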