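import Cfsg.Agent.Tri4.Loc
import Cfsg.Agent.CharBase.Column
import Cfsg.Agent.Char.Linear

/-!
# The special classes of `3³ : S₄` and multiplicities for cyclic subgroups (helper45)
-/

set_option autoImplicit false
set_option maxRecDepth 100000

open scoped ComplexConjugate
open Cfsg Cfsg.Agent.CharBase

namespace Cfsg.Agent.Tri4

open Multiplicative

/-- multiplication in coordinates -/
def mulP (p q : A3 × Fin 24) : A3 × Fin 24 := (p.1 + sg p.2 q.1, mulI p.2 q.2)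

/-- powers in coordinates -/
def pwP : ℕ → A3 × Fin 24 → A3 × Fin 24
  | 0, _ => (0, 0)
  | k + 1, p => mulP (pwP k p) p

/-- the nine special elements -/
def sp : Fin 9 → A3 × Fin 24 :=
  ![((1, 0, 0), 0), ((1, 1, 0), 0), ((1, 1, 1), 0), ((1, 0, 0), 12), ((2, 0, 0), 12), ((1, 0, 0), 1), ((1, 1, 0), 8),
    ((1, 0, 0), 4), ((2, 0, 0), 4)]

/-- exponents -/
def spk : Fin 9 → ℕ := ![1, 1, 1, 3, 3, 4, 4, 4, 4]

/-- the powers -/
def spv : Fin 9 → A3 := ![(1, 0, 0), (1, 1, 0), (1, 1, 1), (1, 1, 1), (2, 2, 2), (1, 0, 0), (1, 1, 0), (1, 0, 0), (2, 0, 0)]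

/-- centralizer orders -/
def spc : Fin 9 → ℕ := ![108, 54, 81, 9, 9, 12, 6, 12, 12]

theorem sp_pw : ∀ i, pwP (spk i) (sp i) = (spv i, 0) := by decide +kernel

theorem spv_ne : ∀ i, spv i ≠ 0 := by decide

theorem sp_cc : ∀ i, Dat.ccard (sp i).1 (sp i).2 = spc i := by decide +kernel

theorem sp_nc : ∀ i j : Fin 9, i ≠ j → ∀ r : A3 × Fin 24, mulP r (sp i) ≠ mulP (sp j) r := by decide +kernel

namespace Con

variable {G : Type*} [Group G] {H : Subgroup G} (D : Con H)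

/-- elements by coordinates -/
def mm (p : A3 × Fin 24) : G := D.m p.1 p.2

theorem mm_mul (p q : A3 × Fin 24) : D.mm p * D.mm q = D.mm (mulP p q) := D.m_mul _ _ _ _

theorem mm_one : D.mm (0, 0) = 1 := by
  change D.m 0 0 = 1
  rw [D.m_zero, D.f_zero]

theorem mm_pow (p : A3 × Fin 24) (k : ℕ) : D.mm p ^ k = D.mm (pwP k p) := by
  induction k with
  | zero => rw [pow_zero, pwP, mm_one]
  | succ k ih => rw [pow_succ, ih, mm_mul, pwP]

theorem mm_inj {p q : A3 × Fin 24} (h : D.mm p = D.mm q) : p = q := by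
  obtain ⟨h1, h2⟩ := D.m_inj h
  exact Prod.ext h1 h2

theorem mm_f (v : A3) : D.mm (v, 0) = D.f v := D.m_zero v

theorem mm_mem (p : A3 × Fin 24) : D.mm p ∈ H := D.m_mem _ _

theorem mm_ex {h : G} (hh : h ∈ H) : ∃ p, h = D.mm p := by
  obtain ⟨v, i, hvi⟩ := D.ex' hh
  exact ⟨(v, i), hvi⟩

theorem conj_of {p q : A3 × Fin 24} (h : ∃ r, mulP r p = mulP q r) : IsConj (D.mm p) (D.mm q) := by
  obtain ⟨r, hr⟩ := h
  rw [isConj_iff]
  refine ⟨D.mm r, ?_⟩
  rw [mul_inv_eq_iff_eq_mul, mm_mul, mm_mul, hr]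

theorem sp_pow (i : Fin 9) : D.mm (sp i) ^ spk i = D.f (spv i) := by
  rw [mm_pow, sp_pw, mm_f]

theorem sp_cen (i : Fin 9) : Subgroup.centralizer ({D.mm (sp i)} : Set G) ≤ H := by
  intro g hg
  rw [Subgroup.mem_centralizer_iff] at hg
  have h1 : Commute (D.mm (sp i)) g := hg _ rfl
  have h2 := h1.pow_left (spk i)
  rw [sp_pow] at h2
  exact D.cen' (spv_ne i) h2.symm

theorem sp_card (i : Fin 9) : Nat.card (Subgroup.centralizer ({D.mm (sp i)} : Set G)) = spc i := by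
  have h := D.card_centralizer (v := (sp i).1) (i := (sp i).2) (D.sp_cen i)
  rw [sp_cc] at h
  exact h

theorem sp_ti (i : Fin 9) {g : G} (hg : g * D.mm (sp i) * g⁻¹ ∈ H) : g ∈ H := by
  have h1 : g * D.f (spv i) * g⁻¹ ∈ H := by
    rw [← D.sp_pow i, ← conj_pow]
    exact H.pow_mem hg _
  obtain ⟨w, hw⟩ := D.clos _ _ h1
  exact D.ti (spv_ne i) hw

theorem sp_not_conj {i j : Fin 9} (hij : i ≠ j) : ¬ IsConj (D.mm (sp i)) (D.mm (sp j)) := by
  intro h
  obtain ⟨g, hg⟩ := isConj_iff.1 h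
  have h1 : g ∈ H := D.sp_ti i (by rw [hg]; exact D.mm_mem _)
  obtain ⟨r, rfl⟩ := D.mm_ex h1
  rw [mul_inv_eq_iff_eq_mul, mm_mul, mm_mul] at hg
  exact sp_nc i j hij r (D.mm_inj hg)

end Con

/-- multiplicities for cyclic groups -/
theorem exists_cyc {G : Type*} [Group G] [Finite G] {χ : G → ℂ} (hχ : IsCharacter G χ) (g : G) (n : ℕ) (hn : n ≠ 0)
    (hg : g ^ n = 1) (u : ℂ) (hu : u ^ n = 1) :
    ∃ m : ℕ, ∑ k ∈ Finset.range n, χ (g ^ k) * u ^ k = n * m := by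
  obtain ⟨l, rfl⟩ := Nat.exists_eq_succ_of_ne_zero hn
  have hv : ∀ a b : ZMod (l + 1), (a + b).val = (a.val + b.val) % (l + 1) := fun a b => ZMod.val_add a b
  let φ : Multiplicative (ZMod (l + 1)) →* G :=
    { toFun := fun x => g ^ x.toAdd.val
      map_one' := by
        change g ^ (0 : ZMod (l + 1)).val = 1
        rw [ZMod.val_zero, pow_zero]
      map_mul' := fun a b => by
        rw [toAdd_mul, hv, ← pow_add, ← pow_eq_pow_mod _ hg] }
  let f : Multiplicative (ZMod (l + 1)) →* ℂ :=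
    { toFun := fun x => (conj u) ^ x.toAdd.val
      map_one' := by
        change (conj u) ^ (0 : ZMod (l + 1)).val = 1
        rw [ZMod.val_zero, pow_zero]
      map_mul' := fun a b => by
        have hu' : (conj u) ^ (l + 1) = 1 := by rw [← map_pow, hu, map_one]
        rw [toAdd_mul, hv, ← pow_add, ← pow_eq_pow_mod _ hu'] }
  obtain ⟨m, hm⟩ := classInner_natCast (isCharacter_comp hχ φ) (Char.isCharacter_of_hom f)
  refine ⟨m, ?_⟩
  rw [← hm]
  unfold classInner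
  have hA : (Nat.card (Multiplicative (ZMod (l + 1))) : ℂ) ≠ 0 := by exact_mod_cast Nat.card_pos.ne'
  have hA' : Nat.card (Multiplicative (ZMod (l + 1))) = l + 1 := Nat.card_zmod (l + 1)
  have hA2 : ((l + 1 : ℕ) : ℂ) = (Nat.card (Multiplicative (ZMod (l + 1))) : ℂ) := by rw [hA']
  change _ = ((l + 1 : ℕ) : ℂ) * _
  rw [hA2, mul_inv_cancel_left₀ hA, Finset.sum_range]
  refine Fintype.sum_equiv (Multiplicative.ofAdd (α := Fin (l + 1))) _ _ fun v => ?_
  change χ (g ^ (v : ℕ)) * u ^ (v : ℕ) = χ (g ^ (v : ℕ)) * conj ((conj u) ^ (v : ℕ))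
  rw [map_pow, Complex.conj_conj]

end Cfsg.Agent.Tri4
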