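import Cfsg.Agent.Tri4.Grp
import Cfsg.Agent.Solv.Core

/-!
# A subgroup `3³ : S₄` of a finite group, in coordinates (helper45)
-/

set_option autoImplicit false
set_option maxRecDepth 100000

namespace Cfsg.Agent.Tri4

open Multiplicative

/-- coordinates on a subgroup `H` isomorphic to `3³ : S₄` -/
structure Dat {G : Type*} [Group G] (H : Subgroup G) where
  φ : Multiplicative A3 →* G
  e : Fin 24 → G
  memφ : ∀ v, φ v ∈ H
  meme : ∀ i, e i ∈ H
  e_mul : ∀ i j, e i * e j = e (mulI i j)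
  cj : ∀ i (v : A3), e i * φ (ofAdd v) = φ (ofAdd (sg i v)) * e i
  ex : ∀ h ∈ H, ∃ (v : A3) (i : Fin 24), h = φ (ofAdd v) * e i
  inj : ∀ (v w : A3) (i j : Fin 24), φ (ofAdd v) * e i = φ (ofAdd w) * e j → v = w ∧ i = j

theorem Ph_mem (v : A3) : Ph v ∈ K0 := by
  have h := mem_K0 v 0
  rwa [Ei_zero, mul_one] at h

theorem Ei_mem (i : Fin 24) : Ei i ∈ K0 := by
  have h := mem_K0 0 i
  rwa [Ph_zero, one_mul] at h

theorem exists_dat {G : Type*} [Group G] (H : Subgroup G) (ψ : ↥H ≃* ↥K0) : Nonempty (Dat H) := by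
  let F : Multiplicative A3 →* ↥K0 :=
    { toFun := fun v => ⟨Ph v.toAdd, Ph_mem _⟩
      map_one' := Subtype.ext Ph_zero
      map_mul' := fun v w => Subtype.ext (Ph_add v.toAdd w.toAdd) }
  let E : Fin 24 → ↥K0 := fun i => ⟨Ei i, Ei_mem i⟩
  refine ⟨{ φ := (H.subtype.comp ψ.symm.toMonoidHom).comp F
            e := fun i => ((ψ.symm (E i) : ↥H) : G)
            memφ := fun v => (ψ.symm (F v)).2
            meme := fun i => (ψ.symm (E i)).2
            e_mul := ?_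
            cj := ?_
            ex := ?_
            inj := ?_ }⟩
  · intro i j
    rw [← Subgroup.coe_mul, ← map_mul]
    congr 2
    exact Subtype.ext (Ei_mul i j)
  · intro i v
    change ((ψ.symm (E i) : ↥H) : G) * ((ψ.symm (F (ofAdd v)) : ↥H) : G) =
      ((ψ.symm (F (ofAdd (sg i v))) : ↥H) : G) * ((ψ.symm (E i) : ↥H) : G)
    rw [← Subgroup.coe_mul, ← Subgroup.coe_mul, ← map_mul, ← map_mul]
    congr 2
    exact Subtype.ext (Ei_Ph i v)
  · intro h hh
    obtain ⟨v, i, hvi⟩ := exists_of_mem_K0 (ψ ⟨h, hh⟩).2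
    refine ⟨v, i, ?_⟩
    change h = ((ψ.symm (F (ofAdd v)) : ↥H) : G) * ((ψ.symm (E i) : ↥H) : G)
    rw [← Subgroup.coe_mul, ← map_mul]
    have h1 : F (ofAdd v) * E i = ψ ⟨h, hh⟩ := Subtype.ext hvi.symm
    rw [h1, MulEquiv.symm_apply_apply]
  · intro v w i j h
    change ((ψ.symm (F (ofAdd v)) : ↥H) : G) * ((ψ.symm (E i) : ↥H) : G) =
      ((ψ.symm (F (ofAdd w)) : ↥H) : G) * ((ψ.symm (E j) : ↥H) : G) at h
    rw [← Subgroup.coe_mul, ← Subgroup.coe_mul, ← map_mul, ← map_mul] at h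
    have h1 := ψ.symm.injective (Subtype.ext h)
    exact Ph_Ei_inj v w i j (congrArg Subtype.val h1)

namespace Dat

variable {G : Type*} [Group G] {H : Subgroup G} (D : Dat H)

/-- element of the normal subgroup -/
def f (v : A3) : G := D.φ (ofAdd v)

/-- general element -/
def m (v : A3) (i : Fin 24) : G := D.f v * D.e i

theorem f_add (v w : A3) : D.f (v + w) = D.f v * D.f w := by
  unfold f; rw [ofAdd_add, map_mul]

theorem f_zero : D.f 0 = 1 := by unfold f; rw [ofAdd_zero, map_one]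

theorem f_neg (v : A3) : D.f (-v) = (D.f v)⁻¹ := by unfold f; rw [ofAdd_neg, map_inv]

theorem f_comm (v w : A3) : D.f v * D.f w = D.f w * D.f v := by rw [← f_add, ← f_add, add_comm]

theorem e_f (i : Fin 24) (v : A3) : D.e i * D.f v = D.f (sg i v) * D.e i := D.cj i v

theorem e_zero : D.e 0 = 1 := by
  have h := D.e_mul 0 0
  have h2 : mulI 0 0 = 0 := by decide
  rw [h2] at h
  exact mul_eq_right.1 h

theorem m_zero (v : A3) : D.m v 0 = D.f v := by unfold m; rw [D.e_zero, mul_one]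

theorem m_mul (v w : A3) (i j : Fin 24) : D.m v i * D.m w j = D.m (v + sg i w) (mulI i j) := by
  unfold m
  rw [f_add, ← D.e_mul]
  calc D.f v * D.e i * (D.f w * D.e j) = D.f v * (D.e i * D.f w) * D.e j := by group
    _ = D.f v * (D.f (sg i w) * D.e i) * D.e j := by rw [e_f]
    _ = _ := by group

theorem m_inj {v w : A3} {i j : Fin 24} (h : D.m v i = D.m w j) : v = w ∧ i = j := D.inj v w i j h

theorem f_inj {v w : A3} (h : D.f v = D.f w) : v = w := by
  rw [← D.m_zero, ← D.m_zero] at h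
  exact (D.m_inj h).1

theorem f_ne_one {v : A3} (h : v ≠ 0) : D.f v ≠ 1 := by
  intro h1; rw [← D.f_zero] at h1; exact h (D.f_inj h1)

theorem f_cube (v : A3) : D.f v ^ 3 = 1 := by
  have h : ∀ v : A3, v + v + v = 0 := by decide +kernel
  rw [pow_succ, pow_two, ← f_add, ← f_add, h, f_zero]

theorem f_mem (v : A3) : D.f v ∈ H := D.memφ _

theorem m_mem (v : A3) (i : Fin 24) : D.m v i ∈ H := H.mul_mem (D.f_mem v) (D.meme i)

theorem ex' {h : G} (hh : h ∈ H) : ∃ (v : A3) (i : Fin 24), h = D.m v i := D.ex h hh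

include D in
theorem card_H : Nat.card H = 648 := by
  have h1 : Nat.card (A3 × Fin 24) = 648 := by simp [Nat.card_eq_fintype_card, ZMod.card]
  rw [← h1]
  symm
  refine Nat.card_congr (Equiv.ofBijective (fun p => (⟨D.m p.1 p.2, D.m_mem _ _⟩ : ↥H)) ⟨?_, ?_⟩)
  · rintro ⟨u, i⟩ ⟨u', i'⟩ h
    obtain ⟨h1, h2⟩ := D.m_inj (congrArg Subtype.val h)
    simp only at h1 h2
    rw [h1, h2]
  · rintro ⟨h, hh⟩
    obtain ⟨v, i, rfl⟩ := D.ex' hh
    exact ⟨(v, i), rfl⟩

/-- the commuting relation in coordinates -/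
theorem comm_iff (p : A3 × Fin 24) (v w : A3) (i j : Fin 24) :
    D.m p.1 p.2 * D.m v i = D.m w j * D.m p.1 p.2 ↔
      p.1 + sg p.2 v = w + sg j p.1 ∧ mulI p.2 i = mulI j p.2 := by
  rw [D.m_mul, D.m_mul]
  constructor
  · exact fun h => D.m_inj h
  · rintro ⟨h1, h2⟩; rw [h1, h2]

/-- the number of elements commuting with a given element -/
def ccard (v : A3) (i : Fin 24) : ℕ :=
  (Finset.univ.filter (fun p : A3 × Fin 24 => p.1 + sg p.2 v = v + sg i p.1 ∧ mulI p.2 i = mulI i p.2)).card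

theorem card_centralizer {v : A3} {i : Fin 24} (hc : Subgroup.centralizer ({D.m v i} : Set G) ≤ H) :
    Nat.card (Subgroup.centralizer ({D.m v i} : Set G)) = ccard v i := by
  unfold ccard
  rw [← Fintype.card_subtype, ← Nat.card_eq_fintype_card]
  symm
  refine Nat.card_congr (Equiv.ofBijective (fun p => (⟨D.m p.1.1 p.1.2, ?_⟩ :
    ↥(Subgroup.centralizer ({D.m v i} : Set G)))) ⟨?_, ?_⟩)
  · rw [Subgroup.mem_centralizer_iff]
    intro h hh
    rw [Set.mem_singleton_iff] at hh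
    subst hh
    exact ((D.comm_iff p.1 v v i i).2 p.2).symm
  · rintro ⟨⟨u, i⟩, hu⟩ ⟨⟨u', i'⟩, hu'⟩ h
    obtain ⟨h1, h2⟩ := D.m_inj (congrArg Subtype.val h)
    simp only at h1 h2
    subst h1 h2
    rfl
  · rintro ⟨h, hh⟩
    obtain ⟨u, j, rfl⟩ := D.ex' (hc hh)
    rw [Subgroup.mem_centralizer_iff] at hh
    have h1 := hh _ (Set.mem_singleton _)
    exact ⟨⟨(u, j), (D.comm_iff (u, j) v v i i).1 h1.symm⟩, rfl⟩

/-- `O₃(H)` is the normal subgroup of order 27 -/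
theorem mem_core_iff [Finite G] (x : G) : x ∈ (Cfsg.pCore 3 ↥H).map H.subtype ↔ ∃ v, x = D.f v := by
  have hex : ∀ h : ↥H, ∃ (v : A3) (i : Fin 24), h = ⟨D.m v i, D.m_mem v i⟩ := by
    rintro ⟨h, hh⟩
    obtain ⟨v, i, rfl⟩ := D.ex' hh
    exact ⟨v, i, rfl⟩
  let T : Subgroup ↥H :=
    { carrier := {h | ∃ v, (h : G) = D.f v}
      one_mem' := ⟨0, by rw [D.f_zero]; rfl⟩
      mul_mem' := by
        rintro a b ⟨v, hv⟩ ⟨w, hw⟩
        exact ⟨v + w, by rw [Subgroup.coe_mul, hv, hw, D.f_add]⟩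
      inv_mem' := by
        rintro a ⟨v, hv⟩
        exact ⟨-v, by rw [Subgroup.coe_inv, hv, D.f_neg]⟩ }
  have hTn : T.Normal := by
    constructor
    rintro a ⟨v, hv⟩ g
    obtain ⟨w, i, rfl⟩ := hex g
    refine ⟨sg i v, ?_⟩
    rw [Subgroup.coe_mul, Subgroup.coe_mul, Subgroup.coe_inv, hv]
    change D.m w i * D.f v * (D.m w i)⁻¹ = D.f (sg i v)
    rw [mul_inv_eq_iff_eq_mul]
    unfold m
    calc D.f w * D.e i * D.f v = D.f w * (D.e i * D.f v) := by group
      _ = D.f w * D.f (sg i v) * D.e i := by rw [e_f]; group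
      _ = _ := by rw [D.f_comm]; group
  have hTp : IsPGroup 3 T := by
    rintro ⟨a, v, hv⟩
    refine ⟨1, ?_⟩
    apply Subtype.ext
    apply Subtype.ext
    change (a : G) ^ (3 ^ 1) = 1
    rw [hv]; exact D.f_cube v
  have hTO := Solv.le_pCore hTn hTp
  constructor
  · rintro ⟨h, hh, rfl⟩
    obtain ⟨v, i, rfl⟩ := hex h
    have hO := Solv.pCore_isPGroup 3 (G := ↥H)
    have hN := Solv.pCore_normal (G := ↥H) 3
    have hTm : ∀ v, (⟨D.f v, D.f_mem v⟩ : ↥H) ∈ Cfsg.pCore 3 ↥H := fun v => hTO ⟨v, rfl⟩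
    have hei : (⟨D.e i, D.meme i⟩ : ↥H) ∈ Cfsg.pCore 3 ↥H := by
      have h1 := (Cfsg.pCore 3 ↥H).mul_mem (Subgroup.inv_mem _ (hTm v)) hh
      have h2 : (⟨D.f v, D.f_mem v⟩ : ↥H)⁻¹ * ⟨D.m v i, D.m_mem v i⟩ = ⟨D.e i, D.meme i⟩ := by
        apply Subtype.ext
        change (D.f v)⁻¹ * (D.f v * D.e i) = D.e i
        group
      rwa [h2] at h1
    have key : ∀ i : Fin 24, i = 0 ∨ ∃ j : Fin 24, (mulI i (mulI (mulI j i) (invI j))) ≠ 0 ∧
        mulI (mulI (mulI i (mulI (mulI j i) (invI j))) (mulI i (mulI (mulI j i) (invI j))))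
          (mulI (mulI i (mulI (mulI j i) (invI j))) (mulI i (mulI (mulI j i) (invI j)))) = 0 := by decide +kernel
    rcases key i with rfl | ⟨j, hj1, hj2⟩
    · refine ⟨v, ?_⟩
      change D.m v 0 = D.f v
      exact D.m_zero v
    · exfalso
      have hinv : D.e (invI j) = (D.e j)⁻¹ := by
        rw [eq_inv_iff_mul_eq_one, D.e_mul, (mulI_inv j).2, D.e_zero]
      set k := mulI i (mulI (mulI j i) (invI j)) with hk
      have hek : (⟨D.e k, D.meme k⟩ : ↥H) ∈ Cfsg.pCore 3 ↥H := by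
        have h1 := (Cfsg.pCore 3 ↥H).mul_mem hei (hN.conj_mem _ hei ⟨D.e j, D.meme j⟩)
        have h2 : (⟨D.e i, D.meme i⟩ : ↥H) * (⟨D.e j, D.meme j⟩ * ⟨D.e i, D.meme i⟩ * (⟨D.e j, D.meme j⟩ : ↥H)⁻¹) =
            ⟨D.e k, D.meme k⟩ := by
          apply Subtype.ext
          change D.e i * (D.e j * D.e i * (D.e j)⁻¹) = D.e k
          rw [← hinv, D.e_mul, D.e_mul, D.e_mul]
        rwa [h2] at h1
      obtain ⟨n, hn⟩ := hO ⟨_, hek⟩
      have hn' : D.e k ^ 3 ^ n = 1 := congrArg (fun z => ((z : ↥H) : G)) (congrArg Subtype.val hn)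
      have h4 : D.e k ^ 4 = 1 := by
        have : D.e k ^ 4 = D.e k * D.e k * (D.e k * D.e k) := by simp only [pow_succ, pow_zero, one_mul]; group
        rw [this, D.e_mul, D.e_mul, hj2, D.e_zero]
      have h1 : orderOf (D.e k) ∣ 1 := by
        have : Nat.Coprime (3 ^ n) 4 := Nat.Coprime.pow_left n (by norm_num)
        rw [← this]
        exact Nat.dvd_gcd (orderOf_dvd_of_pow_eq_one hn') (orderOf_dvd_of_pow_eq_one h4)
      have h2 : D.e k = 1 := orderOf_eq_one_iff.1 (Nat.dvd_one.1 h1)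
      apply hj1
      have h3 : D.m 0 k = D.m 0 0 := by
        unfold m; rw [h2, D.e_zero]
      exact (D.m_inj h3).2
  · rintro ⟨v, rfl⟩
    exact ⟨⟨D.f v, D.f_mem v⟩, hTO ⟨v, rfl⟩, rfl⟩

end Dat

end Cfsg.Agent.Tri4
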