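import Cfsg.Agent.Tri4.Sp
import Cfsg.Agent.Tri3.Mult

/-!
# Character values on the special classes (helper45)
-/

set_option autoImplicit false
set_option maxRecDepth 100000
set_option maxHeartbeats 1000000

open scoped ComplexConjugate
open Cfsg Cfsg.Agent.CharBase

namespace Cfsg.Agent.Tri4

open Multiplicative Tri3

/-- the square root of 3 -/
noncomputable def qq : ℂ := Complex.I * (-1 - 2 * om)

theorem qq_sq : qq ^ 2 = 3 := by
  unfold qq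
  have h := om_rel
  have h2 := Complex.I_sq
  linear_combination (-1 - 2 * om) ^ 2 * h2 - 4 * h

theorem conj_qq : conj qq = qq := by
  unfold qq
  rw [map_mul, Complex.conj_I, map_sub, map_neg, map_one, map_mul, conj_om]
  have : conj (2 : ℂ) = 2 := Complex.conj_ofNat 2
  rw [this]; ring

/-- the dot product -/
def dot3 (w : A3) : A3 →+ ZMod 3 where
  toFun v := w.1 * v.1 + w.2.1 * v.2.1 + w.2.2 * v.2.2
  map_zero' := by simp
  map_add' a b := by simp only [Prod.fst_add, Prod.snd_add]; ring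

theorem sum_z3 (f : ZMod 3 → ℂ) : ∑ x, f x = f 0 + f 1 + f 2 := Fin.sum_univ_three f

theorem sum_A3 (F : A3 → ℂ) : ∑ v : A3, F v =
    F (0, 0, 0) + F (0, 0, 1) + F (0, 0, 2) + F (0, 1, 0) + F (0, 1, 1) + F (0, 1, 2) + F (0, 2, 0) + F (0, 2, 1) + F (0, 2, 2) + F (1, 0, 0) + F (1, 0, 1) + F (1, 0, 2) + F (1, 1, 0) + F (1, 1, 1) + F (1, 1, 2) + F (1, 2, 0) + F (1, 2, 1) + F (1, 2, 2) + F (2, 0, 0) + F (2, 0, 1) + F (2, 0, 2) + F (2, 1, 0) + F (2, 1, 1) + F (2, 1, 2) + F (2, 2, 0) + F (2, 2, 1) + F (2, 2, 2) := by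
  simp only [Fintype.sum_prod_type, sum_z3]
  ring

section

variable {G : Type*} [Group G] [Finite G] {H : Subgroup G} (D : Con H)

theorem chi_conj (χ : IrrCharacter G) {a b : G} (h : IsConj a b) : (χ : G → ℂ) a = (χ : G → ℂ) b :=
  classFun_eq_of_isConj (irr_isClassFunction χ) h

theorem xr_ne : ∀ v : A3, v ≠ 0 → xr (wt v) ≠ 0 ∧ wt (xr (wt v)) = wt v := by decide +kernel

theorem Con.char_f (χ : IrrCharacter G) (v : A3) : (χ : G → ℂ) (D.f v) = (χ : G → ℂ) (D.f (xr (wt v))) := by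
  by_cases hv : v = 0
  · subst hv; rfl
  · obtain ⟨h1, h2⟩ := xr_ne v hv
    obtain ⟨i, hi⟩ := wt_conj (xr (wt v)) v h2
    apply chi_conj χ
    rw [isConj_iff]
    exact ⟨D.e i, by rw [D.e_conj, hi]⟩

/-- multiplicities of linear characters of the elementary abelian group -/
theorem Con.valsJ (χ : IrrCharacter G) : ∃ m0 m1 m2 m3 : ℕ,
    (χ : G → ℂ) 1 + 6 * (χ : G → ℂ) (D.f (1, 0, 0)) + 12 * (χ : G → ℂ) (D.f (1, 1, 0)) + 8 * (χ : G → ℂ) (D.f (1, 1, 1)) =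
      27 * m0 ∧
    (χ : G → ℂ) 1 + 3 * (χ : G → ℂ) (D.f (1, 0, 0)) - 4 * (χ : G → ℂ) (D.f (1, 1, 1)) = 27 * m1 ∧
    (χ : G → ℂ) 1 - 3 * (χ : G → ℂ) (D.f (1, 1, 0)) + 2 * (χ : G → ℂ) (D.f (1, 1, 1)) = 27 * m2 ∧
    (χ : G → ℂ) 1 - 3 * (χ : G → ℂ) (D.f (1, 0, 0)) + 3 * (χ : G → ℂ) (D.f (1, 1, 0)) - (χ : G → ℂ) (D.f (1, 1, 1)) =
      27 * m3 := by
  have hcard : (Nat.card A3 : ℂ) = 27 := by simp [Nat.card_eq_fintype_card, ZMod.card]
  have hz : D.f (0, 0, 0) = 1 := D.f_zero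
  obtain ⟨m0, hm0⟩ := exists_mult D.φ (dot3 (0, 0, 0)) (irr_isCharacter χ)
  obtain ⟨m1, hm1⟩ := exists_mult D.φ (dot3 (1, 0, 0)) (irr_isCharacter χ)
  obtain ⟨m2, hm2⟩ := exists_mult D.φ (dot3 (1, 1, 0)) (irr_isCharacter χ)
  obtain ⟨m3, hm3⟩ := exists_mult D.φ (dot3 (1, 1, 1)) (irr_isCharacter χ)
  change ∑ v : A3, (χ : G → ℂ) (D.f v) * e3 (-(dot3 (0, 0, 0) v)) = _ at hm0
  change ∑ v : A3, (χ : G → ℂ) (D.f v) * e3 (-(dot3 (1, 0, 0) v)) = _ at hm1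
  change ∑ v : A3, (χ : G → ℂ) (D.f v) * e3 (-(dot3 (1, 1, 0) v)) = _ at hm2
  change ∑ v : A3, (χ : G → ℂ) (D.f v) * e3 (-(dot3 (1, 1, 1) v)) = _ at hm3
  have c001 : (χ : G → ℂ) (D.f (0, 0, 1)) = (χ : G → ℂ) (D.f (1, 0, 0)) := D.char_f χ (0, 0, 1)
  have c002 : (χ : G → ℂ) (D.f (0, 0, 2)) = (χ : G → ℂ) (D.f (1, 0, 0)) := D.char_f χ (0, 0, 2)
  have c010 : (χ : G → ℂ) (D.f (0, 1, 0)) = (χ : G → ℂ) (D.f (1, 0, 0)) := D.char_f χ (0, 1, 0)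
  have c011 : (χ : G → ℂ) (D.f (0, 1, 1)) = (χ : G → ℂ) (D.f (1, 1, 0)) := D.char_f χ (0, 1, 1)
  have c012 : (χ : G → ℂ) (D.f (0, 1, 2)) = (χ : G → ℂ) (D.f (1, 1, 0)) := D.char_f χ (0, 1, 2)
  have c020 : (χ : G → ℂ) (D.f (0, 2, 0)) = (χ : G → ℂ) (D.f (1, 0, 0)) := D.char_f χ (0, 2, 0)
  have c021 : (χ : G → ℂ) (D.f (0, 2, 1)) = (χ : G → ℂ) (D.f (1, 1, 0)) := D.char_f χ (0, 2, 1)
  have c022 : (χ : G → ℂ) (D.f (0, 2, 2)) = (χ : G → ℂ) (D.f (1, 1, 0)) := D.char_f χ (0, 2, 2)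
  have c101 : (χ : G → ℂ) (D.f (1, 0, 1)) = (χ : G → ℂ) (D.f (1, 1, 0)) := D.char_f χ (1, 0, 1)
  have c102 : (χ : G → ℂ) (D.f (1, 0, 2)) = (χ : G → ℂ) (D.f (1, 1, 0)) := D.char_f χ (1, 0, 2)
  have c112 : (χ : G → ℂ) (D.f (1, 1, 2)) = (χ : G → ℂ) (D.f (1, 1, 1)) := D.char_f χ (1, 1, 2)
  have c120 : (χ : G → ℂ) (D.f (1, 2, 0)) = (χ : G → ℂ) (D.f (1, 1, 0)) := D.char_f χ (1, 2, 0)
  have c121 : (χ : G → ℂ) (D.f (1, 2, 1)) = (χ : G → ℂ) (D.f (1, 1, 1)) := D.char_f χ (1, 2, 1)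
  have c122 : (χ : G → ℂ) (D.f (1, 2, 2)) = (χ : G → ℂ) (D.f (1, 1, 1)) := D.char_f χ (1, 2, 2)
  have c200 : (χ : G → ℂ) (D.f (2, 0, 0)) = (χ : G → ℂ) (D.f (1, 0, 0)) := D.char_f χ (2, 0, 0)
  have c201 : (χ : G → ℂ) (D.f (2, 0, 1)) = (χ : G → ℂ) (D.f (1, 1, 0)) := D.char_f χ (2, 0, 1)
  have c202 : (χ : G → ℂ) (D.f (2, 0, 2)) = (χ : G → ℂ) (D.f (1, 1, 0)) := D.char_f χ (2, 0, 2)
  have c210 : (χ : G → ℂ) (D.f (2, 1, 0)) = (χ : G → ℂ) (D.f (1, 1, 0)) := D.char_f χ (2, 1, 0)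
  have c211 : (χ : G → ℂ) (D.f (2, 1, 1)) = (χ : G → ℂ) (D.f (1, 1, 1)) := D.char_f χ (2, 1, 1)
  have c212 : (χ : G → ℂ) (D.f (2, 1, 2)) = (χ : G → ℂ) (D.f (1, 1, 1)) := D.char_f χ (2, 1, 2)
  have c220 : (χ : G → ℂ) (D.f (2, 2, 0)) = (χ : G → ℂ) (D.f (1, 1, 0)) := D.char_f χ (2, 2, 0)
  have c221 : (χ : G → ℂ) (D.f (2, 2, 1)) = (χ : G → ℂ) (D.f (1, 1, 1)) := D.char_f χ (2, 2, 1)
  have c222 : (χ : G → ℂ) (D.f (2, 2, 2)) = (χ : G → ℂ) (D.f (1, 1, 1)) := D.char_f χ (2, 2, 2)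
  have l0000 : -(dot3 (0, 0, 0) (0, 0, 0)) = 0 := by decide
  have l0001 : -(dot3 (0, 0, 0) (0, 0, 1)) = 0 := by decide
  have l0002 : -(dot3 (0, 0, 0) (0, 0, 2)) = 0 := by decide
  have l0010 : -(dot3 (0, 0, 0) (0, 1, 0)) = 0 := by decide
  have l0011 : -(dot3 (0, 0, 0) (0, 1, 1)) = 0 := by decide
  have l0012 : -(dot3 (0, 0, 0) (0, 1, 2)) = 0 := by decide
  have l0020 : -(dot3 (0, 0, 0) (0, 2, 0)) = 0 := by decide
  have l0021 : -(dot3 (0, 0, 0) (0, 2, 1)) = 0 := by decide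
  have l0022 : -(dot3 (0, 0, 0) (0, 2, 2)) = 0 := by decide
  have l0100 : -(dot3 (0, 0, 0) (1, 0, 0)) = 0 := by decide
  have l0101 : -(dot3 (0, 0, 0) (1, 0, 1)) = 0 := by decide
  have l0102 : -(dot3 (0, 0, 0) (1, 0, 2)) = 0 := by decide
  have l0110 : -(dot3 (0, 0, 0) (1, 1, 0)) = 0 := by decide
  have l0111 : -(dot3 (0, 0, 0) (1, 1, 1)) = 0 := by decide
  have l0112 : -(dot3 (0, 0, 0) (1, 1, 2)) = 0 := by decide
  have l0120 : -(dot3 (0, 0, 0) (1, 2, 0)) = 0 := by decide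
  have l0121 : -(dot3 (0, 0, 0) (1, 2, 1)) = 0 := by decide
  have l0122 : -(dot3 (0, 0, 0) (1, 2, 2)) = 0 := by decide
  have l0200 : -(dot3 (0, 0, 0) (2, 0, 0)) = 0 := by decide
  have l0201 : -(dot3 (0, 0, 0) (2, 0, 1)) = 0 := by decide
  have l0202 : -(dot3 (0, 0, 0) (2, 0, 2)) = 0 := by decide
  have l0210 : -(dot3 (0, 0, 0) (2, 1, 0)) = 0 := by decide
  have l0211 : -(dot3 (0, 0, 0) (2, 1, 1)) = 0 := by decide
  have l0212 : -(dot3 (0, 0, 0) (2, 1, 2)) = 0 := by decide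
  have l0220 : -(dot3 (0, 0, 0) (2, 2, 0)) = 0 := by decide
  have l0221 : -(dot3 (0, 0, 0) (2, 2, 1)) = 0 := by decide
  have l0222 : -(dot3 (0, 0, 0) (2, 2, 2)) = 0 := by decide
  have l1000 : -(dot3 (1, 0, 0) (0, 0, 0)) = 0 := by decide
  have l1001 : -(dot3 (1, 0, 0) (0, 0, 1)) = 0 := by decide
  have l1002 : -(dot3 (1, 0, 0) (0, 0, 2)) = 0 := by decide
  have l1010 : -(dot3 (1, 0, 0) (0, 1, 0)) = 0 := by decide
  have l1011 : -(dot3 (1, 0, 0) (0, 1, 1)) = 0 := by decide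
  have l1012 : -(dot3 (1, 0, 0) (0, 1, 2)) = 0 := by decide
  have l1020 : -(dot3 (1, 0, 0) (0, 2, 0)) = 0 := by decide
  have l1021 : -(dot3 (1, 0, 0) (0, 2, 1)) = 0 := by decide
  have l1022 : -(dot3 (1, 0, 0) (0, 2, 2)) = 0 := by decide
  have l1100 : -(dot3 (1, 0, 0) (1, 0, 0)) = 2 := by decide
  have l1101 : -(dot3 (1, 0, 0) (1, 0, 1)) = 2 := by decide
  have l1102 : -(dot3 (1, 0, 0) (1, 0, 2)) = 2 := by decide
  have l1110 : -(dot3 (1, 0, 0) (1, 1, 0)) = 2 := by decide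
  have l1111 : -(dot3 (1, 0, 0) (1, 1, 1)) = 2 := by decide
  have l1112 : -(dot3 (1, 0, 0) (1, 1, 2)) = 2 := by decide
  have l1120 : -(dot3 (1, 0, 0) (1, 2, 0)) = 2 := by decide
  have l1121 : -(dot3 (1, 0, 0) (1, 2, 1)) = 2 := by decide
  have l1122 : -(dot3 (1, 0, 0) (1, 2, 2)) = 2 := by decide
  have l1200 : -(dot3 (1, 0, 0) (2, 0, 0)) = 1 := by decide
  have l1201 : -(dot3 (1, 0, 0) (2, 0, 1)) = 1 := by decide
  have l1202 : -(dot3 (1, 0, 0) (2, 0, 2)) = 1 := by decide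
  have l1210 : -(dot3 (1, 0, 0) (2, 1, 0)) = 1 := by decide
  have l1211 : -(dot3 (1, 0, 0) (2, 1, 1)) = 1 := by decide
  have l1212 : -(dot3 (1, 0, 0) (2, 1, 2)) = 1 := by decide
  have l1220 : -(dot3 (1, 0, 0) (2, 2, 0)) = 1 := by decide
  have l1221 : -(dot3 (1, 0, 0) (2, 2, 1)) = 1 := by decide
  have l1222 : -(dot3 (1, 0, 0) (2, 2, 2)) = 1 := by decide
  have l2000 : -(dot3 (1, 1, 0) (0, 0, 0)) = 0 := by decide
  have l2001 : -(dot3 (1, 1, 0) (0, 0, 1)) = 0 := by decide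
  have l2002 : -(dot3 (1, 1, 0) (0, 0, 2)) = 0 := by decide
  have l2010 : -(dot3 (1, 1, 0) (0, 1, 0)) = 2 := by decide
  have l2011 : -(dot3 (1, 1, 0) (0, 1, 1)) = 2 := by decide
  have l2012 : -(dot3 (1, 1, 0) (0, 1, 2)) = 2 := by decide
  have l2020 : -(dot3 (1, 1, 0) (0, 2, 0)) = 1 := by decide
  have l2021 : -(dot3 (1, 1, 0) (0, 2, 1)) = 1 := by decide
  have l2022 : -(dot3 (1, 1, 0) (0, 2, 2)) = 1 := by decide
  have l2100 : -(dot3 (1, 1, 0) (1, 0, 0)) = 2 := by decide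
  have l2101 : -(dot3 (1, 1, 0) (1, 0, 1)) = 2 := by decide
  have l2102 : -(dot3 (1, 1, 0) (1, 0, 2)) = 2 := by decide
  have l2110 : -(dot3 (1, 1, 0) (1, 1, 0)) = 1 := by decide
  have l2111 : -(dot3 (1, 1, 0) (1, 1, 1)) = 1 := by decide
  have l2112 : -(dot3 (1, 1, 0) (1, 1, 2)) = 1 := by decide
  have l2120 : -(dot3 (1, 1, 0) (1, 2, 0)) = 0 := by decide
  have l2121 : -(dot3 (1, 1, 0) (1, 2, 1)) = 0 := by decide
  have l2122 : -(dot3 (1, 1, 0) (1, 2, 2)) = 0 := by decide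
  have l2200 : -(dot3 (1, 1, 0) (2, 0, 0)) = 1 := by decide
  have l2201 : -(dot3 (1, 1, 0) (2, 0, 1)) = 1 := by decide
  have l2202 : -(dot3 (1, 1, 0) (2, 0, 2)) = 1 := by decide
  have l2210 : -(dot3 (1, 1, 0) (2, 1, 0)) = 0 := by decide
  have l2211 : -(dot3 (1, 1, 0) (2, 1, 1)) = 0 := by decide
  have l2212 : -(dot3 (1, 1, 0) (2, 1, 2)) = 0 := by decide
  have l2220 : -(dot3 (1, 1, 0) (2, 2, 0)) = 2 := by decide
  have l2221 : -(dot3 (1, 1, 0) (2, 2, 1)) = 2 := by decide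
  have l2222 : -(dot3 (1, 1, 0) (2, 2, 2)) = 2 := by decide
  have l3000 : -(dot3 (1, 1, 1) (0, 0, 0)) = 0 := by decide
  have l3001 : -(dot3 (1, 1, 1) (0, 0, 1)) = 2 := by decide
  have l3002 : -(dot3 (1, 1, 1) (0, 0, 2)) = 1 := by decide
  have l3010 : -(dot3 (1, 1, 1) (0, 1, 0)) = 2 := by decide
  have l3011 : -(dot3 (1, 1, 1) (0, 1, 1)) = 1 := by decide
  have l3012 : -(dot3 (1, 1, 1) (0, 1, 2)) = 0 := by decide
  have l3020 : -(dot3 (1, 1, 1) (0, 2, 0)) = 1 := by decide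
  have l3021 : -(dot3 (1, 1, 1) (0, 2, 1)) = 0 := by decide
  have l3022 : -(dot3 (1, 1, 1) (0, 2, 2)) = 2 := by decide
  have l3100 : -(dot3 (1, 1, 1) (1, 0, 0)) = 2 := by decide
  have l3101 : -(dot3 (1, 1, 1) (1, 0, 1)) = 1 := by decide
  have l3102 : -(dot3 (1, 1, 1) (1, 0, 2)) = 0 := by decide
  have l3110 : -(dot3 (1, 1, 1) (1, 1, 0)) = 1 := by decide
  have l3111 : -(dot3 (1, 1, 1) (1, 1, 1)) = 0 := by decide
  have l3112 : -(dot3 (1, 1, 1) (1, 1, 2)) = 2 := by decide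
  have l3120 : -(dot3 (1, 1, 1) (1, 2, 0)) = 0 := by decide
  have l3121 : -(dot3 (1, 1, 1) (1, 2, 1)) = 2 := by decide
  have l3122 : -(dot3 (1, 1, 1) (1, 2, 2)) = 1 := by decide
  have l3200 : -(dot3 (1, 1, 1) (2, 0, 0)) = 1 := by decide
  have l3201 : -(dot3 (1, 1, 1) (2, 0, 1)) = 0 := by decide
  have l3202 : -(dot3 (1, 1, 1) (2, 0, 2)) = 2 := by decide
  have l3210 : -(dot3 (1, 1, 1) (2, 1, 0)) = 0 := by decide
  have l3211 : -(dot3 (1, 1, 1) (2, 1, 1)) = 2 := by decide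
  have l3212 : -(dot3 (1, 1, 1) (2, 1, 2)) = 1 := by decide
  have l3220 : -(dot3 (1, 1, 1) (2, 2, 0)) = 2 := by decide
  have l3221 : -(dot3 (1, 1, 1) (2, 2, 1)) = 1 := by decide
  have l3222 : -(dot3 (1, 1, 1) (2, 2, 2)) = 0 := by decide
  rw [hcard, sum_A3] at hm0
  simp only [l0000, l0001, l0002, l0010, l0011, l0012, l0020, l0021, l0022, l0100, l0101, l0102, l0110, l0111, l0112, l0120, l0121, l0122, l0200, l0201, l0202, l0210, l0211, l0212, l0220, l0221, l0222, c001, c002, c010, c011, c012, c020, c021, c022, c101, c102, c112, c120, c121, c122, c200, c201, c202, c210, c211, c212, c220, c221, c222, hz, e3_zero, e3_one, e3_two] at hm0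
  rw [hcard, sum_A3] at hm1
  simp only [l1000, l1001, l1002, l1010, l1011, l1012, l1020, l1021, l1022, l1100, l1101, l1102, l1110, l1111, l1112, l1120, l1121, l1122, l1200, l1201, l1202, l1210, l1211, l1212, l1220, l1221, l1222, c001, c002, c010, c011, c012, c020, c021, c022, c101, c102, c112, c120, c121, c122, c200, c201, c202, c210, c211, c212, c220, c221, c222, hz, e3_zero, e3_one, e3_two] at hm1
  rw [hcard, sum_A3] at hm2
  simp only [l2000, l2001, l2002, l2010, l2011, l2012, l2020, l2021, l2022, l2100, l2101, l2102, l2110, l2111, l2112, l2120, l2121, l2122, l2200, l2201, l2202, l2210, l2211, l2212, l2220, l2221, l2222, c001, c002, c010, c011, c012, c020, c021, c022, c101, c102, c112, c120, c121, c122, c200, c201, c202, c210, c211, c212, c220, c221, c222, hz, e3_zero, e3_one, e3_two] at hm2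
  rw [hcard, sum_A3] at hm3
  simp only [l3000, l3001, l3002, l3010, l3011, l3012, l3020, l3021, l3022, l3100, l3101, l3102, l3110, l3111, l3112, l3120, l3121, l3122, l3200, l3201, l3202, l3210, l3211, l3212, l3220, l3221, l3222, c001, c002, c010, c011, c012, c020, c021, c022, c101, c102, c112, c120, c121, c122, c200, c201, c202, c210, c211, c212, c220, c221, c222, hz, e3_zero, e3_one, e3_two] at hm3
  refine ⟨m0, m1, m2, m3, ?_, ?_, ?_, ?_⟩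
  · linear_combination hm0
  · linear_combination hm1
  · linear_combination hm2
  · linear_combination hm3

/-- multiplicities for the elements of order 12 -/
theorem Con.vals12 (χ : IrrCharacter G) : ∃ m0 m1 m2 m3 m4 m5 m6 : ℕ,
    (χ : G → ℂ) (D.mm (sp 7)) = ((m0 : ℂ) + m2 - m4 - m6) + ((m1 : ℂ) - m5) * qq ∧
    (χ : G → ℂ) (D.mm (sp 8)) = ((m0 : ℂ) + m2 - m4 - m6) - ((m1 : ℂ) - m5) * qq ∧
    (χ : G → ℂ) (D.mm (sp 5)) = (m0 : ℂ) + m1 - m2 - 2 * m3 - m4 + m5 + m6 ∧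
    (χ : G → ℂ) (D.mm (sp 0)) = (m0 : ℂ) - m1 - m2 + 2 * m3 - m4 - m5 + m6 := by
  have hg : D.mm (sp 7) ^ 12 = 1 := by
    rw [D.mm_pow, show pwP 12 (sp 7) = (0, 0) by decide +kernel, D.mm_one]
  have k : ∀ c u : ℂ, u ^ 12 = 1 → u + u ^ 11 = c → ∃ m : ℕ,
      (χ : G → ℂ) 1 + (χ : G → ℂ) (D.mm (sp 7)) * c + (χ : G → ℂ) (D.mm (sp 5)) * (c ^ 2 - 2) +
      (χ : G → ℂ) (D.mm (pwP 3 (sp 7))) * (c ^ 3 - 3 * c) + (χ : G → ℂ) (D.mm (sp 0)) * ((c ^ 2 - 2) ^ 2 - 2) +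
      (χ : G → ℂ) (D.mm (sp 8)) * (c * ((c ^ 2 - 2) ^ 2 - 2) - (c ^ 3 - 3 * c)) +
      (χ : G → ℂ) (D.mm (pwP 6 (sp 7))) * (((c ^ 3 - 3 * c) ^ 2 - 2) / 2) = 12 * m := by
    intro c u hu hc
    obtain ⟨m, hm⟩ := exists_cyc (irr_isCharacter χ) (D.mm (sp 7)) 12 (by norm_num) hg u hu
    refine ⟨m, ?_⟩
    simp only [Finset.sum_range_succ, Finset.sum_range_zero, D.mm_pow] at hm
    have p0 : (χ : G → ℂ) (D.mm (pwP 0 (sp 7))) = (χ : G → ℂ) 1 := by rw [pwP, D.mm_one]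
    have p1 : (χ : G → ℂ) (D.mm (pwP 1 (sp 7))) = (χ : G → ℂ) (D.mm (sp 7)) :=
      chi_conj χ (D.conj_of (by decide +kernel))
    have p2 : (χ : G → ℂ) (D.mm (pwP 2 (sp 7))) = (χ : G → ℂ) (D.mm (sp 5)) :=
      chi_conj χ (D.conj_of (by decide +kernel))
    have p4 : (χ : G → ℂ) (D.mm (pwP 4 (sp 7))) = (χ : G → ℂ) (D.mm (sp 0)) :=
      chi_conj χ (D.conj_of (by decide +kernel))
    have p5 : (χ : G → ℂ) (D.mm (pwP 5 (sp 7))) = (χ : G → ℂ) (D.mm (sp 8)) :=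
      chi_conj χ (D.conj_of (by decide +kernel))
    have p7 : (χ : G → ℂ) (D.mm (pwP 7 (sp 7))) = (χ : G → ℂ) (D.mm (sp 8)) :=
      chi_conj χ (D.conj_of (by decide +kernel))
    have p8 : (χ : G → ℂ) (D.mm (pwP 8 (sp 7))) = (χ : G → ℂ) (D.mm (sp 0)) :=
      chi_conj χ (D.conj_of (by decide +kernel))
    have p9 : (χ : G → ℂ) (D.mm (pwP 9 (sp 7))) = (χ : G → ℂ) (D.mm (pwP 3 (sp 7))) :=
      chi_conj χ (D.conj_of (by decide +kernel))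
    have p10 : (χ : G → ℂ) (D.mm (pwP 10 (sp 7))) = (χ : G → ℂ) (D.mm (sp 5)) :=
      chi_conj χ (D.conj_of (by decide +kernel))
    have p11 : (χ : G → ℂ) (D.mm (pwP 11 (sp 7))) = (χ : G → ℂ) (D.mm (sp 7)) :=
      chi_conj χ (D.conj_of (by decide +kernel))
    rw [p0, p1, p2, p4, p5, p7, p8, p9, p10, p11] at hm
    generalize (χ : G → ℂ) 1 = d at hm ⊢
    generalize (χ : G → ℂ) (D.mm (sp 7)) = A at hm ⊢
    generalize (χ : G → ℂ) (D.mm (sp 8)) = B at hm ⊢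
    generalize (χ : G → ℂ) (D.mm (sp 5)) = S at hm ⊢
    generalize (χ : G → ℂ) (D.mm (sp 0)) = X at hm ⊢
    generalize (χ : G → ℂ) (D.mm (pwP 3 (sp 7))) = O at hm ⊢
    generalize (χ : G → ℂ) (D.mm (pwP 6 (sp 7))) = T at hm ⊢
    have c2 : c ^ 2 - 2 = u ^ 2 + u ^ 10 := by
      rw [← hc]; linear_combination (2 + u ^ 10) * hu
    have c3 : c ^ 3 - 3 * c = u ^ 3 + u ^ 9 := by
      have : c ^ 3 - 3 * c = c * (c ^ 2 - 2) - c := by ring
      rw [this, c2, ← hc]; linear_combination (u + u ^ 9) * hu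
    have c4 : (c ^ 2 - 2) ^ 2 - 2 = u ^ 4 + u ^ 8 := by
      rw [c2]; linear_combination (2 + u ^ 8) * hu
    have c5 : c * ((c ^ 2 - 2) ^ 2 - 2) - (c ^ 3 - 3 * c) = u ^ 5 + u ^ 7 := by
      rw [c4, c3, ← hc]; linear_combination (u ^ 3 + u ^ 7) * hu
    have c6 : ((c ^ 3 - 3 * c) ^ 2 - 2) / 2 = u ^ 6 := by
      rw [c3]; linear_combination ((2 + u ^ 6) / 2) * hu
    rw [c6, c5, c4, c3, c2]
    push_cast at hm
    rw [← hc]
    linear_combination hm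
  have ho := om_rel
  have ho3 := om_cube
  have hI := Complex.I_sq
  have hq := qq_sq
  have o12 : om ^ 12 = 1 := by
    have : om ^ 12 = (om ^ 3) ^ 4 := by ring
    rw [this, ho3, one_pow]
  have o11 : om ^ 11 = om ^ 2 := by
    have : om ^ 11 = (om ^ 3) ^ 3 * om ^ 2 := by ring
    rw [this, ho3, one_pow, one_mul]
  have I12 : Complex.I ^ 12 = 1 := by
    have : Complex.I ^ 12 = (Complex.I ^ 2) ^ 6 := by ring
    rw [this, hI]; norm_num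
  have I11 : Complex.I ^ 11 = -Complex.I := by
    have : Complex.I ^ 11 = (Complex.I ^ 2) ^ 5 * Complex.I := by ring
    rw [this, hI]; norm_num
  obtain ⟨m0, h0⟩ := k 2 1 (by norm_num) (by norm_num)
  obtain ⟨m1, h1⟩ := k qq (-(Complex.I * om)) (by rw [Even.neg_pow (by decide), mul_pow, I12, o12, one_mul])
    (by rw [Odd.neg_pow (by decide), mul_pow, I11, o11, ho]; unfold qq; ring)
  obtain ⟨m2, h2⟩ := k 1 (-om) (by rw [Even.neg_pow (by decide), o12]) (by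
    rw [Odd.neg_pow (by decide), o11, ho]; ring)
  obtain ⟨m3, h3⟩ := k 0 Complex.I I12 (by rw [I11]; ring)
  obtain ⟨m4, h4⟩ := k (-1) om o12 (by rw [o11, ho]; ring)
  obtain ⟨m5, h5⟩ := k (-qq) (Complex.I * om) (by rw [mul_pow, I12, o12, one_mul])
    (by rw [mul_pow, I11, o11, ho]; unfold qq; ring)
  obtain ⟨m6, h6⟩ := k (-2) (-1) (by norm_num) (by norm_num)
  clear k
  generalize (χ : G → ℂ) 1 = d at *
  generalize (χ : G → ℂ) (D.mm (sp 7)) = A at *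
  generalize (χ : G → ℂ) (D.mm (sp 8)) = B at *
  generalize (χ : G → ℂ) (D.mm (sp 5)) = S at *
  generalize (χ : G → ℂ) (D.mm (sp 0)) = X at *
  generalize (χ : G → ℂ) (D.mm (pwP 3 (sp 7))) = O at *
  generalize (χ : G → ℂ) (D.mm (pwP 6 (sp 7))) = T at *
  have hq3 : qq ^ 3 = 3 * qq := by rw [pow_succ, hq]
  have e1 : d + qq * A + S - X - qq * B - T = 12 * m1 := by
    rw [← h1, hq3, hq]; ring
  have e5 : d - qq * A + S - X + qq * B - T = 12 * m5 := by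
    have n2 : (-qq) ^ 2 = 3 := by rw [neg_pow_two, hq]
    have n3 : (-qq) ^ 3 = -(3 * qq) := by rw [Odd.neg_pow (by decide), hq3]
    rw [← h5, n3, n2]; ring
  clear h1 h5
  refine ⟨m0, m1, m2, m3, m4, m5, m6, ?_, ?_, ?_, ?_⟩
  · linear_combination (1 / 12) * (h0 + h2 - h4 - h6) + (qq / 12) * (e1 - e5) - ((A - B) / 6) * hq
  · linear_combination (1 / 12) * (h0 + h2 - h4 - h6) - (qq / 12) * (e1 - e5) + ((A - B) / 6) * hq
  · linear_combination (1 / 12) * (h0 + e1 - h2 - 2 * h3 - h4 + e5 + h6)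
  · linear_combination (1 / 12) * (h0 - e1 - h2 + 2 * h3 - h4 - e5 + h6)

/-- multiplicities for the elements of order 6 -/
theorem Con.vals6 (χ : IrrCharacter G) : ∃ m0 m1 m2 m3 : ℕ,
    (χ : G → ℂ) (D.mm (sp 6)) = (m0 : ℂ) + m1 - m2 - m3 ∧
    (χ : G → ℂ) (D.mm (sp 1)) = (m0 : ℂ) - m1 - m2 + m3 := by
  have hg : D.mm (sp 6) ^ 6 = 1 := by
    rw [D.mm_pow, show pwP 6 (sp 6) = (0, 0) by decide +kernel, D.mm_one]
  have p0 : (χ : G → ℂ) (D.mm (pwP 0 (sp 6))) = (χ : G → ℂ) 1 := by rw [pwP, D.mm_one]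
  have p1 : (χ : G → ℂ) (D.mm (pwP 1 (sp 6))) = (χ : G → ℂ) (D.mm (sp 6)) :=
    chi_conj χ (D.conj_of (by decide +kernel))
  have p2 : (χ : G → ℂ) (D.mm (pwP 2 (sp 6))) = (χ : G → ℂ) (D.mm (sp 1)) :=
    chi_conj χ (D.conj_of (by decide +kernel))
  have p4 : (χ : G → ℂ) (D.mm (pwP 4 (sp 6))) = (χ : G → ℂ) (D.mm (sp 1)) :=
    chi_conj χ (D.conj_of (by decide +kernel))
  have p5 : (χ : G → ℂ) (D.mm (pwP 5 (sp 6))) = (χ : G → ℂ) (D.mm (sp 6)) :=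
    chi_conj χ (D.conj_of (by decide +kernel))
  have ho := om_rel
  have ho3 := om_cube
  have o6 : om ^ 6 = 1 := by
    have : om ^ 6 = (om ^ 3) ^ 2 := by ring
    rw [this, ho3, one_pow]
  obtain ⟨m0, h0⟩ := exists_cyc (irr_isCharacter χ) (D.mm (sp 6)) 6 (by norm_num) hg 1 (by norm_num)
  obtain ⟨m1, h1⟩ := exists_cyc (irr_isCharacter χ) (D.mm (sp 6)) 6 (by norm_num) hg (-om)
    (by rw [Even.neg_pow (by decide), o6])
  obtain ⟨m2, h2⟩ := exists_cyc (irr_isCharacter χ) (D.mm (sp 6)) 6 (by norm_num) hg om o6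
  obtain ⟨m3, h3⟩ := exists_cyc (irr_isCharacter χ) (D.mm (sp 6)) 6 (by norm_num) hg (-1) (by norm_num)
  simp only [Finset.sum_range_succ, Finset.sum_range_zero, D.mm_pow] at h0 h1 h2 h3
  rw [p0, p1, p2, p4, p5] at h0 h1 h2 h3
  clear p0 p1 p2 p4 p5
  generalize (χ : G → ℂ) 1 = d at *
  generalize (χ : G → ℂ) (D.mm (sp 6)) = B at *
  generalize (χ : G → ℂ) (D.mm (sp 1)) = X at *
  generalize (χ : G → ℂ) (D.mm (pwP 3 (sp 6))) = T at *
  push_cast at h0 h1 h2 h3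
  have o4 : om ^ 4 = om := by
    have : om ^ 4 = om ^ 3 * om := by ring
    rw [this, ho3, one_mul]
  have o5 : om ^ 5 = -1 - om := by
    have : om ^ 5 = om ^ 3 * om ^ 2 := by ring
    rw [this, ho3, one_mul, ho]
  have e1 : d + B - X - T = 6 * m1 := by
    rw [← h1]
    have n2 : (-om) ^ 2 = -1 - om := by rw [neg_pow_two, ho]
    have n3 : (-om) ^ 3 = -1 := by rw [Odd.neg_pow (by decide), ho3]
    have n4 : (-om) ^ 4 = om := by rw [Even.neg_pow (by decide), o4]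
    have n5 : (-om) ^ 5 = 1 + om := by rw [Odd.neg_pow (by decide), o5]; ring
    rw [n2, n3, n4, n5]; ring
  have e2 : d - B - X + T = 6 * m2 := by
    rw [← h2, o5, o4, ho3, ho]; ring
  refine ⟨m0, m1, m2, m3, ?_, ?_⟩
  · linear_combination (1 / 6) * (h0 + e1 - e2 - h3)
  · linear_combination (1 / 6) * (h0 - e1 - e2 + h3)

/-- multiplicities for the elements of order 9 -/
theorem Con.vals9 (χ : IrrCharacter G) (i : Fin 9) (hi : i = 3 ∨ i = 4) : ∃ m0 m1 : ℕ,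
    (χ : G → ℂ) 1 + 6 * (χ : G → ℂ) (D.mm (sp i)) + 2 * (χ : G → ℂ) (D.mm (sp 2)) = 9 * m0 ∧
    (χ : G → ℂ) 1 - 3 * (χ : G → ℂ) (D.mm (sp i)) + 2 * (χ : G → ℂ) (D.mm (sp 2)) = 9 * m1 := by
  have hg : D.mm (sp i) ^ 9 = 1 := by
    rw [D.mm_pow, show pwP 9 (sp i) = (0, 0) by rcases hi with rfl | rfl <;> decide +kernel, D.mm_one]
  have p0 : (χ : G → ℂ) (D.mm (pwP 0 (sp i))) = (χ : G → ℂ) 1 := by rw [pwP, D.mm_one]
  have hp : ∀ k ∈ ([1, 2, 4, 5, 7, 8] : List ℕ), (χ : G → ℂ) (D.mm (pwP k (sp i))) = (χ : G → ℂ) (D.mm (sp i)) := by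
    intro k hk
    apply chi_conj χ (D.conj_of ?_)
    have : ∀ k ∈ ([1, 2, 4, 5, 7, 8] : List ℕ), ∀ i : Fin 9, (i = 3 ∨ i = 4) →
      ∃ r, mulP r (pwP k (sp i)) = mulP (sp i) r := by decide +kernel
    exact this k hk i hi
  have hp' : ∀ k ∈ ([3, 6] : List ℕ), (χ : G → ℂ) (D.mm (pwP k (sp i))) = (χ : G → ℂ) (D.mm (sp 2)) := by
    intro k hk
    apply chi_conj χ (D.conj_of ?_)
    have : ∀ k ∈ ([3, 6] : List ℕ), ∀ i : Fin 9, (i = 3 ∨ i = 4) →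
      ∃ r, mulP r (pwP k (sp i)) = mulP (sp 2) r := by decide +kernel
    exact this k hk i hi
  have p1 := hp 1 (by simp)
  have p2 := hp 2 (by simp)
  have p3 := hp' 3 (by simp)
  have p4 := hp 4 (by simp)
  have p5 := hp 5 (by simp)
  have p6 := hp' 6 (by simp)
  have p7 := hp 7 (by simp)
  have p8 := hp 8 (by simp)
  have ho := om_rel
  have ho3 := om_cube
  obtain ⟨m0, h0⟩ := exists_cyc (irr_isCharacter χ) (D.mm (sp i)) 9 (by norm_num) hg 1 (by norm_num)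
  obtain ⟨m1, h1⟩ := exists_cyc (irr_isCharacter χ) (D.mm (sp i)) 9 (by norm_num) hg om (by
    have : om ^ 9 = (om ^ 3) ^ 3 := by ring
    rw [this, ho3, one_pow])
  simp only [Finset.sum_range_succ, Finset.sum_range_zero, D.mm_pow] at h0 h1
  rw [p0, p1, p2, p3, p4, p5, p6, p7, p8] at h0 h1
  push_cast at h0 h1
  have o4 : om ^ 4 = om := by
    have : om ^ 4 = om ^ 3 * om := by ring
    rw [this, ho3, one_mul]
  have o5 : om ^ 5 = -1 - om := by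
    have : om ^ 5 = om ^ 3 * om ^ 2 := by ring
    rw [this, ho3, one_mul, ho]
  have o6 : om ^ 6 = 1 := by
    have : om ^ 6 = (om ^ 3) ^ 2 := by ring
    rw [this, ho3, one_pow]
  have o7 : om ^ 7 = om := by
    have : om ^ 7 = (om ^ 3) ^ 2 * om := by ring
    rw [this, ho3, one_pow, one_mul]
  have o8 : om ^ 8 = -1 - om := by
    have : om ^ 8 = (om ^ 3) ^ 2 * om ^ 2 := by ring
    rw [this, ho3, one_pow, one_mul, ho]
  rw [o8, o7, o6, o5, o4, ho3, ho] at h1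
  refine ⟨m0, m1, ?_, ?_⟩
  · linear_combination h0
  · linear_combination h1

end

end Cfsg.Agent.Tri4
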